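import Cfsg.Agent.Lib.AutOmega.ImproperBalance

/-!
Local balance at outer automorphisms of prime order of even orthogonal groups.
-/

set_option autoImplicit false

namespace Cfsg.Agent.Lib.AutOmega

open QuadraticMap hiding proj
open Cfsg.Agent.Lib.Classical.Quad Cfsg.Agent.Lib.Classical.QuadOmega Cfsg.Agent.Lib.Classical.QuadF2
open Cfsg.Agent.Lib.AutOmegaOdd (Semi)

universe u

variable {F : Type u} [Field F] [Fintype F]

theorem ringChar_two {r : ℕ} [CharP F r] (hr : r ≠ 2) : (2 : F) ≠ 0 := fun h => by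
  obtain ⟨d, hpp, -⟩ := FiniteField.card F r
  exact hr ((Nat.prime_dvd_prime_iff_eq hpp Nat.prime_two).1
    ((CharP.cast_eq_zero_iff F r 2).1 (by exact_mod_cast h)))

theorem inducedI_of_act {m : ℕ} {a b : F} (hab : Aniso a b) (hm : 3 ≤ m)
    {χ : Semi (minusQ m a b)} (hχ : χ ∈ (properMinus hab hm).P) :
    Cfsg.IsInnerDiagonalAutPOmegaMinus m a b
      (act (fun v => minusQ_apply m a b v) (good_minusQ hab hm) χ) := by
  obtain ⟨g, hg, hi⟩ := pair_of_semi (fun v => minusQ_apply m a b v) (good_minusQ hab hm) χ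
  have hσ : χ.σ = 1 := (properMinus hab hm).le hχ
  rw [hσ] at hg hi
  refine ⟨g, ⟨Units.mk0 χ.H χ.H0, fun v => ?_⟩, ?_, hi⟩
  · rw [← minusQ_apply, ← minusQ_apply,
      show (g : Matrix _ _ F).mulVec v = χ.map v from hg v, χ.map_Q, hσ]
    rfl
  · exact (psc_minus_iff_dm hab (by omega) χ _ hσ hg).2 hχ

/-- Local balance in `PΩ⁻`. -/
theorem balance_minus {r : ℕ} [CharP F r] {m : ℕ} (hm : 3 ≤ m) (a b : F) (hab : Aniso a b)
    (A : Subgroup (MulAut (Cfsg.POmega F (Cfsg.quadFormMinus m F a b))))
    (hinn : ∀ k : Cfsg.POmega F (Cfsg.quadFormMinus m F a b), MulAut.conj k ∈ A)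
    {p : ℕ} [Fact p.Prime] (hpr : p ≠ r) (x : MulAut (Cfsg.POmega F (Cfsg.quadFormMinus m F a b)))
    (hxA : x ∈ A) (hord : orderOf x = p)
    (hnot : ¬ Cfsg.IsInnerDiagonalAutPOmegaMinus m a b x) :
    Cfsg.pPrimeCore p ↥(A ⊓ Subgroup.centralizer {x}) ≠ ⊥ ↔
      (Cfsg.IsFieldAutClassPOmegaMinus m x ∧ Nat.Coprime p (Nat.card ↥(MonoidHom.eqLocus
        x.toMonoidHom (MonoidHom.id (Cfsg.POmega F (Cfsg.quadFormMinus m F a b)))))) := by
  classical
  have hp : p.Prime := Fact.out
  have hsurj := act_surjective (fun v => minusQ_apply m a b v) (good_minusQ hab hm)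
    (hyp_minus hab hm)
  haveI : Nonempty ((Fin m ⊕ Fin m) ⊕ Fin 2) := ⟨.inr 0⟩
  obtain ⟨χ, rfl⟩ := hsurj x
  by_cases hσ : χ.σ = 1
  · -- a graph automorphism
    have hnotP : χ ∉ (properMinus hab hm).P := fun h => hnot (inducedI_of_act hab hm h)
    have hp2 : p = 2 := by
      by_contra hp2
      obtain ⟨l, hl⟩ := (act_eq_one_iff _ _).1
        (show act (fun v => minusQ_apply m a b v) (good_minusQ hab hm) (χ ^ p) = 1 by
          rw [map_pow, ← hord, pow_orderOf_eq_one])
      obtain ⟨v, hv⟩ := exists_nonsing_vec (good_minusQ hab hm).nd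
      obtain ⟨u, hu⟩ := hp.eq_two_or_odd'.resolve_left hp2
      refine hnotP ?_
      haveI := (properMinus hab hm).normal
      rcases (properMinus hab hm).mem_or _ _ hσ hv with h1 | h1
      · exact h1
      · exfalso
        set R := ofIso (minusQ m a b) (refl (minusQ m a b) v)
        have hR : R * R = 1 := by rw [← map_mul, refl_mul_self hv, map_one]
        have key : (QuotientGroup.mk χ : Semi (minusQ m a b) ⧸ (properMinus hab hm).P) =
            QuotientGroup.mk R := by
          rw [QuotientGroup.eq]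
          have h2 := (properMinus hab hm).normal.conj_mem _ h1 R
          have e : R * (χ * R) * R⁻¹ = R * χ := by rw [mul_assoc, mul_assoc χ, mul_inv_cancel, mul_one]
          rw [e] at h2
          have h3 := inv_mem h2
          rwa [mul_inv_rev, show R⁻¹ = R from inv_eq_of_mul_eq_one_right hR] at h3
        have h4 : (QuotientGroup.mk R : Semi (minusQ m a b) ⧸ (properMinus hab hm).P) ^ p = 1 := by
          rw [← key, ← QuotientGroup.mk_pow, QuotientGroup.eq_one_iff, hl]
          exact (properMinus hab hm).scalar l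
        rw [← QuotientGroup.mk_pow, hu, pow_succ, pow_mul, pow_two, hR, one_pow, one_mul,
          QuotientGroup.eq_one_iff] at h4
        exact (properMinus hab hm).refl_not _ _ hv h4
    subst hp2
    have h2 : (2 : F) ≠ 0 := ringChar_two (r := r) (Ne.symm hpr)
    obtain ⟨l, hl⟩ := (act_eq_one_iff _ _).1
      (show act (fun v => minusQ_apply m a b v) (good_minusQ hab hm) (χ * χ) = 1 by
        rw [map_mul, ← pow_two]; exact orderOf_dvd_iff_pow_eq_one.1 hord.dvd)
    obtain ⟨L, iL, iF, em, hcard⟩ := exists_quadratic (F := F)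
    obtain ⟨t₁, t₂, ht, hs, hpr'⟩ := exists_roots_ext em hcard hab
    have h2L : (2 : L) ≠ 0 := fun h0 => h2 (em.injective (by rw [map_ofNat, h0, map_zero]))
    have hcore := improper_core (properMinus hab hm) hsurj h2 (compat_split em ht hs hpr')
      (fun g => by
        rw [pol_ext_eq hab (by omega) ht hs hpr']
        exact ⟨fun h => h.2, fun h => ⟨g.2, h⟩⟩)
      (fun d => isSquare_em_two hcard h2L d) hσ hnotP hl (by omega) A hinn
    refine ⟨fun h => absurd hcore h, fun h => ?_⟩
    exfalso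
    obtain ⟨φ, he, hφ⟩ := semi_of_field_minus hab hm h.1
    obtain ⟨c, hc⟩ := (act_eq_iff _ _).1 he
    refine hφ ?_
    have := congrArg Semi.σ hc
    simpa [hσ] using this.symm
  · -- a field automorphism
    obtain ⟨hro, l, hl⟩ := semi_of_prime _ _ hσ hp hord
    letI : Fintype (AutOmegaOdd.fixF χ.σ) := Fintype.ofFinite _
    have hι := fixF_range χ.σ
    obtain ⟨hodd, hconj⟩ := minus_conj hab hm hι hp hro rfl hl
    obtain ⟨ζ, hζ⟩ := Classical.UnitaryFlat.exists_aniso (AutOmegaOdd.fixF χ.σ)
    obtain ⟨J, hJ, hext⟩ := exists_minus_proper_model hab hm hι hro hodd hζ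
    obtain ⟨z, -, he⟩ := hconj 1 ζ hζ J hJ
    have hne2 : p ≠ 2 := fun h => by rw [h] at hodd; exact absurd hodd (by decide)
    rw [balance_std (properMinus hab hm) (properMinus hζ hm) hJ hext hι (reg_minus (by omega))
      hsurj hro (fun h => absurd h hne2) A hinn hxA hord he, and_iff_right]
    exact field_of_conj hab hm hι hodd hro hζ hJ he
where
  field_of_conj {m : ℕ} {a b : F} (hab : Aniso a b) (hm : 3 ≤ m)
      {σ : F ≃+* F} {K : Type u} [Field K] [Fintype K] {em : K →+* F}
      (hι : ∀ y : F, σ y = y ↔ y ∈ Set.range em) {p : ℕ} [Fact p.Prime] (hodd : Odd p)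
      (hro : orderOf σ = p) {a₀ b₀ : K} (h₀ : Aniso a₀ b₀)
      {J : ((Fin m ⊕ Fin m) ⊕ Fin 2 → F) ≃ₗ[F] ((Fin m ⊕ Fin m) ⊕ Fin 2 → F)}
      (h : Compat em J (minusQ m a₀ b₀) (minusQ m a b))
      {x z : MulAut (Cfsg.POmega F (Cfsg.quadFormMinus m F a b))}
      (he : x = z * act (fun v => minusQ_apply m a b v) (good_minusQ hab hm) (stdS h hι) * z⁻¹) :
      Cfsg.IsFieldAutClassPOmegaMinus m x := by
    have hσne : σ ≠ 1 := fun h0 => by
      rw [h0, orderOf_one] at hro
      exact (Fact.out : p.Prime).one_lt.ne hro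
    have hab' : Aniso (em a₀) (em b₀) := aniso_odd hι hro hodd h₀
    have ha' : σ (em a₀) = em a₀ := (hι _).2 ⟨_, rfl⟩
    have hb' : σ (em b₀) = em b₀ := (hι _).2 ⟨_, rfl⟩
    let S' : Semi (minusQ m (em a₀) (em b₀)) :=
      { σ := σ, H := 1, H0 := one_ne_zero
        map := AddEquiv.piCongrRight fun _ => σ.toAddEquiv
        map_smul := fun c v => funext fun i => map_mul σ _ _
        map_Q := fun v => by simp [minusQ_apply, Cfsg.quadFormMinus, ha', hb'] }
    have hJQ : ∀ v, minusQ m a b (J v) = minusQ m (em a₀) (em b₀) v := fun v => by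
      have := form_semilin em (LinearEquiv.refl F ((Fin m ⊕ Fin m) ⊕ Fin 2 → F))
        (S := minusQ m a b) (Q := minusQ m (em a₀) (em b₀)) (RingHom.id F)
        J.toAddEquiv.toAddMonoidHom (fun c y => map_smul J c y) 1 (fun w => ?_) v
      · simpa using this
      · rw [one_mul, RingHom.id_apply]
        show minusQ m a b (kp em J w) = minusQ m (em a₀) (em b₀) (fun i => em (w i))
        rw [h, minusQ_apply, minusQ_apply]
        simp [Cfsg.quadFormMinus]
    set e := pomTrans (fun v => minusQ_apply m (em a₀) (em b₀) v) (fun v => minusQ_apply m a b v)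
      (good_minusQ hab' hm) (good_minusQ hab hm) J hJQ
    have hT := pomTrans_act (fun v => minusQ_apply m (em a₀) (em b₀) v)
      (fun v => minusQ_apply m a b v) (good_minusQ hab' hm) (good_minusQ hab hm) J hJQ S'
    have hS : transSemi J hJQ S' = stdS h hι := semi_eq_of_kp (em := em) (J := J) rfl
      (by simp [transSemi, stdS, S']) fun v => by
        rw [stdS_kp]
        show J (S'.map (J.symm (kp em J v))) = _
        rw [kp, J.symm_apply_apply]
        congr 1
        funext i
        exact (hι _).2 ⟨_, rfl⟩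
    rw [hS] at hT
    let zi : MulAut (Cfsg.POmega F (Cfsg.quadFormMinus m F a b)) := z⁻¹
    refine ⟨em a₀, em b₀, zi.trans e.symm, σ, hab', hσne, ha', hb', ?_⟩
    have hcomb : (((zi.trans e.symm).symm.trans x).trans (zi.trans e.symm)) =
        act (fun v => minusQ_apply m (em a₀) (em b₀) v) (good_minusQ hab' hm) S' := by
      refine MulEquiv.ext fun w => ?_
      have h1 : z⁻¹ * x * z = act (fun v => minusQ_apply m a b v) (good_minusQ hab hm) (stdS h hι) := by
        rw [he]; group
      have h2 := DFunLike.congr_fun h1 (e w)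
      have h3 := DFunLike.congr_fun hT (e w)
      simp only [MulEquiv.trans_apply, MulEquiv.symm_trans_apply, MulEquiv.symm_symm,
        MulAut.mul_apply, e, zi] at h2 h3 ⊢
      simp only [MulEquiv.symm_apply_apply] at h3
      rw [show (z⁻¹ : MulAut _).symm = z from rfl, h2, ← h3, MulEquiv.symm_apply_apply]
    rw [hcomb]
    obtain ⟨g, hg, hi⟩ := pair_of_semi (fun v => minusQ_apply m (em a₀) (em b₀) v)
      (good_minusQ hab' hm) S'
    intro s s' hss
    refine hi s s' ?_
    have hgone : g = 1 := Units.ext (Matrix.ext_of_mulVec_single fun i => by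
      rw [Units.val_one, Matrix.one_mulVec]
      have h1 := hg (fun j => σ.symm ((Pi.single i (1 : F) : _ → F) j))
      have e' : (fun j => σ (σ.symm ((Pi.single i (1 : F) : _ → F) j))) = Pi.single i 1 :=
        funext fun j => σ.apply_symm_apply _
      rw [← e']
      exact h1.trans rfl)
    rw [hss, hgone, inv_one, Units.val_one, one_mul, mul_one]

end Cfsg.Agent.Lib.AutOmega
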