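import Cfsg.Agent.Lib.AutOmega.FieldThms

/-!
Semisimilitudes centralising perfect groups of isometries, and their simple images.
-/

set_option autoImplicit false

namespace Cfsg.Agent.Lib.AutOmega

open QuadraticMap hiding proj
open Cfsg.Agent.Lib.Classical.Quad Cfsg.Agent.Lib.Classical.QuadOmega
open Cfsg.Agent.Lib.AutOmegaOdd (G G_ext Semi)
open scoped commutatorElement

universe u v w

theorem refl_self {F : Type u} [Field F] {V : Type v} [AddCommGroup V] [Module F V]
    {Q : QuadraticForm F V} {w : V} (hw : Q w ≠ 0) : (refl Q w).1 w = -w := by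
  rw [refl_apply hw, polar_self, nsmul_eq_mul, mul_div_assoc, div_self hw, Nat.cast_ofNat, mul_one,
    two_smul]
  abel

section perfect

variable {F : Type u} [Field F] [Fintype F] {ι : Type} [Fintype ι] [DecidableEq ι]
  {f : (ι → F) → F} {Q : QuadraticForm F (ι → F)} (hf : ∀ v, Q v = f v) (hG : Good Q)

omit [DecidableEq ι] in
theorem negOne_central (g : isoG Q) : negOne Q * g = g * negOne Q :=
  ofIso_injective (Q := Q) (by
    rw [map_mul, map_mul, ← ofScalar_negOne, ofScalar_comm _ (ofIso_σ g)])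

/-- Commuting in the automorphism group means commuting up to sign. -/
theorem conjI_eq_or (ψ : Semi Q) (g : isoG Q)
    (h : act hf hG ψ * act hf hG (ofIso Q g) = act hf hG (ofIso Q g) * act hf hG ψ) :
    ψ.conjI g = g ∨ ψ.conjI g = negOne Q * g := by
  rw [← map_mul, mul_ofIso, map_mul, mul_right_cancel_iff, act_eq_iff] at h
  obtain ⟨c, hc⟩ := h
  have hH := congrArg Semi.H hc
  simp only [semi_mul_H, ofScalar_H, ofScalar_σ, ofIso_H, map_one, mul_one] at hH
  rcases mul_self_eq_one_iff.1 hH.symm with e | e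
  · left
    obtain rfl : c = 1 := Units.ext e
    rw [map_one, one_mul] at hc
    exact ofIso_injective hc
  · right
    obtain rfl : c = -1 := Units.ext (by rw [e]; simp)
    rw [ofScalar_negOne, ← map_mul] at hc
    exact ofIso_injective hc

/-- Centralising the image of a perfect group means centralising it. -/
theorem conjI_eq_of_perfect (ψ : Semi Q) (D : Subgroup (isoG Q)) (hD : D ≤ ⁅D, D⁆)
    (h : ∀ g ∈ D, act hf hG ψ * act hf hG (ofIso Q g) = act hf hG (ofIso Q g) * act hf hG ψ) :
    ∀ g ∈ D, ψ.conjI g = g := by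
  suffices e : ⁅D, D⁆ ≤ MonoidHom.eqLocus ψ.conjI (MonoidHom.id _) from fun g hg => e (hD hg)
  rw [Subgroup.commutator_le]
  intro a ha b hb
  show ψ.conjI ⁅a, b⁆ = ⁅a, b⁆
  rw [map_commutatorElement]
  have hxy : ∀ x y : isoG Q, ⁅negOne Q * x, y⁆ = ⁅x, y⁆ := fun x y => by
    have e : negOne Q * x * y * (negOne Q * x)⁻¹ = x * y * x⁻¹ := by
      calc negOne Q * x * y * (negOne Q * x)⁻¹
          = negOne Q * (x * y * x⁻¹) * (negOne Q)⁻¹ := by group
        _ = _ := by rw [negOne_central, mul_inv_cancel_right]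
    rw [commutatorElement_def, commutatorElement_def, e]
  have hz : ∀ x y : isoG Q, ⁅negOne Q * x, y⁆ = ⁅x, y⁆ ∧ ⁅x, negOne Q * y⁆ = ⁅x, y⁆ := fun x y =>
    ⟨hxy x y, by rw [← commutatorElement_inv, hxy, commutatorElement_inv]⟩
  rcases conjI_eq_or hf hG ψ a (h a ha) with e1 | e1 <;>
    rcases conjI_eq_or hf hG ψ b (h b hb) with e2 | e2 <;> rw [e1, e2] <;>
    simp only [(hz _ _).1, (hz _ _).2]

end perfect

section simple

variable {F : Type u} [Field F] [Fintype F] {V : Type v} [AddCommGroup V] [Module F V] [Finite V]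
  {Q : QuadraticForm F V} (hG : Good Q)

include hG in
/-- A semisimilitude centralising `Ω` is a scalar. -/
theorem scalar_of_conjI (ψ : Semi Q) (h : ∀ g ∈ siegelGroup Q, ψ.conjI g = g) :
    ∃ c : Fˣ, ψ = ofScalar Q c := by
  refine (conjP_eq_one_iff hG).1 (MulEquiv.ext fun z => ?_)
  obtain ⟨g, rfl⟩ := pr_surjective z
  rw [conjP_pr, MulAut.one_apply]
  exact congrArg (pr Q) (Subtype.ext (h g.1 g.2))

include hG in
theorem scalar_of_central {z : G Q} (hz : z ∈ Subgroup.center (G Q)) :
    ∃ c : Fˣ, ofIso Q z.1 = ofScalar Q c := by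
  refine scalar_of_conjI hG _ fun g hg => iso_ext fun v => ?_
  obtain ⟨v, rfl⟩ := (ofIso Q z.1).map.surjective v
  rw [AutOmegaOdd.Semi.conjI_apply, ofIso_map, ofIso_map]
  have h := Subgroup.mem_center_iff.1 hz ⟨g, hg⟩
  exact (congrArg (fun x : G Q => x.1.1 v) h).symm

omit [Fintype F] [Finite V] in
theorem central_of_scalar {z : G Q} {c : Fˣ} (h : ofIso Q z.1 = ofScalar Q c) :
    z ∈ Subgroup.center (G Q) := by
  refine Subgroup.mem_center_iff.2 fun g => G_ext fun v => ?_
  have h' : ∀ v, z.1.1 v = (c : F) • v := fun v => congrArg (fun x : Semi Q => x.map v) h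
  show g.1.1 (z.1.1 v) = z.1.1 (g.1.1 v)
  rw [h', h', map_smul]

variable {X : Type w} [Group X]

include hG in
/-- The image of `Ω` under a map whose kernel is the centre is simple. -/
theorem simple_image (φ : G Q →* X) (hker : ∀ z, φ z = 1 ↔ z ∈ Subgroup.center (G Q)) :
    IsSimpleGroup φ.range := by
  haveI := isSimpleGroup_quot hG
  have e : φ.ker = Subgroup.center (G Q) := Subgroup.ext hker
  exact ((QuotientGroup.quotientKerEquivRange φ).symm.trans
    (QuotientGroup.quotientMulEquivOfEq e)).isSimpleGroup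

include hG in
/-- `Ω` has an involution outside the centre in odd characteristic. -/
theorem two_dvd_image (h2 : (2 : F) ≠ 0) (φ : G Q →* X) [Finite X]
    (hker : ∀ z, φ z = 1 ↔ z ∈ Subgroup.center (G Q)) : 2 ∣ Nat.card φ.range := by
  obtain ⟨e, f, a, b, he, hf, ha, hb, hef, hab, hea, heb, hfa, hfb⟩ := hG.two
  have hu : Q (e + f) = 1 := by rw [QuadraticMap.map_add ⇑Q, he, hf, hef]; simp
  have hw : Q (a + b) = 1 := by rw [QuadraticMap.map_add ⇑Q, ha, hb, hab]; simp
  have hu0 : Q (e + f) ≠ 0 := by rw [hu]; exact one_ne_zero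
  have hw0 : Q (a + b) ≠ 0 := by rw [hw]; exact one_ne_zero
  have huw : polar Q (e + f) (a + b) = 0 := by
    simp [polar_add_left, polar_add_right, hea, heb, hfa, hfb]
  have hmem : refl Q (e + f) * refl Q (a + b) ∈ siegelGroup Q := by
    have h := QuotientGroup.eq.1 (mk_refl_eq hG hw0 (hu.trans hw.symm))
    rwa [refl_inv hu0] at h
  let z : G Q := ⟨_, hmem⟩
  have hc : refl Q (a + b) * refl Q (e + f) = refl Q (e + f) * refl Q (a + b) := by
    have h1 := refl_conj hu0 (refl Q (a + b))
    rw [refl_apply_perp hw0 huw] at h1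
    exact mul_inv_eq_iff_eq_mul.1 h1
  have hz2 : z * z = 1 := Subtype.ext (by
    show refl Q (e + f) * refl Q (a + b) * (refl Q (e + f) * refl Q (a + b)) = 1
    rw [mul_assoc, ← mul_assoc (refl Q (a + b)), hc, mul_assoc, refl_mul_self hw0, mul_one,
      refl_mul_self hu0])
  have hz1 : φ z ≠ 1 := fun h => by
    obtain ⟨c, hc⟩ := scalar_of_central hG ((hker z).1 h)
    have hm : ∀ v, z.1.1 v = (c : F) • v := fun v => congrArg (fun x : Semi Q => x.map v) hc
    have hzu : z.1.1 (e + f) = -(e + f) := by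
      show (refl Q (e + f)).1 ((refl Q (a + b)).1 (e + f)) = _
      rw [refl_apply_perp hw0 huw, refl_self hu0]
    have hd : polar Q (e - f) (e + f) = 0 ∧ polar Q (e - f) (a + b) = 0 := by
      simp [polar_sub_left, polar_add_right, polar_self_sing he, polar_self_sing hf, hef,
        polar_comm Q f e, hea, heb, hfa, hfb]
    have hze : z.1.1 (e - f) = e - f := by
      show (refl Q (e + f)).1 ((refl Q (a + b)).1 (e - f)) = _
      rw [refl_apply_perp hw0 hd.2, refl_apply_perp hu0 hd.1]
    rw [hm] at hzu hze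
    have h1 : ((c : F) + 1) • (e + f) = 0 := by rw [add_smul, one_smul, hzu, neg_add_cancel]
    have h2' : ((c : F) - 1) • (e - f) = 0 := by rw [sub_smul, one_smul, hze, sub_self]
    have hne1 : e + f ≠ 0 := fun h0 => hu0 (by rw [h0, map_zero])
    have hne2 : e - f ≠ 0 := fun h0 => by
      have := congrArg (fun x => polar Q x e) h0
      simp [polar_sub_left, polar_self_sing he, polar_comm Q f e, hef] at this
    refine h2 ?_
    linear_combination (smul_eq_zero.1 h1).resolve_right hne1 -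
      (smul_eq_zero.1 h2').resolve_right hne2
  rw [← orderOf_eq_prime (x := (⟨φ z, z, rfl⟩ : φ.range)) (p := 2)
    (Subtype.ext (by rw [SubmonoidClass.coe_pow, pow_two, ← map_mul, hz2, map_one]; rfl))
    fun h => hz1 (congrArg Subtype.val h)]
  exact orderOf_dvd_natCard _

end simple

section odd

variable {X : Type w} [Group X] [Finite X]

/-- A group of odd order and a simple group of even order normalising each other commute. -/
theorem commute_of_odd (N T : Subgroup X) (hT : IsSimpleGroup T) (h2 : 2 ∣ Nat.card T)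
    (hN : (Nat.card N).Coprime 2) (hTN : ∀ t ∈ T, ∀ n ∈ N, t * n * t⁻¹ ∈ N)
    (hNT : ∀ n ∈ N, ∀ t ∈ T, n * t * n⁻¹ ∈ T) {n t : X} (hn : n ∈ N) (ht : t ∈ T) :
    n * t = t * n := by
  have hnorm : ((N ⊓ T).subgroupOf T).Normal :=
    ⟨fun z hz c => Subgroup.mem_inf.2 ⟨hTN c c.2 z (Subgroup.mem_inf.1 hz).1, (c * z * c⁻¹).2⟩⟩
  rcases hnorm.eq_bot_or_eq_top with h | h
  · have hmem : n * t * n⁻¹ * t⁻¹ ∈ N ⊓ T := by
      refine Subgroup.mem_inf.2 ⟨?_, mul_mem (hNT n hn t ht) (inv_mem ht)⟩
      rw [show n * t * n⁻¹ * t⁻¹ = n * (t * n⁻¹ * t⁻¹) by group]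
      exact mul_mem hn (hTN t ht _ (inv_mem hn))
    rw [Subgroup.subgroupOf_eq_bot, disjoint_iff] at h
    have h1 : N ⊓ T = ⊥ := by
      rw [inf_assoc, inf_idem] at h
      exact h
    rw [h1, Subgroup.mem_bot, mul_inv_eq_one, mul_inv_eq_iff_eq_mul] at hmem
    exact hmem
  · exfalso
    rw [Subgroup.subgroupOf_eq_top] at h
    have h1 := h2.trans (Subgroup.card_dvd_of_le (h.trans inf_le_left))
    have h3 := Nat.dvd_gcd h1 (dvd_refl 2)
    rw [show Nat.gcd (Nat.card N) 2 = 1 from hN] at h3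
    exact absurd h3 (by decide)

end odd

end Cfsg.Agent.Lib.AutOmega
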