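import Cfsg.Agent.Lib.AutOmega.Descent

/-!
The centraliser of a standard semisimilitude among proper similitudes.
-/

set_option autoImplicit false

namespace Cfsg.Agent.Lib.AutOmega

open QuadraticMap hiding proj
open Cfsg.Agent.Lib.Classical.Quad Cfsg.Agent.Lib.Classical.QuadOmega
open Cfsg.Agent.Lib.AutOmegaOdd (Semi)

universe u w

variable {F : Type u} [Field F] [Fintype F] {K : Type w} [Field K] [Fintype K] {em : K →+* F}
  {σ : F ≃+* F} {ι κ : Type} [Fintype ι] [DecidableEq ι] [Fintype κ] [DecidableEq κ]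
  {f : (ι → F) → F} {Q : QuadraticForm F (ι → F)} {f₀ : (κ → K) → K}
  {R : QuadraticForm K (κ → K)} {hf : ∀ v, Q v = f v} {hG : Good Q} {hf₀ : ∀ v, R v = f₀ v}
  {hG₀ : Good R} {G : Subgroup (MulAut (Cfsg.POmega F f))}
  {G₀ : Subgroup (MulAut (Cfsg.POmega K f₀))} {J : (κ → F) ≃ₗ[F] (ι → F)}

/-- The proper similitudes of the rational form inside those of the form. -/
noncomputable def extP (D₀ : Proper hf₀ hG₀ G₀) (h : Compat em J R Q) : D₀.P →* Semi Q :=
  (extHom h).comp (Subgroup.inclusion D₀.le)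

theorem extP_apply (D₀ : Proper hf₀ hG₀ G₀) (h : Compat em J R Q) (g : D₀.P) :
    extP D₀ h g = extHom h ⟨g.1, D₀.le g.2⟩ := rfl

/-- The extension is faithful modulo scalars. -/
theorem extHom_eq_scalar [Nonempty ι] [Nonempty κ] (hR : Nd R) (h : Compat em J R Q)
    {g : (sigmaHom R).ker} {c : Fˣ} (hc : extHom h g = ofScalar Q c) :
    ∃ c₀ : Kˣ, g.1 = ofScalar R c₀ := by
  classical
  obtain ⟨j⟩ := ‹Nonempty κ›
  have hkey : ∀ v, kp em J (g.1.map v) = (c : F) • kp em J v := fun v => by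
    rw [← extHom_kp (h := h), hc, ofScalar_map]
  have hcrd : ∀ v i, em (g.1.map v i) = c * em (v i) := fun v i => by
    have := congrArg (fun z => J.symm z i) (hkey v)
    simpa [kp] using this
  set c₀ := g.1.map (Pi.single j 1) j
  have hc₀ : em c₀ = c := by simp [c₀, hcrd]
  have h0 : c₀ ≠ 0 := fun h0 => c.ne_zero (by rw [← hc₀, h0, map_zero])
  refine ⟨Units.mk0 c₀ h0, semi_ext_map hR g.2 fun v => funext fun i => em.injective ?_⟩
  rw [hcrd, ofScalar_map, Pi.smul_apply, smul_eq_mul, map_mul, Units.val_mk0, hc₀]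

/-- The fixed points of a standard semisimilitude. -/
theorem exists_kp_of_fixed {h : Compat em J R Q} (hι : ∀ x : F, σ x = x ↔ x ∈ Set.range em)
    {y : ι → F} (hy : (stdS h hι).map y = y) : ∃ v, kp em J v = y := by
  classical
  have h1 : (stdS h hι).map y = J fun i => σ (J.symm y i) := by
    refine semilin_ext em J (fun t => σ t) (fun z => (stdS h hι).map z)
      (fun z => J fun i => σ (J.symm z i)) (map_add (stdS h hι).map) (fun a b => ?_)
      (stdS h hι).map_smul (fun t x => ?_) (fun v => ?_) y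
    · rw [← map_add]
      congr 1
      funext i
      simp
    · rw [← map_smul]
      congr 1
      funext i
      simp
    · rw [stdS_kp, kp]
      congr 1
      funext i
      rw [J.symm_apply_apply]
      exact ((hι _).2 ⟨v i, rfl⟩).symm
  rw [hy, ← J.symm_apply_eq] at h1
  choose v hv using fun i => (hι _).1 (congrFun h1 i).symm
  exact ⟨v, by rw [kp, funext hv, J.apply_symm_apply]⟩

/-- A semisimilitude centralising the standard one is rational up to a scalar. -/
theorem exists_rational_of_comm [Nonempty ι] (hQ : Nd Q) (h : Compat em J R Q)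
    (hι : ∀ x : F, σ x = x ↔ x ∈ Set.range em) {r : ℕ} (hr : orderOf σ = r) (hr0 : 0 < r)
    {g : Semi Q} (hg : g.σ = 1) {c : Fˣ}
    (hc : stdS h hι * g = ofScalar Q c * (g * stdS h hι)) :
    ∃ (d : Fˣ) (g₀ : (sigmaHom R).ker), ofScalar Q d * g = extHom h g₀ := by
  classical
  set S := stdS h hι
  have hit : ∀ i, S ^ i * g = ofScalar Q (AutPSL.tw (AutPSL.mapU σ) c i) * (g * S ^ i) := by
    intro i
    induction i with
    | zero => simp
    | succ i ih =>
      rw [pow_succ', mul_assoc, ih, ← mul_assoc, mul_ofScalar, mul_assoc, ← mul_assoc S g, hc,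
        mul_assoc (ofScalar Q c), ← mul_assoc (ofScalar Q (Units.map _ _)), ← map_mul,
        mul_assoc g, ← pow_succ', AutPSL.tw_succ, mul_comm c]
      rfl
  have hr1 := hit r
  rw [stdS_pow hr, one_mul, mul_one, right_eq_mul] at hr1
  have hn : c ∈ (AutPSL.normU σ r).ker := by
    refine Units.ext ?_
    have := congrArg (fun x : Semi Q => x.map) hr1
    obtain ⟨v, hv⟩ := exists_nonsing_vec hQ
    have h1 := congrArg (fun x : Semi Q => x.map v) hr1
    simp only [ofScalar_map, semi_one_map] at h1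
    have hv0 : v ≠ 0 := fun h0 => hv (by rw [h0, map_zero])
    exact smul_left_injective F hv0 (h1.trans (one_smul F v).symm)
  rw [AutPSL.ker_normU hr hr0] at hn
  obtain ⟨d, hd⟩ := hn
  have hd' : AutPSL.mapU σ d * c = d := by
    rw [← hd, AutPSL.ratioU_apply, mul_div_cancel]
  set g' := ofScalar Q d * g with hg'
  have hg'σ : g'.σ = 1 := by rw [hg', semi_mul_σ, ofScalar_σ, hg, one_mul]
  have hcomm : S * g' = g' * S := by
    rw [hg', ← mul_assoc, mul_ofScalar, mul_assoc, hc, ← mul_assoc, ← map_mul, mul_assoc]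
    congr 2
  have hfix : ∀ v, S.map (g'.map (kp em J v)) = g'.map (kp em J v) := fun v => by
    rw [← semi_mul_map, hcomm, semi_mul_map, stdS_kp]
  choose g₀ hg₀ using fun v => exists_kp_of_fixed hι (hfix v)
  have hH : σ g'.H = g'.H := by
    have h1 := congrArg Semi.H hcomm
    simpa [S, stdS, hg'σ] using h1
  obtain ⟨H₀, hH₀⟩ := (hι _).1 hH
  have hH0 : H₀ ≠ 0 := fun h0 => g'.H0 (by rw [← hH₀, h0, map_zero])
  let L : (κ → K) →+ (κ → K) := AddMonoidHom.mk' g₀ fun a b => kp_injective em J (by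
    rw [hg₀, kp_add, map_add, kp_add, hg₀, hg₀])
  have hL : Function.Injective L := fun a b hab => kp_injective em J (g'.map.injective (by
    rw [← hg₀, ← hg₀]; exact congrArg (kp em J) hab))
  let g₁ : Semi R :=
    { σ := 1, H := H₀, H0 := hH0
      map := AddEquiv.ofBijective L (Finite.injective_iff_bijective.1 hL)
      map_smul := fun t v => kp_injective em J (by
        show kp em J (g₀ (t • v)) = kp em J (t • g₀ v)
        rw [hg₀, kp_smul, g'.map_smul, hg'σ, kp_smul, hg₀]
        rfl)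
      map_Q := fun v => em.injective (by
        show em (R (g₀ v)) = em (H₀ * R v)
        rw [← h, hg₀, g'.map_Q, hg'σ, map_mul, hH₀, ← h]
        rfl) }
  exact ⟨d, ⟨g₁, rfl⟩, semi_eq_of_kp (em := em) (J := J) hg'σ hH₀.symm fun v => by
    rw [extHom_kp]; exact (hg₀ v).symm⟩

/-- The normality of the group of proper similitudes. -/
theorem Proper.group_normal (D : Proper hf hG G) (hH : Hyp Q) : G.Normal := by
  rw [D.eq]
  exact D.normal.map _ (act_surjective hf hG hH)

theorem inn_le_group (D : Proper hf hG G) : Cfsg.Inn (Cfsg.POmega F f) ≤ G := by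
  rw [D.eq, inn_eq hf hG]
  rintro _ ⟨k, hk, rfl⟩
  refine ⟨_, (D.iso k).2 ?_, rfl⟩
  rw [← commutator_eq hG] at hk
  exact commutator_le_ker _ hk

/-- The centraliser consists of the rational proper similitudes. -/
theorem centralizer_eq [Nonempty ι] (D : Proper hf hG G) (D₀ : Proper hf₀ hG₀ G₀)
    (h : Compat em J R Q) (hext : ∀ g : D₀.P, extP D₀ h g ∈ D.P)
    (hι : ∀ x : F, σ x = x ↔ x ∈ Set.range em) {r : ℕ} (hr : orderOf σ = r) (hr0 : 0 < r)
    [Nonempty κ] :
    G ⊓ Subgroup.centralizer {act hf hG (stdS h hι)} = ((act hf hG).comp (extP D₀ h)).range := by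
  apply le_antisymm
  · rintro x hx
    obtain ⟨hxG, hxC⟩ := Subgroup.mem_inf.1 hx
    rw [D.eq] at hxG
    obtain ⟨g, hg, rfl⟩ := hxG
    rw [Subgroup.mem_centralizer_singleton_iff, ← map_mul, ← map_mul] at hxC
    obtain ⟨c, hc⟩ := (act_eq_iff hf hG).1 hxC.symm
    obtain ⟨d, g₀, hd⟩ := exists_rational_of_comm hG.nd h hι hr hr0 (D.le hg) hc
    have hin : extHom h g₀ ∈ D.P := hd ▸ mul_mem (D.scalar d) hg
    obtain ⟨v, hv⟩ := exists_nonsing_vec (show Nd R from hG₀.nd)
    rcases D₀.mem_or hf₀ hG₀ (g := g₀.1) g₀.2 hv with h1 | h1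
    · refine ⟨⟨g₀.1, h1⟩, ?_⟩
      show act hf hG (extHom h g₀) = _
      rw [← hd, map_mul, act_ofScalar, one_mul]
    · exfalso
      have h2 := hext ⟨_, h1⟩
      obtain ⟨er, hv'⟩ := extI_refl (h := h) hv
      rw [extP_apply, show (⟨g₀.1 * ofIso R (refl R v), _⟩ : (sigmaHom R).ker) =
        g₀ * isoKer R (refl R v) from rfl, map_mul, ← ofIso_extI, er] at h2
      exact D.refl_not hf hG hv' ((D.P.mul_mem_cancel_left hin).1 h2)
  · rintro _ ⟨g, rfl⟩
    refine Subgroup.mem_inf.2 ⟨D.eq ▸ ⟨_, hext g, rfl⟩, ?_⟩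
    rw [Subgroup.mem_centralizer_singleton_iff, MonoidHom.comp_apply, ← map_mul,
      ← map_mul, extP_apply, stdS_comm]

/-- The centraliser is the inner-diagonal group of the rational form. -/
theorem centralizer_iso [Nonempty ι] [Nonempty κ] (D : Proper hf hG G) (D₀ : Proper hf₀ hG₀ G₀)
    (h : Compat em J R Q) (hext : ∀ g : D₀.P, extP D₀ h g ∈ D.P)
    (hι : ∀ x : F, σ x = x ↔ x ∈ Set.range em) {r : ℕ} (hr : orderOf σ = r) (hr0 : 0 < r) :
    Nonempty (↥(G ⊓ Subgroup.centralizer {act hf hG (stdS h hι)}) ≃* ↥G₀) := by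
  have hker : ((act hf hG).comp (extP D₀ h)).ker = ((act hf₀ hG₀).comp D₀.P.subtype).ker := by
    ext g
    rw [MonoidHom.mem_ker, MonoidHom.mem_ker, MonoidHom.comp_apply, MonoidHom.comp_apply,
      act_eq_one_iff, act_eq_one_iff]
    constructor
    · rintro ⟨c, hc⟩
      exact extHom_eq_scalar hG₀.nd h hc
    · rintro ⟨c, hc⟩
      refine ⟨Units.map em.toMonoidHom c, ?_⟩
      rw [← extHom_scalar (h := h), extP_apply]
      congr 1
      exact Subtype.ext hc
  have hrange : ((act hf₀ hG₀).comp D₀.P.subtype).range = G₀ := by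
    rw [MonoidHom.range_comp, Subgroup.range_subtype, ← D₀.eq]
  exact ⟨(MulEquiv.subgroupCongr (centralizer_eq D D₀ h hext hι hr hr0)).trans
    ((QuotientGroup.quotientKerEquivRange _).symm.trans
      ((QuotientGroup.quotientMulEquivOfEq hker).trans
        ((QuotientGroup.quotientKerEquivRange _).trans (MulEquiv.subgroupCongr hrange))))⟩

/-- The number of inner classes in a class. -/
theorem split_count (D : Proper hf hG G) (x : MulAut (Cfsg.POmega F f)) :
    Cfsg.splitClassCount G (Cfsg.Inn (Cfsg.POmega F f)) x =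
      (Cfsg.Inn (Cfsg.POmega F f) ⊔ (G ⊓ Subgroup.centralizer {x})).relIndex G := by
  haveI : (Cfsg.Inn (Cfsg.POmega F f)).Normal := AutPSp.normal_inn
  exact AutPSp.splitClassCount_relIndex _ _ (inn_le_group D) x

end Cfsg.Agent.Lib.AutOmega
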