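import Cfsg.Agent.Lib.AutOmega.FieldAut

/-!
Elements of prime order in the coset of a field or graph-field automorphism.
-/

set_option autoImplicit false

namespace Cfsg.Agent.Lib.AutOmega

open QuadraticMap hiding proj
open Cfsg.Agent.Lib.Classical.Quad Cfsg.Agent.Lib.Classical.QuadOmega Cfsg.Agent.Lib.Classical.QuadF2
open Cfsg.Agent.Lib.AutOmegaOdd (Semi)

universe u

variable {F : Type u} [Field F] [Fintype F]

theorem isConjUnder_of_common {X : Type*} [Group X] {G : Subgroup X} {x y S : X}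
    (hx : ∃ a ∈ G, x = a * S * a⁻¹) (hy : ∃ a ∈ G, y = a * S * a⁻¹) : Cfsg.IsConjUnder G x y := by
  obtain ⟨a, ha, rfl⟩ := hx
  obtain ⟨b, hb, rfl⟩ := hy
  exact ⟨b * a⁻¹, mul_mem hb (inv_mem ha), by group⟩

theorem coset_plus {m : ℕ} (hm : 5 ≤ m) {x δ : MulAut (Cfsg.POmega F (Cfsg.quadFormPlus m F))}
    (hx : Cfsg.IsFieldAutClassPOmega (Cfsg.quadFormPlus m F) x ∨
      Cfsg.IsGraphFieldAutClassPOmegaPlus m x) {r : ℕ} (hr : r.Prime) (hxr : orderOf x = r)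
    (hδ : δ ∈ Cfsg.inndiagPOmegaPlus m F) :
    orderOf (δ * x) = r ↔ Cfsg.IsConjUnder (Cfsg.inndiagPOmegaPlus m F) x (δ * x) := by
  classical
  refine ⟨fun ho => ?_, fun ⟨a, _, h⟩ => by rw [h, AutPSL.orderOf_conj, hxr]⟩
  obtain ⟨k, rfl⟩ : ∃ k, m = k + 1 := ⟨m - 1, by omega⟩
  obtain ⟨χ, hσne, rfl⟩ : ∃ χ : Semi (plusQ (k + 1) F), χ.σ ≠ 1 ∧
      x = act (fun v => plusQ_apply (k + 1) v) (good_plusQ (le_trans (by norm_num) hm)) χ := by
    rcases hx with h | h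
    · obtain ⟨χ, h1, h2, -⟩ := semi_of_field hm h
      exact ⟨χ, h2, h1⟩
    · obtain ⟨χ, h1, h2, -⟩ := semi_of_graph hm h
      exact ⟨χ, h2, h1⟩
  clear hx
  rw [(properPlus (le_trans (by norm_num) hm : 3 ≤ k + 1)).eq] at hδ
  obtain ⟨d, hd, rfl⟩ := hδ
  rw [← map_mul] at ho ⊢
  have hdσ : d.σ = 1 := hd.1
  have hdp : pol (k + 1) F d = 1 := hd.2
  have hσ' : (d * χ).σ = χ.σ := by rw [semi_mul_σ, hdσ, one_mul]
  have hp' : pol (k + 1) F (d * χ) = pol (k + 1) F χ := by rw [map_mul, hdp, one_mul]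
  obtain ⟨hro, l, hl⟩ := semi_of_prime _ _ hσne hr hxr
  obtain ⟨-, l', hl'⟩ := semi_of_prime _ _ (χ := d * χ) (by rw [hσ']; exact hσne) hr ho
  letI : Fintype (AutOmegaOdd.fixF χ.σ) := Fintype.ofFinite _
  have hι := fixF_range χ.σ
  rcases Int.units_eq_one_or (pol (k + 1) F χ) with hp | hp
  · exact isConjUnder_of_common (plus_conj_field (by omega) hι hr hro rfl hl hp)
      (plus_conj_field (by omega) hι hr hro hσ' hl' (hp'.trans hp))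
  · obtain ⟨hr2, h1⟩ := plus_conj_graph (by omega) hι hr hro rfl hl hp
    obtain ⟨-, h2⟩ := plus_conj_graph (by omega) hι hr hro hσ' hl' (hp'.trans hp)
    subst hr2
    obtain ⟨ζ, hζ⟩ := Classical.UnitaryFlat.exists_aniso (AutOmegaOdd.fixF χ.σ)
    obtain ⟨t₁, t₂, ht, hs, hp1, -⟩ := exists_swapped_roots hι hro hζ
    exact isConjUnder_of_common (h1 1 ζ hζ t₁ t₂ ht hs hp1) (h2 1 ζ hζ t₁ t₂ ht hs hp1)

theorem coset_minus {m : ℕ} (hm : 3 ≤ m) {a b : F} (hab : Aniso a b)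
    {x δ : MulAut (Cfsg.POmega F (Cfsg.quadFormMinus m F a b))}
    (hx : Cfsg.IsFieldAutClassPOmegaMinus m x) {r : ℕ} (hr : r.Prime) (hxr : orderOf x = r)
    (hδ : δ ∈ Cfsg.inndiagPOmegaMinus m F a b) :
    orderOf (δ * x) = r ↔ Cfsg.IsConjUnder (Cfsg.inndiagPOmegaMinus m F a b) x (δ * x) := by
  classical
  refine ⟨fun ho => ?_, fun ⟨a, _, h⟩ => by rw [h, AutPSL.orderOf_conj, hxr]⟩
  obtain ⟨χ, rfl, hσne⟩ := semi_of_field_minus hab hm hx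
  rw [(properMinus hab hm).eq] at hδ
  obtain ⟨d, ⟨hdσ, -⟩, rfl⟩ := hδ
  rw [← map_mul] at ho ⊢
  have hσ' : (d * χ).σ = χ.σ := by rw [semi_mul_σ, hdσ, one_mul]
  obtain ⟨hro, l, hl⟩ := semi_of_prime _ _ hσne hr hxr
  obtain ⟨-, l', hl'⟩ := semi_of_prime _ _ (χ := d * χ) (by rw [hσ']; exact hσne) hr ho
  letI : Fintype (AutOmegaOdd.fixF χ.σ) := Fintype.ofFinite _
  have hι := fixF_range χ.σ
  obtain ⟨hodd, h1⟩ := minus_conj hab hm hι hr hro rfl hl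
  obtain ⟨-, h2⟩ := minus_conj hab hm hι hr hro hσ' hl'
  obtain ⟨ζ, hζ⟩ := Classical.UnitaryFlat.exists_aniso (AutOmegaOdd.fixF χ.σ)
  obtain ⟨J, hJ⟩ := exists_minus_model hab hι hro hodd hζ
  exact isConjUnder_of_common (h1 1 ζ hζ J hJ) (h2 1 ζ hζ J hJ)

end Cfsg.Agent.Lib.AutOmega
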