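import Cfsg.Agent.Lib.AutOmega.Sim
import Cfsg.Agent.Lib.AutOmega.Models

/-!
An isometry of forms carries the action of semisimilitudes along.
-/

set_option autoImplicit false

namespace Cfsg.Agent.Lib.AutOmega

open QuadraticMap hiding proj
open Cfsg.Agent.Lib.Classical.Quad Cfsg.Agent.Lib.Classical.QuadOmega
open Cfsg.Agent.Lib.AutOmegaOdd (G Semi)

universe u v w

section linear

variable {F : Type u} [Field F] {V : Type v} [AddCommGroup V] [Module F V] {W : Type w}
  [AddCommGroup W] [Module F W] {Q : QuadraticForm F V} {R : QuadraticForm F W}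
  (E : V ≃ₗ[F] W) (hE : ∀ v, R (E v) = Q v)

/-- Transport of isometries as an equivalence. -/
noncomputable def isoTrans : isoG Q ≃* isoG R :=
  { mapIso E hE with
    invFun := fun k => mapIso E.symm (fun w => by rw [← hE, E.apply_symm_apply]) k
    left_inv := fun k => iso_ext fun v => by
      show E.symm (E (k.1 (E.symm (E v)))) = _
      rw [E.symm_apply_apply, E.symm_apply_apply]
    right_inv := fun k => iso_ext fun v => by
      show E (E.symm (k.1 (E (E.symm v)))) = _
      rw [E.apply_symm_apply, E.apply_symm_apply] }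

theorem isoTrans_apply (k : isoG Q) (v : V) : (isoTrans E hE k).1 (E v) = E (k.1 v) :=
  mapIso_apply E hE k v

/-- Transport of semisimilitudes. -/
noncomputable def transSemi (ψ : Semi Q) : Semi R where
  σ := ψ.σ
  H := ψ.H
  H0 := ψ.H0
  map := (E.symm.toAddEquiv.trans ψ.map).trans E.toAddEquiv
  map_smul c w := by
    show E (ψ.map (E.symm (c • w))) = ψ.σ c • E (ψ.map (E.symm w))
    rw [map_smul, ψ.map_smul, map_smul]
  map_Q w := by
    show R (E (ψ.map (E.symm w))) = ψ.H * ψ.σ (R w)
    rw [hE, ψ.map_Q, ← hE, E.apply_symm_apply]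

@[simp] theorem transSemi_σ (ψ : Semi Q) : (transSemi E hE ψ).σ = ψ.σ := rfl

theorem transSemi_map (ψ : Semi Q) (v : V) : (transSemi E hE ψ).map (E v) = E (ψ.map v) := by
  show E (ψ.map (E.symm (E v))) = _
  rw [E.symm_apply_apply]

variable [Fintype F] [Finite V] [Finite W]

theorem map_siegel (hG : Good Q) (hG' : Good R) :
    (siegelGroup Q).map (isoTrans E hE).toMonoidHom = siegelGroup R := by
  rw [← commutator_eq hG, ← commutator_eq hG', commutator_def, commutator_def,
    Subgroup.map_commutator,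
    Subgroup.map_top_of_surjective (isoTrans E hE).toMonoidHom (isoTrans E hE).surjective]

/-- Transport of `Ω`. -/
noncomputable def gTrans (hG : Good Q) (hG' : Good R) : G Q ≃* G R :=
  ((isoTrans E hE).subgroupMap _).trans (MulEquiv.subgroupCongr (map_siegel E hE hG hG'))

theorem gTrans_apply (hG : Good Q) (hG' : Good R) (g : G Q) (v : V) :
    (gTrans E hE hG hG' g).1.1 (E v) = E (g.1.1 v) := isoTrans_apply E hE g.1 v

/-- Transport of `PΩ`. -/
noncomputable def pgTrans (hG : Good Q) (hG' : Good R) : PG Q ≃* PG R :=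
  QuotientGroup.congr _ _ (gTrans E hE hG hG') (by
    ext z
    obtain ⟨w, rfl⟩ := (gTrans E hE hG hG').surjective z
    rw [Subgroup.mem_map]
    constructor
    · rintro ⟨x, hx, hxw⟩
      obtain rfl : x = w := (gTrans E hE hG hG').injective hxw
      refine Subgroup.mem_center_iff.2 fun k => ?_
      obtain ⟨k, rfl⟩ := (gTrans E hE hG hG').surjective k
      rw [← map_mul, ← map_mul, Subgroup.mem_center_iff.1 hx k]
    · intro hz
      refine ⟨w, Subgroup.mem_center_iff.2 fun k => (gTrans E hE hG hG').injective ?_, rfl⟩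
      rw [map_mul, map_mul]
      exact Subgroup.mem_center_iff.1 hz _)

theorem pgTrans_pr (hG : Good Q) (hG' : Good R) (g : G Q) :
    pgTrans E hE hG hG' (pr Q g) = pr R (gTrans E hE hG hG' g) := rfl

theorem pgTrans_conjP (hG : Good Q) (hG' : Good R) (ψ : Semi Q) (z : PG Q) :
    pgTrans E hE hG hG' (conjP ψ z) = conjP (transSemi E hE ψ) (pgTrans E hE hG hG' z) := by
  obtain ⟨g, rfl⟩ := pr_surjective z
  rw [conjP_pr, pgTrans_pr, pgTrans_pr, conjP_pr]
  congr 1
  refine AutOmegaOdd.G_ext fun w => ?_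
  obtain ⟨v, rfl⟩ := (transSemi E hE ψ).map.surjective w
  obtain ⟨v, rfl⟩ := E.surjective v
  rw [transSemi_map, gTrans_apply, AutOmegaOdd.Semi.conjG_apply, ← transSemi_map E hE,
    ← transSemi_map E hE, AutOmegaOdd.Semi.conjG_apply, gTrans_apply]

end linear

section matrix

variable {F : Type u} [Field F] [Fintype F] {ι κ : Type} [Fintype ι] [DecidableEq ι] [Fintype κ]
  [DecidableEq κ] {f : (ι → F) → F} {g : (κ → F) → F} {Q : QuadraticForm F (ι → F)}
  {R : QuadraticForm F (κ → F)} (hf : ∀ v, Q v = f v) (hg : ∀ v, R v = g v) (hG : Good Q)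
  (hG' : Good R) (E : (ι → F) ≃ₗ[F] (κ → F)) (hE : ∀ v, R (E v) = Q v)

/-- Transport of the matrix `PΩ`. -/
noncomputable def pomTrans : Cfsg.POmega F f ≃* Cfsg.POmega F g :=
  ((toPG hf hG).trans (pgTrans E hE hG hG')).trans (toPG hg hG').symm

theorem pomTrans_act (ψ : Semi Q) :
    ((pomTrans hf hg hG hG' E hE).symm.trans (act hf hG ψ)).trans (pomTrans hf hg hG hG' E hE) =
      act hg hG' (transSemi E hE ψ) := by
  refine MulEquiv.ext fun z => ?_
  obtain ⟨y, rfl⟩ := (pomTrans hf hg hG hG' E hE).surjective z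
  rw [MulEquiv.trans_apply, MulEquiv.trans_apply, MulEquiv.symm_apply_apply]
  simp only [MulEquiv.trans_apply, act_apply, pomTrans, MulEquiv.apply_symm_apply, pgTrans_conjP]

end matrix

end Cfsg.Agent.Lib.AutOmega
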