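import Cfsg.Agent.Lib.AutOmega.Types
import Cfsg.Agent.Lib.AutOmega.Transport
import Cfsg.Agent.Lib.Classical.UnitaryFlat

/-!
Field and graph-field automorphisms of even orthogonal groups of prime order, up to inner-diagonal
automorphisms.
-/

set_option autoImplicit false

namespace Cfsg.Agent.Lib.AutOmega

open QuadraticMap hiding proj
open Matrix Cfsg.Agent.Lib.Classical.Quad Cfsg.Agent.Lib.Classical.QuadOmega Cfsg.Agent.Lib.Classical.QuadF2
open Cfsg.Agent.Lib.AutOmegaOdd (Semi)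

universe u w

variable {F : Type u} [Field F] [Fintype F]

section prime

variable {ι : Type} [Fintype ι] [DecidableEq ι] {f : (ι → F) → F} {Q : QuadraticForm F (ι → F)}
  (hf : ∀ v, Q v = f v) (hG : Good Q)

/-- A semisimilitude inducing an element of prime order. -/
theorem semi_of_prime {χ : Semi Q} (hσ : χ.σ ≠ 1) {r : ℕ} (hr : r.Prime)
    (ho : orderOf (act hf hG χ) = r) :
    orderOf χ.σ = r ∧ ∃ l : Fˣ, χ ^ r = ofScalar Q l := by
  obtain ⟨l, hl⟩ := (act_eq_one_iff hf hG).1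
    (show act hf hG (χ ^ r) = 1 by rw [map_pow, ← ho, pow_orderOf_eq_one])
  haveI := Fact.mk hr
  refine ⟨orderOf_eq_prime ?_ hσ, l, hl⟩
  rw [← semi_pow_σ, hl, ofScalar_σ]

omit [Fintype F] in
theorem σ_conj_ne {ψ α : Semi Q} (h : ψ.σ ≠ 1) : (α * ψ * α⁻¹).σ ≠ 1 := fun e => h (by
  rw [← sigmaHom_apply, map_mul, map_mul, map_inv] at e
  exact conj_eq_one_iff.1 e)

end prime

section plus

variable {m : ℕ}

theorem pol_congr (hm : 3 ≤ m) {χ φ : Semi (plusQ m F)}
    (h : act (fun v => plusQ_apply m v) (good_plusQ hm) χ =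
      act (fun v => plusQ_apply m v) (good_plusQ hm) φ) : χ.σ = φ.σ ∧ pol m F χ = pol m F φ := by
  obtain ⟨c, rfl⟩ := (act_eq_iff _ _).1 h
  exact ⟨by rw [semi_mul_σ, ofScalar_σ, one_mul], by rw [map_mul, pol_scalar, one_mul]⟩

/-- The standard field automorphism. -/
theorem stdS_plus {K : Type w} [Field K] [Fintype K] {em : K →+* F} {σ : F ≃+* F}
    (hι : ∀ x : F, σ x = x ↔ x ∈ Set.range em) : stdS (compat_plus em m) hι = fieldPlus m σ :=
  semi_eq_of_kp (em := em) (J := LinearEquiv.refl F _) rfl (by simp [stdS, fieldPlus]) fun v => by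
    rw [stdS_kp, fieldPlus_map]
    funext i
    exact ((hι _).2 ⟨v i, rfl⟩).symm

variable {k : ℕ}

/-- The standard graph-field automorphism. -/
theorem stdS_split {K : Type w} [Field K] [Fintype K] {em : K →+* F} {σ : F ≃+* F}
    (hι : ∀ x : F, σ x = x ↔ x ∈ Set.range em) {a b : K} {t₁ t₂ : F} (ht : t₁ ≠ t₂)
    (hs : t₁ + t₂ = -em a) (hp : t₁ * t₂ = em b) (hσt : σ t₁ = t₂) :
    ∃ w, plusQ (k + 1) F w ≠ 0 ∧
      stdS (compat_split (m := k) em ht hs hp) hι = ofIso _ (refl _ w) * fieldPlus (k + 1) σ := by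
  let w : Fin (k + 1) ⊕ Fin (k + 1) → F :=
    Pi.single (.inl (Fin.last k)) 1 - Pi.single (.inr (Fin.last k)) 1
  have hQw : plusQ (k + 1) F w = -1 := by
    simp [plusQ_apply, Cfsg.quadFormPlus, w, Pi.single_apply, Fin.sum_univ_castSucc]
  have hw : plusQ (k + 1) F w ≠ 0 := by rw [hQw]; exact neg_ne_zero.2 one_ne_zero
  have hσt' : σ t₂ = t₁ := by
    have h1 := congrArg σ hs
    rw [map_add, map_neg, (hι _).2 ⟨a, rfl⟩, hσt, ← hs] at h1
    linear_combination h1
  refine ⟨w, hw, semi_eq_of_kp (em := em) (J := splitEquiv k ht) ?_ (by simp [stdS, fieldPlus])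
    fun v => ?_⟩
  · simp [stdS_σ, fieldPlus]
  have hfix : ∀ i, σ (em (v i)) = em (v i) := fun i => (hι _).2 ⟨_, rfl⟩
  rw [stdS_kp, semi_mul_map, ofIso_map, fieldPlus_map, refl_apply hw, hQw, kp, splitEquiv_apply]
  have hpw : ∀ y : Fin (k + 1) ⊕ Fin (k + 1) → F, polar (plusQ (k + 1) F) y w =
      y (.inr (Fin.last k)) - y (.inl (Fin.last k)) := fun y => by
    rw [polar_plusQ]
    simp [w, Pi.single_apply, Fin.sum_univ_castSucc]
    ring
  rw [hpw]
  ext (i | i) <;> induction i using Fin.lastCases <;>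
    simp [splitMap, w, hσt, hσt', hfix, Pi.single_apply, div_neg]

theorem pol_stdS_split (hk : 2 ≤ k) {K : Type w} [Field K] [Fintype K] {em : K →+* F}
    {σ : F ≃+* F} (hι : ∀ x : F, σ x = x ↔ x ∈ Set.range em) {a b : K} {t₁ t₂ : F} (ht : t₁ ≠ t₂)
    (hs : t₁ + t₂ = -em a) (hp : t₁ * t₂ = em b) (hσt : σ t₁ = t₂) :
    pol (k + 1) F (stdS (compat_split (m := k) em ht hs hp) hι) = -1 := by
  obtain ⟨w, hw, e⟩ := stdS_split (k := k) hι ht hs hp hσt
  rw [e, map_mul, pol_fieldPlus, pol_ofIso (reg_plusQ (by omega)), dick_refl _ hw, mul_one]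

/-- Roots exchanged by the automorphism. -/
theorem exists_swapped_roots {K : Type w} [Field K] [Fintype K] {em : K →+* F} {σ : F ≃+* F}
    (hι : ∀ x : F, σ x = x ↔ x ∈ Set.range em) (hr : orderOf σ = 2) {a b : K} (hab : Aniso a b) :
    ∃ t₁ t₂ : F, t₁ ≠ t₂ ∧ t₁ + t₂ = -em a ∧ t₁ * t₂ = em b ∧ σ t₁ = t₂ := by
  obtain ⟨t₁, t₂, ht, hs, hp⟩ := exists_roots_ext em (card_of_fixed hι hr) hab
  refine ⟨t₁, t₂, ht, hs, hp, ?_⟩
  have ha : σ (em a) = em a := (hι _).2 ⟨a, rfl⟩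
  have hb : σ (em b) = em b := (hι _).2 ⟨b, rfl⟩
  have h1 := congrArg σ hs
  have h2 := congrArg σ hp
  rw [map_add, map_neg, ha, ← hs] at h1
  rw [map_mul, hb, ← hp] at h2
  rcases mul_eq_zero.1 (show (σ t₁ - t₁) * (σ t₁ - t₂) = 0 by
    linear_combination σ t₁ * h1 - h2) with e | e
  · exfalso
    obtain ⟨x, hx⟩ := (hι _).1 (sub_eq_zero.1 e)
    have h3 : em (x * x + a * x + b) = 0 := by
      rw [map_add, map_add, map_mul, map_mul, hx, ← hp, show em a = -(t₁ + t₂) by rw [hs, neg_neg]]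
      ring
    exact one_ne_zero (hab x 1 (by linear_combination (map_eq_zero em).1 h3)).2
  · exact sub_eq_zero.1 e

/-- Conjugacy to the standard field automorphism. -/
theorem plus_conj_field (hk : 2 ≤ k) {K : Type w} [Field K] [Fintype K] {em : K →+* F}
    {σ : F ≃+* F} (hι : ∀ x : F, σ x = x ↔ x ∈ Set.range em) {r : ℕ} (hr : r.Prime)
    (hro : orderOf σ = r) {χ : Semi (plusQ (k + 1) F)} (hσ : χ.σ = σ) {l : Fˣ}
    (hl : χ ^ r = ofScalar _ l) (hp : pol (k + 1) F χ = 1) :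
    ∃ a ∈ Cfsg.inndiagPOmegaPlus (k + 1) F,
      act (fun v => plusQ_apply (k + 1) v) (good_plusQ (by omega)) χ = a *
        act (fun v => plusQ_apply (k + 1) v) (good_plusQ (by omega))
          (stdS (compat_plus em (k + 1)) hι) * a⁻¹ := by
  rcases plus_cases hk hι hro hr.pos hσ hl with h | ⟨hodd, h⟩
  · exact h
  · exfalso
    obtain rfl : r = 2 := hr.eq_two_or_odd'.resolve_right hodd
    obtain ⟨ζ, hζ⟩ := Classical.UnitaryFlat.exists_aniso K
    obtain ⟨t₁, t₂, ht, hs, hp', hσt⟩ := exists_swapped_roots hι hro hζ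
    obtain ⟨x, hx, he⟩ := h 1 ζ hζ t₁ t₂ ht hs hp'
    rw [(properPlus (by omega : 3 ≤ k + 1)).eq] at hx
    obtain ⟨x', -, rfl⟩ := hx
    rw [← map_inv, ← map_mul, ← map_mul] at he
    have h1 := (pol_congr (by omega) he).2
    rw [hp, map_mul, map_mul, map_inv, pol_stdS_split hk hι ht hs hp' hσt, mul_comm (pol _ _ x'),
      mul_inv_cancel_right] at h1
    exact absurd h1 (by decide)

/-- Conjugacy to the standard graph-field automorphism. -/
theorem plus_conj_graph (hk : 2 ≤ k) {K : Type w} [Field K] [Fintype K] {em : K →+* F}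
    {σ : F ≃+* F} (hι : ∀ x : F, σ x = x ↔ x ∈ Set.range em) {r : ℕ} (hr : r.Prime)
    (hro : orderOf σ = r) {χ : Semi (plusQ (k + 1) F)} (hσ : χ.σ = σ) {l : Fˣ}
    (hl : χ ^ r = ofScalar _ l) (hp : pol (k + 1) F χ = -1) :
    r = 2 ∧ ∀ (a₀ b₀ : K) (_ : Aniso a₀ b₀) (t₁ t₂ : F) (ht : t₁ ≠ t₂) (hs : t₁ + t₂ = -em a₀)
      (hp : t₁ * t₂ = em b₀), ∃ a ∈ Cfsg.inndiagPOmegaPlus (k + 1) F,
        act (fun v => plusQ_apply (k + 1) v) (good_plusQ (by omega)) χ = a *
          act (fun v => plusQ_apply (k + 1) v) (good_plusQ (by omega))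
            (stdS (compat_split em ht hs hp) hι) * a⁻¹ := by
  rcases plus_cases hk hι hro hr.pos hσ hl with ⟨x, hx, he⟩ | ⟨hodd, h⟩
  · exfalso
    rw [(properPlus (by omega : 3 ≤ k + 1)).eq] at hx
    obtain ⟨x', -, rfl⟩ := hx
    rw [← map_inv, ← map_mul, ← map_mul] at he
    have h1 := (pol_congr (by omega) he).2
    rw [hp, map_mul, map_mul, map_inv, stdS_plus, pol_fieldPlus, mul_one, mul_inv_cancel] at h1
    exact absurd h1 (by decide)
  · exact ⟨hr.eq_two_or_odd'.resolve_right hodd, h⟩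

theorem act_field (hm : 3 ≤ m) {σ : F ≃+* F}
    {φ : MulAut (Cfsg.POmega F (Cfsg.quadFormPlus m F))}
    (h : Cfsg.IsFieldAutPOmegaOf (Cfsg.quadFormPlus m F) σ φ) :
    φ = act (fun v => plusQ_apply m v) (good_plusQ hm) (fieldPlus m σ) :=
  act_of_induced _ _ (g := 1) (σ := σ) rfl (fun v => by
    rw [Units.val_one, one_mulVec, fieldPlus_map]) fun s s' e => h s s' (by
    rw [e, inv_one, Units.val_one, one_mul, mul_one])

/-- A field automorphism is induced by a semisimilitude preserving the classes. -/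
theorem semi_of_field (hm : 5 ≤ m) {x : MulAut (Cfsg.POmega F (Cfsg.quadFormPlus m F))}
    (hx : Cfsg.IsFieldAutClassPOmega (Cfsg.quadFormPlus m F) x) :
    ∃ χ : Semi (plusQ m F), x = act (fun v => plusQ_apply m v) (good_plusQ (by omega)) χ ∧
      χ.σ ≠ 1 ∧ pol m F χ = 1 := by
  obtain ⟨α, φ, σ, hσ, hφ, h⟩ := hx
  rw [act_field (by omega) hφ] at h
  obtain ⟨A, rfl⟩ := act_surjective (fun v => plusQ_apply m v) (good_plusQ (by omega)) (hyp_plus hm) α
  refine ⟨A⁻¹ * fieldPlus m σ * A⁻¹⁻¹, ?_, σ_conj_ne hσ, ?_⟩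
  · rw [map_mul, map_mul, map_inv, map_inv, map_inv, inv_inv, ← h]
    group
  · rw [map_mul, map_mul, pol_fieldPlus, map_inv _ A⁻¹, mul_one, mul_inv_cancel]

/-- A graph-field automorphism is induced by a semisimilitude interchanging the classes. -/
theorem semi_of_graph (hm : 5 ≤ m) {x : MulAut (Cfsg.POmega F (Cfsg.quadFormPlus m F))}
    (hx : Cfsg.IsGraphFieldAutClassPOmegaPlus m x) :
    ∃ χ : Semi (plusQ m F), x = act (fun v => plusQ_apply m v) (good_plusQ (by omega)) χ ∧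
      χ.σ ≠ 1 ∧ pol m F χ = -1 := by
  obtain ⟨α, γ, φ, σ, v, g, hσ, hv, -, hg, hγ, hφ, h⟩ := hx
  rw [act_field (by omega) hφ] at h
  have hv' : plusQ m F v ≠ 0 := by rwa [plusQ_apply]
  have hf : (⇑(plusQ m F) : (Fin m ⊕ Fin m → F) → F) = Cfsg.quadFormPlus m F :=
    funext (plusQ_apply m)
  have e : γ = act (fun v => plusQ_apply m v) (good_plusQ (by omega))
      (ofIso _ (refl (plusQ m F) v)) := by
    refine act_of_induced _ _ (σ := RingEquiv.refl F) rfl (fun y => ?_) hγ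
    rw [hg, ← hf, reflectionMatrix_mulVec _ hv', ofIso_map]
    rfl
  subst e
  obtain ⟨A, rfl⟩ := act_surjective (fun v => plusQ_apply m v) (good_plusQ (by omega)) (hyp_plus hm) α
  refine ⟨A⁻¹ * (ofIso _ (refl (plusQ m F) v) * fieldPlus m σ) * A⁻¹⁻¹, ?_, σ_conj_ne ?_, ?_⟩
  · rw [map_mul, map_mul, map_inv _ A⁻¹, map_inv, inv_inv, map_mul, ← h]
    group
  · rw [semi_mul_σ, ofIso_σ, one_mul]
    exact hσ
  · rw [map_mul, map_mul, map_mul, pol_fieldPlus, pol_ofIso (reg_plusQ (by omega)), dick_refl _ hv',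
      map_inv _ A⁻¹, mul_one, mul_comm (pol _ _ A⁻¹), mul_inv_cancel_right]

end plus

section minus

variable {m : ℕ} {a b : F}

/-- A field automorphism of minus type is induced by a semisimilitude with a field automorphism. -/
theorem semi_of_field_minus (hab : Aniso a b) (hm : 3 ≤ m)
    {x : MulAut (Cfsg.POmega F (Cfsg.quadFormMinus m F a b))}
    (hx : Cfsg.IsFieldAutClassPOmegaMinus m x) :
    ∃ χ : Semi (minusQ m a b),
      x = act (fun v => minusQ_apply m a b v) (good_minusQ hab hm) χ ∧ χ.σ ≠ 1 := by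
  obtain ⟨a', b', ψ, σ, hab', hσ, ha', hb', hφ⟩ := hx
  obtain ⟨eb, heb⟩ := exists_bin_equiv hab hab' m
  let S : Semi (minusQ m a' b') :=
    { σ := σ, H := 1, H0 := one_ne_zero
      map := AddEquiv.piCongrRight fun _ => σ.toAddEquiv
      map_smul := fun c v => funext fun i => map_mul σ _ _
      map_Q := fun v => by simp [minusQ_apply, Cfsg.quadFormMinus, ha', hb'] }
  have hS : (ψ.symm.trans x).trans ψ =
      act (fun v => minusQ_apply m a' b' v) (good_minusQ hab' hm) S :=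
    act_of_induced _ _ (g := 1) (σ := σ) rfl (fun v => by rw [Units.val_one, one_mulVec]; rfl)
      fun s s' e => hφ s s' (by rw [e, inv_one, Units.val_one, one_mul, mul_one])
  set e := pomTrans (fun v => minusQ_apply m a' b' v) (fun v => minusQ_apply m a b v)
    (good_minusQ hab' hm) (good_minusQ hab hm) eb heb
  have hT := pomTrans_act (fun v => minusQ_apply m a' b' v) (fun v => minusQ_apply m a b v)
    (good_minusQ hab' hm) (good_minusQ hab hm) eb heb S
  rw [← hS] at hT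
  obtain ⟨θ, hθ⟩ := act_surjective (fun v => minusQ_apply m a b v) (good_minusQ hab hm)
    (hyp_minus hab hm) (ψ.trans e)
  refine ⟨θ⁻¹ * transSemi eb heb S * θ⁻¹⁻¹, ?_, σ_conj_ne hσ⟩
  rw [map_mul, map_mul, map_inv _ θ⁻¹, map_inv, inv_inv, hθ, ← hT]
  refine MulEquiv.ext fun z => ?_
  simp [e, MulAut.inv_def, MulEquiv.trans_apply]

/-- Conjugacy to a standard field automorphism of minus type. -/
theorem minus_conj (hab : Aniso a b) (hm : 3 ≤ m) {K : Type w} [Field K] [Fintype K] {em : K →+* F}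
    {σ : F ≃+* F} (hι : ∀ x : F, σ x = x ↔ x ∈ Set.range em) {r : ℕ} (hr : r.Prime)
    (hro : orderOf σ = r) {χ : Semi (minusQ m a b)} (hσ : χ.σ = σ) {l : Fˣ}
    (hl : χ ^ r = ofScalar _ l) :
    Odd r ∧ ∀ (a₀ b₀ : K) (_ : Aniso a₀ b₀)
      (J : ((Fin m ⊕ Fin m) ⊕ Fin 2 → F) ≃ₗ[F] ((Fin m ⊕ Fin m) ⊕ Fin 2 → F))
      (h : Compat em J (minusQ m a₀ b₀) (minusQ m a b)), ∃ x ∈ Cfsg.inndiagPOmegaMinus m F a b,
        act (fun v => minusQ_apply m a b v) (good_minusQ hab hm) χ = x *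
          act (fun v => minusQ_apply m a b v) (good_minusQ hab hm) (stdS h hι) * x⁻¹ := by
  obtain ⟨h2, h⟩ := minus_cases hm hab hι hro hr.pos hσ hl
  exact ⟨hr.eq_two_or_odd'.resolve_left h2, h⟩

/-- A rational model of a minus form. -/
theorem exists_minus_model (hab : Aniso a b) {K : Type w} [Field K] {em : K →+* F} {σ : F ≃+* F}
    (hι : ∀ x : F, σ x = x ↔ x ∈ Set.range em) {r : ℕ} (hr : orderOf σ = r) (hodd : Odd r)
    {a₀ b₀ : K} (h₀ : Aniso a₀ b₀) :
    ∃ J, Compat em J (minusQ m a₀ b₀) (minusQ m a b) := by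
  obtain ⟨eb, heb⟩ := exists_bin_equiv hab (aniso_odd hι hr hodd h₀) m
  exact ⟨eb, fun v => by rw [kp, heb, minusQ_apply, minusQ_apply, ext_form']⟩
where
  ext_form' {m : ℕ} {K : Type w} [Field K] {em : K →+* F} {a₀ b₀ : K}
      {v : (Fin m ⊕ Fin m) ⊕ Fin 2 → K} : Cfsg.quadFormMinus m F (em a₀) (em b₀) (fun i => em (v i)) =
        em (Cfsg.quadFormMinus m K a₀ b₀ v) := by
    simp [Cfsg.quadFormMinus]

end minus

end Cfsg.Agent.Lib.AutOmega
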