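import Cfsg.Agent.Lib.AutOmega.Centralizer
import Cfsg.Agent.Lib.AutOmega.Types

/-!
How the class of a standard semisimilitude splits into inner classes.
-/

set_option autoImplicit false

namespace Cfsg.Agent.Lib.AutOmega

open QuadraticMap hiding proj
open Cfsg.Agent.Lib.Classical.Quad Cfsg.Agent.Lib.Classical.QuadOmega
open Cfsg.Agent.Lib.AutOmegaOdd (Semi)

universe u w

variable {F : Type u} [Field F] [Fintype F] {K : Type w} [Field K] [Fintype K] {em : K →+* F}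
  {σ : F ≃+* F} {ι κ : Type} [Fintype ι] [DecidableEq ι] [Fintype κ] [DecidableEq κ]
  {f : (ι → F) → F} {Q : QuadraticForm F (ι → F)} {f₀ : (κ → K) → K}
  {R : QuadraticForm K (κ → K)} {hf : ∀ v, Q v = f v} {hG : Good Q} {hf₀ : ∀ v, R v = f₀ v}
  {hG₀ : Good R} {G : Subgroup (MulAut (Cfsg.POmega F f))}
  {G₀ : Subgroup (MulAut (Cfsg.POmega K f₀))} {J : (κ → F) ≃ₗ[F] (ι → F)}

section basic

omit [Fintype F] [Fintype K]

theorem two_ne_of_em (em : K →+* F) (h2 : (2 : F) ≠ 0) : (2 : K) ≠ 0 := fun h =>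
  h2 (by rw [← map_ofNat em, h, map_zero])

theorem isSquare_of_odd (hι : ∀ x : F, σ x = x ↔ x ∈ Set.range em) {r : ℕ} (hr : orderOf σ = r)
    (hodd : Odd r) (h2 : (2 : F) ≠ 0) {ν : K} (h : IsSquare (em ν)) : IsSquare ν := by
  obtain ⟨y, hy⟩ := h
  have hsq : σ y * σ y = y * y := by rw [← map_mul, ← hy]; exact (hι _).2 ⟨ν, rfl⟩
  have hy' : σ y = y := by
    rcases mul_self_eq_mul_self_iff.1 hsq with e | e
    · exact e
    · have hpow : ∀ n : ℕ, (σ ^ n : F ≃+* F) y = (-1) ^ n * y := by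
        intro n
        induction n with
        | zero => simp
        | succ k ih => rw [pow_succ, RingAut.mul_apply, e, map_neg, ih, pow_succ]; ring
      have h1 := hpow r
      rw [← hr, pow_orderOf_eq_one, RingAut.one_apply, hr, hodd.neg_one_pow, neg_one_mul,
        eq_neg_iff_add_eq_zero, ← two_mul, mul_eq_zero] at h1
      rw [e, h1.resolve_left h2, neg_zero]
  obtain ⟨x, hx⟩ := (hι _).1 hy'
  exact ⟨x, em.injective (by rw [map_mul, hx, hy])⟩

theorem relIndex_two {X : Type*} [Group X] {A B : Subgroup X} {a : X} (ha : a ∈ B) (hna : a ∉ A)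
    (h : ∀ b ∈ B, b ∈ A ∨ b * a ∈ A) : A.relIndex B = 2 := by
  rw [Subgroup.relIndex_eq_two_iff]
  refine ⟨a, ha, fun b hb => ?_⟩
  by_cases hbA : b ∈ A
  · exact Or.inr ⟨hbA, fun h' => hna ((A.mul_mem_cancel_left hbA).1 h')⟩
  · exact Or.inl ⟨(h b hb).resolve_left hbA, hbA⟩

end basic

theorem sqSign_em_odd (hι : ∀ x : F, σ x = x ↔ x ∈ Set.range em) {r : ℕ} (hr : orderOf σ = r)
    (hodd : Odd r) (h2 : (2 : F) ≠ 0) (c : K) : sqSign (em c) = sqSign c := by
  by_cases h : IsSquare c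
  · rw [sqSign_eq_one_iff.2 h, sqSign_eq_one_iff.2 (h.map em)]
  · rw [sqSign, sqSign, if_neg h, if_neg fun h' => h (isSquare_of_odd hι hr hodd h2 h')]

theorem isSquare_em_two (hcard : Fintype.card F = Fintype.card K ^ 2) (h2 : (2 : F) ≠ 0) (d : K) :
    IsSquare (em d) := by
  rcases eq_or_ne d 0 with rfl | hd
  · exact ⟨0, by simp⟩
  have hF2 : ringChar F ≠ 2 := fun h => h2 (by
    haveI := ringChar.charP F
    exact_mod_cast (CharP.cast_eq_zero_iff F (ringChar F) 2).2 (by rw [h]))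
  rw [FiniteField.isSquare_iff hF2 ((map_ne_zero em).2 hd), hcard, ← map_pow]
  obtain ⟨k, hk⟩ := odd_card_of_two_ne_zero (two_ne_of_em em h2)
  rw [hk, show (2 * k + 1) ^ 2 / 2 = 2 * k * (k + 1) by
    rw [show (2 * k + 1) ^ 2 = 2 * (2 * k * (k + 1)) + 1 by ring]; omega, pow_mul]
  have : d ^ (2 * k) = 1 := by
    have := FiniteField.pow_card_sub_one_eq_one d hd
    rwa [hk, Nat.add_sub_cancel] at this
  rw [this, one_pow, map_one]

theorem exists_spn_neg [Finite (κ → K)] (hR : Nd R) (h2 : (2 : K) ≠ 0)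
    (hn : 2 ≤ Module.finrank K (κ → K)) :
    ∃ k : isoG R, dick hR k = 1 ∧ spn hR k = -1 := by
  obtain ⟨ν, hν, hns⟩ := exists_nonsquare (F := K) h2
  obtain ⟨u, hu⟩ := Nd.exists_eq hR h2 hn 1
  obtain ⟨w, hw⟩ := Nd.exists_eq hR h2 hn ν
  have hu0 : R u ≠ 0 := by rw [hu]; exact one_ne_zero
  have hw0 : R w ≠ 0 := by rwa [hw]
  refine ⟨refl R u * refl R w, ?_, ?_⟩
  · rw [map_mul, dick_refl _ hu0, dick_refl _ hw0]; rfl
  · rw [map_mul, spn_refl _ h2 hu0, spn_refl _ h2 hw0, hu, hw, sqSign_one, one_mul, sqSign, if_neg hns]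

theorem exists_scalar_iso_of_square {g : Semi Q} (hg : g.σ = 1) (h : IsSquare g.H) :
    ∃ (c : Fˣ) (k : isoG Q), g = ofScalar Q c * ofIso Q k := by
  obtain ⟨t, ht⟩ := h
  have ht0 : t ≠ 0 := fun h => g.H0 (by rw [ht, h, mul_zero])
  obtain ⟨k, hk⟩ := eq_scalar_iso hg (c := Units.mk0 t ht0) ht
  exact ⟨_, k, hk⟩

theorem act_scalar_iso (c : Fˣ) (k : isoG Q) :
    act hf hG (ofScalar Q c * ofIso Q k) = act hf hG (ofIso Q k) := by
  rw [map_mul, act_ofScalar, one_mul]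

theorem Proper.dick_of_mem (D : Proper hf hG G) {c : Fˣ} {k : isoG Q}
    (h : ofScalar Q c * ofIso Q k ∈ D.P) : dick (show Nd Q from hG.nd) k = 1 :=
  (D.iso k).1 ((D.P.mul_mem_cancel_left (D.scalar c)).1 h)

theorem act_iso_mem_inn {k : isoG Q} (hd : dick (show Nd Q from hG.nd) k = 1)
    (hs : (2 : F) ≠ 0 → spn (show Nd Q from hG.nd) k = 1) (hreg : Reg F (ι → F)) :
    act hf hG (ofIso Q k) ∈ Cfsg.Inn (Cfsg.POmega F f) := by
  rw [inn_eq hf hG]
  refine ⟨k, ?_, rfl⟩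
  rw [← commutator_eq hG]
  by_cases h2 : (2 : F) = 0
  · exact (mem_commutator_iff_two _ hreg h2 k).2 hd
  · exact (mem_commutator_iff _ h2 k).2 ⟨hd, hs h2⟩

/-- In even characteristic there are no diagonal automorphisms. -/
theorem group_eq_inn (D : Proper hf hG G) (h2 : (2 : F) = 0) (hreg : Reg F (ι → F)) :
    G = Cfsg.Inn (Cfsg.POmega F f) := by
  refine le_antisymm ?_ (inn_le_group D)
  intro x hx
  rw [D.eq] at hx
  obtain ⟨g, hg, rfl⟩ := hx
  obtain ⟨t, ht⟩ := exists_sq_eq_of_two h2 g.H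
  obtain ⟨c, k, rfl⟩ := exists_scalar_iso_of_square (D.le hg) ⟨t, by rw [← ht, pow_two]⟩
  rw [act_scalar_iso]
  exact act_iso_mem_inn (D.dick_of_mem hg) (fun h => absurd h2 h) hreg

theorem split_one_two (D : Proper hf hG G) (h2 : (2 : F) = 0) (hreg : Reg F (ι → F))
    (x : MulAut (Cfsg.POmega F f)) :
    Cfsg.splitClassCount G (Cfsg.Inn (Cfsg.POmega F f)) x = 1 := by
  rw [split_count D, Subgroup.relIndex_eq_one]
  conv_lhs => rw [group_eq_inn D h2 hreg]
  exact le_sup_left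

/-- A class of odd order does not split. -/
theorem split_one_odd [Nonempty ι] [Nonempty κ] (D : Proper hf hG G) (D₀ : Proper hf₀ hG₀ G₀)
    (h : Compat em J R Q) (hext : ∀ g : D₀.P, extP D₀ h g ∈ D.P)
    (hι : ∀ x : F, σ x = x ↔ x ∈ Set.range em) {r : ℕ} (hr : orderOf σ = r) (hr0 : 0 < r)
    (hodd : Odd r) (hreg : Reg F (ι → F)) (hn : 2 ≤ Module.finrank K (κ → K)) :
    Cfsg.splitClassCount G (Cfsg.Inn (Cfsg.POmega F f)) (act hf hG (stdS h hι)) = 1 := by
  rcases eq_or_ne (2 : F) 0 with h2 | h2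
  · exact split_one_two D h2 hreg _
  rw [split_count D, Subgroup.relIndex_eq_one, centralizer_eq D D₀ h hext hι hr hr0]
  set X := ((act hf hG).comp (extP D₀ h)).range
  have hsup : ∀ g : D₀.P, act hf hG (extP D₀ h g) ∈ Cfsg.Inn (Cfsg.POmega F f) ⊔ X :=
    fun g => Subgroup.mem_sup_right ⟨g, rfl⟩
  have h2K := two_ne_of_em em h2
  have hiso : ∀ k : isoG Q, dick (show Nd Q from hG.nd) k = 1 →
      act hf hG (ofIso Q k) ∈ Cfsg.Inn (Cfsg.POmega F f) ⊔ X := by
    intro k hd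
    rcases Int.units_eq_one_or (spn (show Nd Q from hG.nd) k) with hs | hs
    · exact Subgroup.mem_sup_left (act_iso_mem_inn hd (fun _ => hs) hreg)
    · obtain ⟨k₀, hd0, hs0⟩ := exists_spn_neg hG₀.nd h2K hn
      have hk₀ : ofIso R k₀ ∈ D₀.P := (D₀.iso k₀).2 hd0
      have e : extP D₀ h ⟨_, hk₀⟩ = ofIso Q (extI h k₀) := (ofIso_extI (h := h) k₀).symm
      have hdF : dick (show Nd Q from hG.nd) (extI h k₀) = 1 := by
        rw [dick_extI hG₀.nd _ (reg_of_two_ne_zero h2K)]; exact hd0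
      have hsF : spn (show Nd Q from hG.nd) (extI h k₀) = -1 := by
        rw [spn_extI hG₀.nd _ h2 h2K (MonoidHom.id _)
          (fun c _ => sqSign_em_odd hι hr hodd h2 c)]
        exact hs0
      rw [show k = (k * (extI h k₀)⁻¹) * extI h k₀ from (inv_mul_cancel_right _ _).symm, map_mul,
        map_mul, ← e]
      refine mul_mem (Subgroup.mem_sup_left (act_iso_mem_inn ?_ (fun _ => ?_) hreg)) (hsup _)
      · rw [map_mul, map_inv, hd, hdF, inv_one, one_mul]
      · rw [map_mul, map_inv, hs, hsF, mul_inv_cancel]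
  intro x hx
  rw [D.eq] at hx
  obtain ⟨g, hg, rfl⟩ := hx
  obtain ⟨ν, hν, hνs⟩ : ∃ ν : K, ν ≠ 0 ∧ sqSign (em ν) = sqSign g.H := by
    rcases Int.units_eq_one_or (sqSign g.H) with e | e
    · exact ⟨1, one_ne_zero, by rw [map_one, sqSign_one, e]⟩
    · obtain ⟨ν, hν, hns⟩ := exists_nonsquare (F := K) h2K
      exact ⟨ν, hν, by rw [sqSign_em_odd hι hr hodd h2, sqSign, if_neg hns, e]⟩
  obtain ⟨g₀, hg₀, hH⟩ := D₀.mult ν hν
  set φ := g * (extP D₀ h ⟨g₀, hg₀⟩)⁻¹ with hφ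
  have hφP : φ ∈ D.P := mul_mem hg (inv_mem (hext _))
  have hsq : IsSquare φ.H := by
    rw [← sqSign_eq_one_iff, ← mc_apply, hφ, map_mul, map_inv, mc_apply, mc_apply, extP_apply,
      extHom_H, hH, hνs, mul_inv_cancel]
  obtain ⟨c, k, hk⟩ := exists_scalar_iso_of_square (D.le hφP) hsq
  rw [show g = φ * extP D₀ h ⟨g₀, hg₀⟩ from (inv_mul_cancel_right _ _).symm, map_mul, hk,
    act_scalar_iso]
  exact mul_mem (hiso k (D.dick_of_mem (hk ▸ hφP))) (hsup _)

/-- How a class of even order splits in odd characteristic. -/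
theorem split_two_or_four [Nonempty ι] [Nonempty κ] (D : Proper hf hG G) (D₀ : Proper hf₀ hG₀ G₀)
    (h : Compat em J R Q) (hext : ∀ g : D₀.P, extP D₀ h g ∈ D.P)
    (hι : ∀ x : F, σ x = x ↔ x ∈ Set.range em) (hr : orderOf σ = 2) (h2 : (2 : F) ≠ 0)
    (hn : 2 ≤ Module.finrank F (ι → F)) (hneg : spn (show Nd Q from hG.nd) (negOne Q) = 1)
    (g₀ : D₀.P) (hns : ¬ IsSquare g₀.1.H) (c : Fˣ) (k : isoG Q)
    (hk : extP D₀ h g₀ = ofScalar Q c * ofIso Q k) :
    Cfsg.splitClassCount G (Cfsg.Inn (Cfsg.POmega F f)) (act hf hG (stdS h hι)) =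
      if spn (show Nd Q from hG.nd) k = -1 then 2 else 4 := by
  have hreg : Reg F (ι → F) := reg_of_two_ne_zero h2
  have h2K := two_ne_of_em em h2
  have hsq : ∀ d : K, IsSquare (em d) := isSquare_em_two (card_of_fixed hι hr) h2
  rw [split_count D, centralizer_eq D D₀ h hext hι hr two_pos]
  set X := ((act hf hG).comp (extP D₀ h)).range
  set I := Cfsg.Inn (Cfsg.POmega F f)
  have hkd : dick (show Nd Q from hG.nd) k = 1 := D.dick_of_mem (hk ▸ hext g₀)
  let M : Subgroup (MulAut (Cfsg.POmega F f)) := (D.P ⊓ (mc Q).ker).map (act hf hG)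
  have memM : ∀ {x}, x ∈ M → ∃ j : isoG Q, dick (show Nd Q from hG.nd) j = 1 ∧
      x = act hf hG (ofIso Q j) := by
    rintro _ ⟨g, hg, rfl⟩
    obtain ⟨hgP, hgm⟩ := Subgroup.mem_inf.1 hg
    obtain ⟨d, j, rfl⟩ := exists_scalar_iso_of_square (D.le hgP) (sqSign_eq_one_iff.1 hgm)
    exact ⟨j, D.dick_of_mem hgP, act_scalar_iso d j⟩
  have isoM : ∀ j : isoG Q, dick (show Nd Q from hG.nd) j = 1 → act hf hG (ofIso Q j) ∈ M :=
    fun j hj => ⟨_, Subgroup.mem_inf.2 ⟨(D.iso j).2 hj, mc_ofIso j⟩, rfl⟩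
  have innM : I ≤ M := by
    rintro x hx
    rw [show I = _ from inn_eq hf hG] at hx
    obtain ⟨j, hj, rfl⟩ := hx
    rw [SetLike.mem_coe, ← commutator_eq hG] at hj
    exact isoM j ((mem_commutator_iff _ h2 j).1 hj).1
  have MG : M ≤ G := by
    rw [D.eq]
    exact Subgroup.map_mono inf_le_left
  -- a witness of non-trivial spinor norm
  obtain ⟨z, hzd, hzs⟩ := exists_spn_neg (show Nd Q from hG.nd) h2 hn
  have znot : ∀ j : isoG Q, spn (show Nd Q from hG.nd) j = -1 → act hf hG (ofIso Q j) ∉ I := by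
    intro j hj hmem
    obtain ⟨d, j', hj', e⟩ := (act_mem_inn hf hG).1 hmem
    rw [← commutator_eq hG] at hj'
    have hj1 := ((mem_commutator_iff (show Nd Q from hG.nd) h2 j').1 hj').2
    have hd := congrArg Semi.H e
    simp only [semi_mul_H, ofScalar_H, ofScalar_σ, ofIso_H, map_one, mul_one] at hd
    rcases mul_self_eq_one_iff.1 hd.symm with e1 | e1
    · obtain rfl : d = 1 := Units.ext e1
      rw [map_one, one_mul] at e
      rw [ofIso_injective e, hj1] at hj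
      exact absurd hj (by decide)
    · obtain rfl : d = -1 := Units.ext (by rw [e1]; simp)
      rw [ofScalar_negOne, ← map_mul] at e
      rw [ofIso_injective e, map_mul, hneg, hj1] at hj
      exact absurd hj (by decide)
  have hIM : I.relIndex M = 2 := by
    refine relIndex_two (isoM z hzd) (znot z hzs) fun b hb => ?_
    obtain ⟨j, hj, rfl⟩ := memM hb
    rcases Int.units_eq_one_or (spn (show Nd Q from hG.nd) j) with hs | hs
    · exact Or.inl (act_iso_mem_inn hj (fun _ => hs) hreg)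
    · refine Or.inr ?_
      rw [← map_mul, ← map_mul]
      exact act_iso_mem_inn (by rw [map_mul, hj, hzd, one_mul])
        (fun _ => by rw [map_mul, hs, hzs]; rfl) hreg
  have hMG : M.relIndex G = 2 := by
    obtain ⟨ν, hν, hνns⟩ := exists_nonsquare (F := F) h2
    obtain ⟨g₁, hg₁, hH₁⟩ := D.mult ν hν
    have hm1 : mc Q g₁ = -1 := by rw [mc_apply, hH₁, sqSign, if_neg hνns]
    refine relIndex_two (a := act hf hG g₁) (D.eq ▸ ⟨g₁, hg₁, rfl⟩) ?_ fun b hb => ?_
    · rintro ⟨g, hg, he⟩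
      obtain ⟨-, hgm⟩ := Subgroup.mem_inf.1 hg
      obtain ⟨d, hd⟩ := (act_eq_iff hf hG).1 he
      rw [MonoidHom.mem_ker, hd, map_mul, mc_ofScalar, one_mul, hm1] at hgm
      exact absurd hgm (by decide)
    · rw [D.eq] at hb
      obtain ⟨g, hg, rfl⟩ := hb
      rcases Int.units_eq_one_or (mc Q g) with e | e
      · exact Or.inl ⟨g, Subgroup.mem_inf.2 ⟨hg, e⟩, rfl⟩
      · exact Or.inr ⟨g * g₁, Subgroup.mem_inf.2 ⟨mul_mem hg hg₁,
          MonoidHom.mem_ker.2 (by rw [map_mul, e, hm1]; rfl)⟩, map_mul _ _ _⟩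
  -- the rational part
  have hXle : ∀ x ∈ X, x ∈ I ∨ ∃ i ∈ I, x = i * act hf hG (ofIso Q k) := by
    rintro _ ⟨g, rfl⟩
    have hrat : ∀ (g' : D₀.P), IsSquare g'.1.H → act hf hG (extP D₀ h g') ∈ I := by
      intro g' hs
      obtain ⟨d, j, hj⟩ := exists_scalar_iso_of_square (D₀.le g'.2) hs
      have hjd := D₀.dick_of_mem (hj ▸ g'.2)
      rw [extP_apply, show (⟨g'.1, D₀.le g'.2⟩ : (sigmaHom R).ker) =
        ⟨ofScalar R d, ofScalar_σ (Q := R) d⟩ * isoKer R j from Subtype.ext hj, map_mul,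
        extHom_scalar, ← ofIso_extI, act_scalar_iso]
      refine act_iso_mem_inn ?_ (fun _ => ?_) hreg
      · rw [dick_extI hG₀.nd _ (reg_of_two_ne_zero h2K), hjd]
      · rw [spn_extI hG₀.nd _ h2 h2K 1 fun d _ => sqSign_eq_one_iff.2 (hsq d)]
        rfl
    by_cases hs : IsSquare g.1.H
    · exact Or.inl (hrat g hs)
    · refine Or.inr ⟨act hf hG (extP D₀ h (g * g₀⁻¹)), hrat _ ?_, ?_⟩
      · rw [← sqSign_eq_one_iff, ← mc_apply, Subgroup.coe_mul, Subgroup.coe_inv, map_mul, map_inv,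
          mc_apply, mc_apply, sqSign, sqSign, if_neg hs, if_neg hns, mul_inv_cancel]
      · rw [MonoidHom.comp_apply, ← act_scalar_iso c k, ← hk, ← map_mul, ← map_mul,
          inv_mul_cancel_right]
  have hkX : act hf hG (ofIso Q k) ∈ X :=
    ⟨g₀, by rw [MonoidHom.comp_apply, hk, act_scalar_iso]⟩
  split_ifs with hs
  · have e : I ⊔ X = M := by
      refine le_antisymm (sup_le innM fun x hx => ?_) fun x hx => ?_
      · rcases hXle x hx with h1 | ⟨i, hi, rfl⟩
        · exact innM h1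
        · exact mul_mem (innM hi) (isoM k hkd)
      · obtain ⟨j, hj, rfl⟩ := memM hx
        rcases Int.units_eq_one_or (spn (show Nd Q from hG.nd) j) with hjs | hjs
        · exact Subgroup.mem_sup_left (act_iso_mem_inn hj (fun _ => hjs) hreg)
        · rw [show j = (j * k⁻¹) * k from (inv_mul_cancel_right _ _).symm, map_mul, map_mul]
          refine mul_mem (Subgroup.mem_sup_left (act_iso_mem_inn ?_ (fun _ => ?_) hreg))
            (Subgroup.mem_sup_right hkX)
          · rw [map_mul, map_inv, hj, hkd, inv_one, one_mul]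
          · rw [map_mul, map_inv, hjs, hs, mul_inv_cancel]
    rw [e, hMG]
  · have hkI : act hf hG (ofIso Q k) ∈ I :=
      act_iso_mem_inn hkd (fun _ => (Int.units_eq_one_or _).resolve_right hs) hreg
    have e : I ⊔ X = I := sup_eq_left.2 fun x hx => by
      rcases hXle x hx with h1 | ⟨i, hi, rfl⟩
      · exact h1
      · exact mul_mem hi hkI
    rw [e, ← Subgroup.relIndex_mul_relIndex I M G innM MG, hIM, hMG]

end Cfsg.Agent.Lib.AutOmega
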