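import Cfsg.Agent.Lib.AutOmega.FieldAut
import Cfsg.Agent.Lib.AutOmega.SplitCount

/-!
The three standard models of field and graph-field automorphisms.
-/

set_option autoImplicit false

namespace Cfsg.Agent.Lib.AutOmega

open QuadraticMap hiding proj
open Cfsg.Agent.Lib.Classical.Quad Cfsg.Agent.Lib.Classical.QuadOmega Cfsg.Agent.Lib.Classical.QuadF2
open Cfsg.Agent.Lib.AutOmegaOdd (Semi)

universe u w

variable {F : Type u} [Field F] [Fintype F] {K : Type w} [Field K] [Fintype K] {em : K →+* F}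
  {σ : F ≃+* F}

section plus

variable {m : ℕ}

theorem ext_diagPlus (u : Kˣ) :
    extHom (compat_plus em m) ⟨diagPlus m u, rfl⟩ = diagPlus m (Units.map em.toMonoidHom u) :=
  semi_eq_of_kp (em := em) (J := LinearEquiv.refl F _) rfl rfl fun v => by
    rw [extHom_kp]
    ext (i | i)
    · show em ((diagPlus m u).map v (.inl i)) = _
      rw [(diagPlus_map u v i).1, (diagPlus_map _ _ i).1, map_mul]
      rfl
    · show em ((diagPlus m u).map v (.inr i)) = _
      rw [(diagPlus_map u v i).2, (diagPlus_map _ _ i).2]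
      rfl

theorem hext_plus (hm : 3 ≤ m) (g : (properPlus (F := K) hm).P) :
    extP (properPlus hm) (compat_plus em m) g ∈ (properPlus (F := F) hm).P := by
  obtain ⟨g, hg⟩ := g
  have hσ : g.σ = 1 := hg.1
  obtain ⟨k, hk⟩ := exists_iso_part (s := diagPlus m (Units.mk0 g.H g.H0)) hσ rfl rfl
  generalize Units.mk0 g.H g.H0 = u at hk
  subst hk
  have hp : pol m K (_ * ofIso _ k) = 1 := hg.2
  rw [map_mul, pol_diagPlus, one_mul, pol_ofIso (reg_plusQ hm)] at hp
  refine ⟨rfl, ?_⟩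
  show pol m F (extP _ _ _) = 1
  rw [extP_apply, show (⟨_ * ofIso _ k, _⟩ : (sigmaHom (plusQ m K)).ker) =
    ⟨diagPlus m u, rfl⟩ * isoKer _ k from rfl, map_mul, map_mul, ext_diagPlus,
    pol_diagPlus, one_mul, ← ofIso_extI, pol_ofIso (reg_plusQ hm),
    dick_extI (nd_plusQ m) _ (reg_plusQ hm), hp]

variable {k : ℕ}

theorem hext_split (hk : 3 ≤ k) {a b : K} (hab : Aniso a b) {t₁ t₂ : F} (ht : t₁ ≠ t₂)
    (hs : t₁ + t₂ = -em a) (hp : t₁ * t₂ = em b) (g : (properMinus hab hk).P) :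
    extP (properMinus hab hk) (compat_split (m := k) em ht hs hp) g ∈
      (properPlus (F := F) (m := k + 1) (by omega)).P := by
  obtain ⟨g, hσ, hd⟩ := g
  refine ⟨rfl, ?_⟩
  show pol (k + 1) F (extHom (compat_split em ht hs hp) ⟨g, hσ⟩) = 1
  rw [pol_ext_eq hab (by omega) ht hs hp, hd]

/-- A similitude scaled to an isometry in hyperbolic coordinates. -/
theorem invs_scale (h2 : (2 : F) ≠ 0) (d : Fin m → Fˣ) :
    dick (nd_plusQ m) (mapIso (ePlus m) (plus_ePlus m) (scaleHom m (zeroQ F) d)) = 1 ∧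
    spn (nd_plusQ m) (mapIso (ePlus m) (plus_ePlus m) (scaleHom m (zeroQ F) d)) =
      sqSign (∏ i, (d i : F)) := by
  obtain ⟨h1, h3⟩ := invs_mapIso (ePlus m) (plus_ePlus m) (nd_splitQ (nd_zeroQ (F := F)) m)
    (nd_plusQ m) h2 (scaleHom m (zeroQ F) d)
  obtain ⟨h4, h5⟩ := invs_scaleHom (nd_zeroQ (F := F)) h2 m d
  exact ⟨h1.trans h4, h3.trans h5⟩

omit [Fintype F] in
theorem scale_map (d : Fin m → Fˣ) (v : Fin m ⊕ Fin m → F) (i : Fin m) :
    (mapIso (ePlus m) (plus_ePlus m) (scaleHom m (zeroQ F) d)).1 v (.inl i) = d i * v (.inl i) ∧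
    (mapIso (ePlus m) (plus_ePlus m) (scaleHom m (zeroQ F) d)).1 v (.inr i) =
      ((d i)⁻¹ : Fˣ) * v (.inr i) := by
  obtain ⟨p, rfl⟩ := (ePlus m).surjective v
  rw [mapIso_apply, scaleHom_apply]
  exact ⟨rfl, rfl⟩

theorem ext_diag_eq (u : Kˣ) (c : Fˣ) (hc : (c : F) * c = em u) :
    extHom (compat_plus em m) ⟨diagPlus m u, rfl⟩ =
      ofScalar _ c * ofIso _ (mapIso (ePlus m) (plus_ePlus m) (scaleHom m (zeroQ F) fun _ => c)) := by
  rw [ext_diagPlus]
  refine semi_ext rfl ?_ fun v => ?_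
  · simp only [semi_mul_H, ofScalar_H, ofScalar_σ, ofIso_H, map_one, mul_one]
    exact hc.symm
  · rw [semi_mul_map, ofScalar_map, ofIso_map]
    ext (i | i)
    · rw [(diagPlus_map _ v i).1, Pi.smul_apply, (scale_map _ v i).1, smul_eq_mul, ← mul_assoc, hc]
      rfl
    · rw [(diagPlus_map _ v i).2, Pi.smul_apply, (scale_map _ v i).2, smul_eq_mul, ← mul_assoc,
        Units.mul_inv, one_mul]

theorem ext_shape_eq {a b : K} (hab : Aniso a b) {t₁ t₂ : F} (ht : t₁ ≠ t₂) (hs : t₁ + t₂ = -em a)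
    (hp : t₁ * t₂ = em b) (w : Fin 2 → K) (hw : binQ a b w ≠ 0) (c : Fˣ)
    (hc : (c : F) * c = em (binQ a b w)) (hl : em (w 0) - t₁ * em (w 1) ≠ 0) :
    extHom (compat_split (m := k) em ht hs hp) ⟨shapeMinus k hab w hw, rfl⟩ =
      ofScalar _ c * ofIso _ (mapIso (ePlus (k + 1)) (plus_ePlus (k + 1))
        (scaleHom (k + 1) (zeroQ F) (Fin.snoc (fun _ => c) (Units.mk0 _ hl / c)))) := by
  have ha' : em a = -(t₁ + t₂) := by rw [hs, neg_neg]
  refine semi_eq_of_kp (em := em) (J := splitEquiv k ht) rfl ?_ fun v => ?_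
  · simp only [semi_mul_H, ofScalar_H, ofScalar_σ, ofIso_H, map_one, mul_one, extHom_H]
    exact hc.symm
  · rw [extHom_kp, semi_mul_map, ofScalar_map, ofIso_map]
    ext (i | i) <;>
      simp only [Pi.smul_apply, smul_eq_mul, (scale_map _ _ i).1, (scale_map _ _ i).2] <;>
      rw [kp, kp, splitEquiv_apply, splitEquiv_apply] <;>
      induction i using Fin.lastCases
    · simp [splitMap, shapeMinus_map, eMinus_z, mulW_apply, ha', ← hp]
      field_simp
      ring
    · simp [splitMap, shapeMinus_map, eMinus_xl]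
      rw [← mul_assoc, hc]
    · simp [splitMap, shapeMinus_map, eMinus_z, mulW_apply, ha', ← hp]
      have h2 : (c : F) * c = (em (w 0) - t₁ * em (w 1)) * (em (w 0) - t₂ * em (w 1)) := by
        rw [hc, binQ_apply]
        simp only [map_add, map_mul, map_pow, ha', ← hp]
        ring
      field_simp
      linear_combination -(em (v (.inr 0)) - t₂ * em (v (.inr 1))) * h2
    · simp [splitMap, shapeMinus_map, eMinus_xr]

theorem sqSign_sqrt (hcard : Fintype.card F = Fintype.card K ^ 2) (h2 : (2 : F) ≠ 0) {ν : K}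
    (hν : ν ≠ 0) (hns : ¬ IsSquare ν) {c : F} (hc : c * c = em ν) :
    sqSign c = if Fintype.card K % 4 = 1 then -1 else 1 := by
  have h2K := two_ne_of_em em h2
  have hc0 : c ≠ 0 := fun h => hν ((map_eq_zero em).1 (by rw [← hc, h, mul_zero]))
  have hF2 : ringChar F ≠ 2 := fun h => h2 (by
    haveI := ringChar.charP F
    exact_mod_cast (CharP.cast_eq_zero_iff F (ringChar F) 2).2 (by rw [h]))
  have hK2 : ringChar K ≠ 2 := fun h => h2K (by
    haveI := ringChar.charP K
    exact_mod_cast (CharP.cast_eq_zero_iff K (ringChar K) 2).2 (by rw [h]))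
  have hν1 : ν ^ (Fintype.card K / 2) = -1 := (FiniteField.pow_dichotomy hK2 hν).resolve_left
    fun h1 => hns ((FiniteField.isSquare_iff hK2 hν).2 h1)
  obtain ⟨j, hj⟩ := odd_card_of_two_ne_zero h2K
  have hpow : c ^ (Fintype.card F / 2) = (-1) ^ (j + 1) := by
    rw [hcard, hj, show (2 * j + 1) ^ 2 / 2 = 2 * (j * (j + 1)) by
      rw [show (2 * j + 1) ^ 2 = 2 * (2 * (j * (j + 1))) + 1 by ring]; omega, pow_mul, pow_two, hc,
      pow_mul, ← map_pow, show j = Fintype.card K / 2 by omega, hν1, map_neg, map_one]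
  rw [sqSign]
  have hiff : IsSquare c ↔ ((-1 : F) ^ (j + 1)) = 1 := by
    rw [FiniteField.isSquare_iff hF2 hc0, hpow]
  rcases Nat.even_or_odd j with he | ho
  · rw [if_neg, if_pos (by rcases he with ⟨i, rfl⟩; omega)]
    rw [hiff, (Even.add_one he).neg_one_pow]
    exact fun h => h2 (by linear_combination -h)
  · rw [if_pos, if_neg (by rcases ho with ⟨i, rfl⟩; omega)]
    rw [hiff, (Odd.add_one ho).neg_one_pow]

theorem spn_neg_plus (hm : 3 ≤ m) (hcard : Fintype.card F = Fintype.card K ^ 2)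
    (h2 : (2 : F) ≠ 0) (em : K →+* F) : spn (nd_plusQ (F := F) m) (negOne (plusQ m F)) = 1 := by
  obtain ⟨D, hD, -⟩ := exists_dat_plus (F := F) hm h2
  refine hD.trans (sqSign_eq_one_iff.2 ?_)
  rw [show ((-1 : F) ^ m) = em ((-1) ^ m) by simp]
  exact isSquare_em_two hcard h2 _

theorem sqSign_pow' {c : F} (hc : c ≠ 0) (n : ℕ) : sqSign (c ^ n) = sqSign c ^ n := sqSign_pow hc n

/-- Splitting of a field automorphism of order two. -/
theorem split_plus_two (hm : 3 ≤ m) (hι : ∀ x : F, σ x = x ↔ x ∈ Set.range em) (hr : orderOf σ = 2)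
    (h2 : (2 : F) ≠ 0) :
    Cfsg.splitClassCount (Cfsg.inndiagPOmegaPlus m F)
        (Cfsg.Inn (Cfsg.POmega F (Cfsg.quadFormPlus m F)))
        (act (fun v => plusQ_apply m v) (good_plusQ hm) (stdS (compat_plus em m) hι)) =
      if Odd m ∧ Fintype.card K % 4 = 1 then 2 else 4 := by
  haveI : Nonempty (Fin m ⊕ Fin m) := ⟨.inl ⟨0, by omega⟩⟩
  have hcard := card_of_fixed hι hr
  obtain ⟨ν, hν, hns⟩ := exists_nonsquare (F := K) (two_ne_of_em em h2)
  obtain ⟨c, hc⟩ := isSquare_em_two hcard h2 ν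
  have hc0 : c ≠ 0 := fun h => hν ((map_eq_zero em).1 (by rw [hc, h, mul_zero]))
  have key := split_two_or_four (properPlus (F := F) hm) (properPlus (F := K) hm) (compat_plus em m)
    (hext_plus hm) hι hr h2 (by rw [finrank_plus]; omega) (spn_neg_plus hm hcard h2 em)
    ⟨diagPlus m (Units.mk0 ν hν), rfl, pol_diagPlus _⟩ hns (Units.mk0 c hc0)
    (mapIso (ePlus m) (plus_ePlus m) (scaleHom m (zeroQ F) fun _ => Units.mk0 c hc0))
    (ext_diag_eq (Units.mk0 ν hν) (Units.mk0 c hc0) hc.symm)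
  rw [key, (invs_scale h2 _).2]
  simp only [Finset.prod_const, Finset.card_univ, Fintype.card_fin, Units.val_mk0]
  rw [sqSign_pow' hc0, sqSign_sqrt hcard h2 hν hns hc.symm]
  rcases Nat.even_or_odd m with he | ho <;> by_cases h4 : Fintype.card K % 4 = 1
  · simp [h4, he.neg_one_pow, Nat.not_odd_iff_even.2 he]
  · simp [h4]
  · simp [h4, ho.neg_one_pow, ho]
  · simp [h4]

/-- Splitting of a graph-field automorphism. -/
theorem split_graph (hk : 3 ≤ k) (hι : ∀ x : F, σ x = x ↔ x ∈ Set.range em) (hr : orderOf σ = 2)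
    (h2 : (2 : F) ≠ 0) {a b : K} (hab : Aniso a b) {t₁ t₂ : F} (ht : t₁ ≠ t₂)
    (hs : t₁ + t₂ = -em a) (hp : t₁ * t₂ = em b) (hσt : σ t₁ = t₂) :
    Cfsg.splitClassCount (Cfsg.inndiagPOmegaPlus (k + 1) F)
        (Cfsg.Inn (Cfsg.POmega F (Cfsg.quadFormPlus (k + 1) F)))
        (act (fun v => plusQ_apply (k + 1) v) (good_plusQ (by omega))
          (stdS (compat_split em ht hs hp) hι)) =
      if Odd (k + 1) ∧ Fintype.card K % 4 = 1 then 4 else 2 := by
  haveI : Nonempty ((Fin k ⊕ Fin k) ⊕ Fin 2) := ⟨.inr 0⟩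
  have hcard := card_of_fixed hι hr
  obtain ⟨ν, hν, hns⟩ := exists_nonsquare (F := K) (two_ne_of_em em h2)
  obtain ⟨w, hw⟩ := exists_binQ_eq hab ν
  obtain ⟨c, hc⟩ := isSquare_em_two hcard h2 ν
  have hc0 : c ≠ 0 := fun h => hν ((map_eq_zero em).1 (by rw [hc, h, mul_zero]))
  set l := em (w 0) - t₁ * em (w 1) with hldef
  have ha' : em a = -(t₁ + t₂) := by rw [hs, neg_neg]
  have hll : l * σ l = em ν := by
    rw [hldef, map_sub, map_mul, (hι _).2 ⟨w 0, rfl⟩, (hι _).2 ⟨w 1, rfl⟩, hσt, ← hw, binQ_apply]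
    simp only [map_add, map_mul, map_pow, ha', ← hp]
    ring
  have hl : l ≠ 0 := fun h => hν ((map_eq_zero em).1 (by rw [← hll, h, zero_mul]))
  have hlns : sqSign l = -1 := by
    rw [sqSign, if_neg]
    rintro ⟨μ, hμ⟩
    refine hns ?_
    have hfix : σ (μ * σ μ) = μ * σ μ := by
      have h1 : σ (σ μ) = μ := by
        rw [← RingAut.mul_apply, ← pow_two, ← hr, pow_orderOf_eq_one]; rfl
      rw [map_mul, h1, mul_comm]
    obtain ⟨x, hx⟩ := (hι _).1 hfix
    refine ⟨x, em.injective ?_⟩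
    rw [map_mul, hx, ← hll, hμ, map_mul]
    ring
  have hw0 : binQ a b w ≠ 0 := by rwa [hw]
  have key := split_two_or_four (properPlus (F := F) (m := k + 1) (by omega)) (properMinus hab hk)
    (compat_split em ht hs hp) (hext_split hk hab ht hs hp) hι hr h2 (by rw [finrank_plus]; omega)
    (spn_neg_plus (by omega) hcard h2 em) ⟨shapeMinus k hab w hw0, shape_mem hab (by omega) w hw0⟩
    (by show ¬ IsSquare (binQ a b w); rwa [hw]) (Units.mk0 c hc0)
    (mapIso (ePlus (k + 1)) (plus_ePlus (k + 1))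
      (scaleHom (k + 1) (zeroQ F) (Fin.snoc (fun _ => Units.mk0 c hc0) (Units.mk0 _ hl / Units.mk0 c hc0))))
    (ext_shape_eq hab ht hs hp w hw0 (Units.mk0 c hc0) (by rw [hw]; exact hc.symm) hl)
  rw [key, (invs_scale h2 _).2, Fin.prod_univ_castSucc]
  simp only [Fin.snoc_castSucc, Fin.snoc_last, Finset.prod_const, Finset.card_univ, Fintype.card_fin,
    Units.val_mk0, Units.val_div_eq_div_val]
  have hdiv : sqSign (l / c) = sqSign l * sqSign c := by
    have h1 := sqSign_mul (div_ne_zero hl hc0) hc0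
    rw [div_mul_cancel₀ _ hc0] at h1
    rw [h1, mul_assoc, Int.units_mul_self, mul_one]
  rw [sqSign_mul (pow_ne_zero _ hc0) (div_ne_zero hl hc0), hdiv, hlns, sqSign_pow' hc0,
    sqSign_sqrt hcard h2 hν hns hc.symm, mul_left_comm, ← pow_succ]
  by_cases h4 : Fintype.card K % 4 = 1
  · rw [if_pos h4]
    rcases Nat.even_or_odd (k + 1) with he | ho
    · rw [he.neg_one_pow, if_pos (mul_one _), if_neg fun h => Nat.not_odd_iff_even.2 he h.1]
    · rw [ho.neg_one_pow, if_neg (by decide), if_pos ⟨ho, h4⟩]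
  · rw [if_neg h4, one_pow, if_pos (mul_one _), if_neg fun h => h4 h.2]

end plus

section minus

variable {m : ℕ} {a b : F}

/-- A model of minus type compatible with properness. -/
theorem exists_minus_proper_model (hab : Aniso a b) (hm : 3 ≤ m)
    (hι : ∀ x : F, σ x = x ↔ x ∈ Set.range em) {r : ℕ} (hr : orderOf σ = r) (hodd : Odd r)
    {a₀ b₀ : K} (h₀ : Aniso a₀ b₀) :
    ∃ J : ((Fin m ⊕ Fin m) ⊕ Fin 2 → F) ≃ₗ[F] ((Fin m ⊕ Fin m) ⊕ Fin 2 → F),
      ∃ h : Compat em J (minusQ m a₀ b₀) (minusQ m a b),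
        ∀ g, extP (properMinus h₀ hm) h g ∈ (properMinus hab hm).P := by
  have h₀F := aniso_odd hι hr hodd h₀
  obtain ⟨e, he, hmul⟩ := exists_binary_equiv hab h₀F
  have hC : Compat em (liftBin m e) (minusQ m a₀ b₀) (minusQ m a b) := fun v => by
    rw [kp, minusQ_liftBin m e he, minusQ_apply, minusQ_apply]
    simp [Cfsg.quadFormMinus]
  refine ⟨liftBin m e, hC, ?_⟩
  rintro ⟨g, hσ, hd⟩
  obtain ⟨w, hw, k, hg⟩ := exists_dec h₀ ⟨g, hσ⟩
  have hdk : dick (nd_minusQ h₀ m) k = 1 := by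
    obtain ⟨L, iL, iF, el, t₁, t₂, ht, hs, hp⟩ := exists_split_field h₀
    rw [hg, dm_shape h₀ (by omega) ht hs hp] at hd
    exact hd
  have hw' : binQ a b (e fun i => em (w i)) = em (binQ a₀ b₀ w) := by
    rw [he]; simp [binQ_apply]
  have hw'0 : binQ a b (e fun i => em (w i)) ≠ 0 := by rw [hw']; exact (map_ne_zero em).2 hw
  have e1 : extHom hC ⟨shapeMinus m h₀ w hw, rfl⟩ = shapeMinus m hab _ hw'0 := by
    refine semi_eq_of_kp (em := em) (J := liftBin m e) rfl ?_ fun v => ?_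
    · rw [extHom_H]; exact hw'.symm
    · rw [extHom_kp, shapeMinus_map, shapeMinus_map, kp, kp]
      have hv : (fun i => em (v i)) = eMinus m ((fun i => em (v (.inl (.inl i))),
          fun i => em (v (.inl (.inr i)))), fun j => em (v (.inr j))) := by
        ext ((i | i) | i) <;> rfl
      rw [hv, liftBin_apply]
      simp only [eMinus_xl, eMinus_xr, eMinus_z, hw']
      rw [← hmul]
      refine Eq.trans ?_ (liftBin_apply m e (_, _))
      congr 1
      ext ((i | i) | i)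
      · simp [eMinus_xl]
      · simp [eMinus_xr]
      · simp only [eMinus_z, mulW_apply]
        fin_cases i <;> simp
  rw [extP_apply, show (⟨g, _⟩ : (sigmaHom (minusQ m a₀ b₀)).ker) = ⟨g, hσ⟩ from rfl, hg, map_mul,
    e1, ← ofIso_extI]
  refine mul_mem (shape_mem hab (by omega) _ hw'0) (((properMinus hab hm).iso _).2 ?_)
  rw [dick_extI (nd_minusQ h₀ m) _ (reg_minus (by omega))]
  exact hdk

end minus

end Cfsg.Agent.Lib.AutOmega
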