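import Cfsg.Agent.Lib.AutOmega.FieldModels
import Cfsg.Agent.Lib.AutOmega.Coset

/-!
Centralisers and splitting for field and graph-field automorphisms of even orthogonal groups.
-/

set_option autoImplicit false

namespace Cfsg.Agent.Lib.AutOmega

open QuadraticMap hiding proj
open Cfsg.Agent.Lib.Classical.Quad Cfsg.Agent.Lib.Classical.QuadOmega Cfsg.Agent.Lib.Classical.QuadF2
open Cfsg.Agent.Lib.AutOmegaOdd (Semi)

universe u w

variable {F : Type u} [Field F] [Fintype F] {p f : ℕ} [Fact p.Prime]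

theorem order_dvd (hF : Fintype.card F = p ^ f) (hf : 1 ≤ f) (σ : F ≃+* F) {r : ℕ}
    (hr : orderOf σ = r) : r ∣ f := by
  obtain ⟨s, -, -, -, hc⟩ := exists_frob hf hF
  rw [← hr, ← hc]
  exact orderOf_dvd_natCard σ

theorem two_eq_zero_iff (hF : Fintype.card F = p ^ f) : (2 : F) = 0 ↔ p = 2 := by
  haveI : CharP F p := charP_of_card_eq_prime_pow (R := F) (f := f) hF
  constructor
  · intro h
    have h2 : p ∣ 2 := (CharP.cast_eq_zero_iff F p 2).1 (by exact_mod_cast h)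
    exact (Nat.prime_dvd_prime_iff_eq (Fact.out) Nat.prime_two).1 h2
  · rintro rfl
    exact_mod_cast CharP.cast_eq_zero F 2

theorem inndiag_plus_normal {m : ℕ} (hm : 5 ≤ m) : (Cfsg.inndiagPOmegaPlus m F).Normal :=
  (properPlus (F := F) (m := m) (by omega)).group_normal (hyp_plus hm)

theorem inndiag_minus_normal {m : ℕ} (hm : 3 ≤ m) {a b : F} (hab : Aniso a b) :
    (Cfsg.inndiagPOmegaMinus m F a b).Normal :=
  (properMinus hab hm).group_normal (hyp_minus hab hm)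

theorem field_minus (hF : Fintype.card F = p ^ f) (hf : 1 ≤ f) {m : ℕ} (hm : 3 ≤ m) (a b : F)
    (hab : Aniso a b) (x : MulAut (Cfsg.POmega F (Cfsg.quadFormMinus m F a b)))
    (hx : Cfsg.IsFieldAutClassPOmegaMinus m x) {r : ℕ} (hr : r.Prime) (hxr : orderOf x = r)
    (F₀ : Type w) [Field F₀] [Fintype F₀] (hF₀ : Fintype.card F₀ = p ^ (f / r)) :
    Odd r ∧ r ∣ f ∧ (∃ a₀ b₀ : F₀, Aniso a₀ b₀ ∧
      Nonempty (↥(Cfsg.inndiagPOmegaMinus m F a b ⊓ Subgroup.centralizer {x}) ≃*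
        ↥(Cfsg.inndiagPOmegaMinus m F₀ a₀ b₀))) ∧
      Cfsg.splitClassCount (Cfsg.inndiagPOmegaMinus m F a b)
        (Cfsg.Inn (Cfsg.POmega F (Cfsg.quadFormMinus m F a b))) x = 1 := by
  haveI : Nonempty ((Fin m ⊕ Fin m) ⊕ Fin 2) := ⟨.inr 0⟩
  haveI := inndiag_minus_normal hm hab
  haveI : (Cfsg.Inn (Cfsg.POmega F (Cfsg.quadFormMinus m F a b))).Normal := AutPSp.normal_inn
  obtain ⟨χ, rfl, hσne⟩ := semi_of_field_minus hab hm hx
  obtain ⟨hro, l, hl⟩ := semi_of_prime _ _ hσne hr hxr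
  have hrf := order_dvd hF hf χ.σ hro
  obtain ⟨em, hι⟩ := AutPSL.exists_embedding hF hro hrf F₀ hF₀
  obtain ⟨hodd, hconj⟩ := minus_conj hab hm hι hr hro rfl hl
  obtain ⟨ζ, hζ⟩ := Classical.UnitaryFlat.exists_aniso F₀
  obtain ⟨J, hJ, hext⟩ := exists_minus_proper_model hab hm hι hro hodd hζ
  obtain ⟨x, -, he⟩ := hconj 1 ζ hζ J hJ
  rw [he]
  refine ⟨hodd, hrf, ⟨1, ζ, hζ, ?_⟩, ?_⟩
  · obtain ⟨e⟩ := centralizer_iso (properMinus hab hm) (properMinus hζ hm) hJ hext hι hro hr.pos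
    obtain ⟨e'⟩ := AutPSp.centralizerEquiv (H := Cfsg.inndiagPOmegaMinus m F a b) x
      (act (fun v => minusQ_apply m a b v) (good_minusQ hab hm) (stdS hJ hι))
    exact ⟨e'.symm.trans e⟩
  · rw [AutPSp.splitClassCount_conj (inn_le_group (properMinus hab hm))]
    exact split_one_odd (properMinus hab hm) (properMinus hζ hm) hJ hext hι hro hr.pos hodd
      (reg_minus (by omega)) (by rw [Module.finrank_fintype_fun_eq_card]; simp)

/-- The statement for plus type, the inner-diagonal group being normal. -/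
theorem field_plus_of (hF : Fintype.card F = p ^ f) (hf : 1 ≤ f) {m : ℕ} (hm : 4 ≤ m)
    (hN : (Cfsg.inndiagPOmegaPlus m F).Normal)
    (φ : MulAut (Cfsg.POmega F (Cfsg.quadFormPlus m F))) {σ : F ≃+* F}
    (hφ : Cfsg.IsFieldAutPOmegaOf (Cfsg.quadFormPlus m F) σ φ) (hσ : σ ≠ 1)
    (x α : MulAut (Cfsg.POmega F (Cfsg.quadFormPlus m F))) (hα : α * x * α⁻¹ = φ) {r : ℕ}
    (hr : r.Prime) (hxr : orderOf x = r) (F₀ : Type w) [Field F₀] [Fintype F₀]
    (hF₀ : Fintype.card F₀ = p ^ (f / r)) :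
    r ∣ f ∧ Nonempty (↥(Cfsg.inndiagPOmegaPlus m F ⊓ Subgroup.centralizer {x}) ≃*
        ↥(Cfsg.inndiagPOmegaPlus m F₀)) ∧
      ((Odd r ∨ p = 2) → Cfsg.splitClassCount (Cfsg.inndiagPOmegaPlus m F)
        (Cfsg.Inn (Cfsg.POmega F (Cfsg.quadFormPlus m F))) x = 1) ∧
      ((r = 2 ∧ p ≠ 2 ∧ Odd m ∧ p ^ (f / 2) % 4 = 1) →
        Cfsg.splitClassCount (Cfsg.inndiagPOmegaPlus m F)
          (Cfsg.Inn (Cfsg.POmega F (Cfsg.quadFormPlus m F))) x = 2) ∧
      ((r = 2 ∧ p ≠ 2 ∧ ¬ (Odd m ∧ p ^ (f / 2) % 4 = 1)) →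
        Cfsg.splitClassCount (Cfsg.inndiagPOmegaPlus m F)
          (Cfsg.Inn (Cfsg.POmega F (Cfsg.quadFormPlus m F))) x = 4) := by
  have hm3 : 3 ≤ m := by omega
  haveI : Nonempty (Fin m ⊕ Fin m) := ⟨.inl ⟨0, by omega⟩⟩
  haveI : (Cfsg.Inn (Cfsg.POmega F (Cfsg.quadFormPlus m F))).Normal := AutPSp.normal_inn
  rw [act_field hm3 hφ] at hα
  have hσ' : (fieldPlus m σ).σ ≠ 1 := hσ
  have hor : orderOf (act (fun v => plusQ_apply m v) (good_plusQ hm3) (fieldPlus m σ)) = r := by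
    rw [← hα, AutPSL.orderOf_conj, hxr]
  obtain ⟨hro, -⟩ := semi_of_prime _ _ hσ' hr hor
  have hro' : orderOf σ = r := hro
  have hrf := order_dvd hF hf σ hro'
  obtain ⟨em, hι⟩ := AutPSL.exists_embedding hF hro' hrf F₀ hF₀
  rw [← stdS_plus hι] at hα
  have hX : x = α⁻¹ * act (fun v => plusQ_apply m v) (good_plusQ hm3)
      (stdS (compat_plus em m) hι) * α⁻¹⁻¹ := by rw [← hα]; group
  have hle := inn_le_group (properPlus (F := F) hm3)
  rw [hX, AutPSp.splitClassCount_conj hle]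
  refine ⟨hrf, ?_, fun h => ?_, ?_, ?_⟩
  · obtain ⟨e⟩ := centralizer_iso (properPlus (F := F) hm3) (properPlus (F := F₀) hm3)
      (compat_plus em m) (hext_plus hm3) hι hro' hr.pos
    obtain ⟨e'⟩ := AutPSp.centralizerEquiv (H := Cfsg.inndiagPOmegaPlus m F) α⁻¹
      (act (fun v => plusQ_apply m v) (good_plusQ hm3) (stdS (compat_plus em m) hι))
    exact ⟨e'.symm.trans e⟩
  · rcases h with h | h
    · exact split_one_odd (properPlus (F := F) hm3) (properPlus (F := F₀) hm3) (compat_plus em m)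
        (hext_plus hm3) hι hro' hr.pos h (reg_plusQ hm3) (by rw [finrank_plus]; omega)
    · exact split_one_two (properPlus (F := F) hm3) ((two_eq_zero_iff hF).2 h) (reg_plusQ hm3) _
  · rintro ⟨rfl, h2, h⟩
    rw [split_plus_two hm3 hι hro' fun e => h2 ((two_eq_zero_iff hF).1 e), hF₀, if_pos h]
  · rintro ⟨rfl, h2, h⟩
    rw [split_plus_two hm3 hι hro' fun e => h2 ((two_eq_zero_iff hF).1 e), hF₀, if_neg h]

theorem graph_plus (hF : Fintype.card F = p ^ f) (hf : 1 ≤ f) {m : ℕ} (hm : 5 ≤ m)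
    (x : MulAut (Cfsg.POmega F (Cfsg.quadFormPlus m F)))
    (hx : Cfsg.IsGraphFieldAutClassPOmegaPlus m x) (hx2 : orderOf x = 2) (F₀ : Type w) [Field F₀]
    [Fintype F₀] (hF₀ : Fintype.card F₀ = p ^ (f / 2)) :
    Even f ∧ (∀ y : MulAut (Cfsg.POmega F (Cfsg.quadFormPlus m F)),
        Cfsg.IsGraphFieldAutClassPOmegaPlus m y → orderOf y = 2 →
          Cfsg.IsConjUnder (Cfsg.inndiagPOmegaPlus m F) x y) ∧
      (∃ a₀ b₀ : F₀, Aniso a₀ b₀ ∧
        Nonempty (↥(Cfsg.inndiagPOmegaPlus m F ⊓ Subgroup.centralizer {x}) ≃*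
          ↥(Cfsg.inndiagPOmegaMinus (m - 1) F₀ a₀ b₀))) ∧
      (p = 2 → Cfsg.splitClassCount (Cfsg.inndiagPOmegaPlus m F)
        (Cfsg.Inn (Cfsg.POmega F (Cfsg.quadFormPlus m F))) x = 1) ∧
      ((p ≠ 2 ∧ Odd m ∧ p ^ (f / 2) % 4 = 1) → Cfsg.splitClassCount (Cfsg.inndiagPOmegaPlus m F)
        (Cfsg.Inn (Cfsg.POmega F (Cfsg.quadFormPlus m F))) x = 4) ∧
      ((p ≠ 2 ∧ ¬ (Odd m ∧ p ^ (f / 2) % 4 = 1)) → Cfsg.splitClassCount (Cfsg.inndiagPOmegaPlus m F)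
        (Cfsg.Inn (Cfsg.POmega F (Cfsg.quadFormPlus m F))) x = 2) := by
  haveI := inndiag_plus_normal (F := F) hm
  haveI : (Cfsg.Inn (Cfsg.POmega F (Cfsg.quadFormPlus m F))).Normal := AutPSp.normal_inn
  obtain ⟨k, rfl⟩ : ∃ k, m = k + 1 := ⟨m - 1, by omega⟩
  have hk2 : 2 ≤ k := le_trans (by norm_num) (Nat.succ_le_succ_iff.1 hm)
  have hk3 : 3 ≤ k := le_trans (by norm_num) (Nat.succ_le_succ_iff.1 hm)
  haveI : Nonempty ((Fin k ⊕ Fin k) ⊕ Fin 2) := ⟨.inr 0⟩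
  haveI : Nonempty (Fin (k + 1) ⊕ Fin (k + 1)) := ⟨.inl 0⟩
  obtain ⟨χ, hxe, hσne, hp⟩ := semi_of_graph hm hx
  obtain ⟨hro, l, hl⟩ := semi_of_prime _ _ hσne Nat.prime_two (hxe ▸ hx2)
  have hrf := order_dvd hF hf χ.σ hro
  obtain ⟨em, hι⟩ := AutPSL.exists_embedding hF hro hrf F₀ hF₀
  obtain ⟨ζ, hζ⟩ := Classical.UnitaryFlat.exists_aniso F₀
  obtain ⟨t₁, t₂, ht, hs, hp', hσt⟩ := exists_swapped_roots hι hro hζ
  obtain ⟨-, hconj⟩ := plus_conj_graph hk2 hι Nat.prime_two hro rfl hl hp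
  obtain ⟨z, hz, he⟩ := hconj 1 ζ hζ t₁ t₂ ht hs hp'
  refine ⟨even_iff_two_dvd.2 hrf, fun y hy hy2 => ?_, ?_⟩
  · obtain ⟨χ', hye, hσne', hp''⟩ := semi_of_graph hm hy
    obtain ⟨hro', l', hl'⟩ := semi_of_prime _ _ hσne' Nat.prime_two (hye ▸ hy2)
    have hσeq : χ'.σ = χ.σ := by
      haveI : Finite (F ≃+* F) :=
        Finite.of_injective (fun e : F ≃+* F => (e : F → F)) DFunLike.coe_injective
      haveI : IsCyclic (F ≃+* F) := by
        obtain ⟨e⟩ := AutPSL.ringAut_equiv (F := F) hf hF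
        exact isCyclic_of_surjective e.symm.toMonoidHom e.symm.surjective
      exact eq_of_orderOf_two hro' hro
    obtain ⟨-, hconj'⟩ := plus_conj_graph hk2 hι Nat.prime_two hro hσeq hl' hp''
    obtain ⟨z', hz', he'⟩ := hconj' 1 ζ hζ t₁ t₂ ht hs hp'
    exact isConjUnder_of_common ⟨z, hz, hxe.trans he⟩ ⟨z', hz', hye.trans he'⟩
  have hle := inn_le_group (properPlus (F := F) (m := k + 1) (by omega))
  rw [hxe, he, AutPSp.splitClassCount_conj hle, show k + 1 - 1 = k from rfl]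
  refine ⟨⟨1, ζ, hζ, ?_⟩, fun h => ?_, ?_, ?_⟩
  · obtain ⟨e⟩ := centralizer_iso (properPlus (F := F) (m := k + 1) (by omega))
      (properMinus hζ hk3) (compat_split em ht hs hp') (hext_split hk3 hζ ht hs hp') hι hro two_pos
    obtain ⟨e'⟩ := AutPSp.centralizerEquiv (H := Cfsg.inndiagPOmegaPlus (k + 1) F) z
      (act (fun v => plusQ_apply (k + 1) v) (good_plusQ (by omega))
        (stdS (compat_split em ht hs hp') hι))
    exact ⟨e'.symm.trans e⟩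
  · exact split_one_two (properPlus (F := F) (m := k + 1) (by omega)) ((two_eq_zero_iff hF).2 h)
      (reg_plusQ (by omega)) _
  · rintro ⟨h2, h⟩
    rw [split_graph hk3 hι hro (fun e => h2 ((two_eq_zero_iff hF).1 e)) hζ ht hs hp' hσt, hF₀,
      if_pos h]
  · rintro ⟨h2, h⟩
    rw [split_graph hk3 hι hro (fun e => h2 ((two_eq_zero_iff hF).1 e)) hζ ht hs hp' hσt, hF₀,
      if_neg h]
where
  eq_of_orderOf_two {X : Type u} [Group X] [Finite X] [IsCyclic X] {a b : X} (ha : orderOf a = 2)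
      (hb : orderOf b = 2) : a = b := by
    haveI : Fintype X := Fintype.ofFinite X
    classical
    have hc := IsCyclic.card_orderOf_eq_totient (α := X) (d := 2)
      (by rw [← ha]; exact orderOf_dvd_card)
    exact (Finset.card_le_one.1 (by rw [hc]; rfl)) a (Finset.mem_filter.2 ⟨Finset.mem_univ _, ha⟩) b
      (Finset.mem_filter.2 ⟨Finset.mem_univ _, hb⟩)

end Cfsg.Agent.Lib.AutOmega
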