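import Cfsg.Agent.Lib.AutOmega.FieldThms

/-!
Splitting of the classes of involutory graph automorphisms in odd characteristic.
-/

set_option autoImplicit false

namespace Cfsg.Agent.Lib.AutOmega

open QuadraticMap hiding proj
open Cfsg.Agent.Lib.Classical.Quad Cfsg.Agent.Lib.Classical.QuadOmega Cfsg.Agent.Lib.Classical.QuadF2
open Cfsg.Agent.Lib.AutOmegaOdd (Semi)

universe u w v

section eigen

variable {F : Type u} [Field F] {V : Type v} [AddCommGroup V] [Module F V] {Q : QuadraticForm F V}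

/-- An eigenspace of a similitude. -/
noncomputable def eig (χ : Semi Q) (hσ : χ.σ = 1) (μ : F) : Submodule F V :=
  LinearMap.ker ((linOf χ hσ : V →ₗ[F] V) - μ • LinearMap.id)

theorem mem_eig {χ : Semi Q} {hσ : χ.σ = 1} {μ : F} {v : V} :
    v ∈ eig χ hσ μ ↔ χ.map v = μ • v := by
  simp [eig, sub_eq_zero, linOf_apply]

variable [FiniteDimensional F V]

theorem eig_sum (h2 : (2 : F) ≠ 0) {χ : Semi Q} (hσ : χ.σ = 1) {μ : F} (hμ : μ ≠ 0)
    (hsq : ∀ v, χ.map (χ.map v) = (μ * μ) • v) :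
    Module.finrank F (eig χ hσ μ) + Module.finrank F (eig χ hσ (-μ)) = Module.finrank F V := by
  rw [← Submodule.finrank_sup_add_finrank_inf_eq]
  have hinf : eig χ hσ μ ⊓ eig χ hσ (-μ) = ⊥ := (Submodule.eq_bot_iff _).2 fun v hv => by
    obtain ⟨h1, h2'⟩ := Submodule.mem_inf.1 hv
    rw [mem_eig] at h1 h2'
    rw [h1] at h2'
    have : (2 * μ) • v = 0 := by
      rw [two_mul, add_smul]
      conv_lhs => arg 2; rw [h2']
      rw [← add_smul, add_neg_cancel, zero_smul]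
    exact (smul_eq_zero.1 this).resolve_left (mul_ne_zero h2 hμ)
  have htop : eig χ hσ μ ⊔ eig χ hσ (-μ) = ⊤ := eq_top_iff.2 fun v _ => by
    have hlin : ∀ (c : F) x, χ.map (c • x) = c • χ.map x := fun c x => by
      rw [χ.map_smul, hσ]; rfl
    refine Submodule.mem_sup.2 ⟨(2 * μ)⁻¹ • (μ • v + χ.map v), mem_eig.2 ?_,
      (2 * μ)⁻¹ • (μ • v - χ.map v), mem_eig.2 ?_, ?_⟩
    · rw [hlin, map_add, hlin, hsq, smul_comm μ (2 * μ)⁻¹, smul_add μ, smul_smul μ μ, add_comm]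
    · rw [hlin, map_sub, hlin, hsq, smul_comm (-μ) (2 * μ)⁻¹, smul_sub (-μ), smul_smul (-μ) μ,
        neg_mul, neg_smul, neg_smul]
      congr 1
      abel
    · rw [← smul_add, add_add_sub_cancel, ← two_smul F, smul_smul, smul_smul, mul_assoc,
        inv_mul_cancel₀ (mul_ne_zero h2 hμ), one_smul]
  rw [hinf, htop, finrank_top, finrank_bot, add_zero]

end eigen

section plusEigen

variable {L : Type w} [Field L] [Fintype L] {N : ℕ}

theorem pol_of_neg (h2 : (2 : L) ≠ 0) {χ : Semi (plusQ N L)} (hσ : χ.σ = 1) {μ : L} (hμ : μ ≠ 0)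
    (hsq : ∀ v, χ.map (χ.map v) = (μ * μ) • v) (hH : χ.H = -(μ * μ)) : pol N L χ = 1 := by
  have hts : ∀ ν : L, ν * ν = μ * μ → ∀ v ∈ eig χ hσ ν, plusQ N L v = 0 := by
    intro ν hν v hv
    have h1 := χ.map_Q v
    rw [mem_eig.1 hv, QuadraticMap.map_smul, hH, hσ, RingAut.one_apply, smul_eq_mul, hν, neg_mul,
      eq_neg_iff_add_eq_zero, ← two_mul, mul_eq_zero, mul_eq_zero] at h1
    exact (h1.resolve_left h2).resolve_left (mul_ne_zero hμ hμ)
  have hle : ∀ ν : L, ν * ν = μ * μ → Module.finrank L (eig χ hσ ν) ≤ N := fun ν hν =>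
    finrank_le_of_plus N _ fun v hv => by rw [← plusQ_apply]; exact hts ν hν v hv
  have hd := eig_sum h2 hσ hμ hsq
  rw [finrank_plus] at hd
  have h1 := hle μ rfl
  have h2' := hle (-μ) (by ring)
  have hM : MaxTS (plusQ N L) (eig χ hσ μ) :=
    (maxTS_iff N _).2 ⟨by omega, fun v hv => by rw [← plusQ_apply]; exact hts μ rfl v hv⟩
  have e : imgσ χ (eig χ hσ μ) = eig χ hσ μ :=
    Submodule.eq_of_le_of_finrank_le (fun v hv => by
      obtain ⟨x, hx, rfl⟩ := hv
      rw [mem_eig.1 hx]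
      exact Submodule.smul_mem _ _ hx) (finrank_imgσ χ _).ge
  rw [← sp_imgσ_self χ hM, e, sp_self hM]

theorem pol_of_swap (h2 : (2 : L) ≠ 0) (hN : Even N) {χ ψ : Semi (plusQ N L)} (hσ : χ.σ = 1)
    {μ : L} (hμ : μ ≠ 0) (hψμ : ψ.σ μ = μ) (hsq : ∀ v, χ.map (χ.map v) = (μ * μ) • v)
    (hH : χ.H = μ * μ) (hswap : ∀ v, ψ.map (χ.map v) = -χ.map (ψ.map v)) : pol N L χ = 1 := by
  obtain ⟨k, hk⟩ := eq_scalar_iso hσ (c := Units.mk0 μ hμ) hH
  have hmap : ∀ v, χ.map v = μ • k.1 v := fun v => by rw [hk]; rfl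
  have e : fixS k = eig χ hσ μ := by
    ext v
    rw [mem_fixS, mem_eig, hmap]
    exact ⟨fun h => by rw [h], fun h => smul_right_injective _ hμ h⟩
  have h1 : imgσ ψ (eig χ hσ μ) ≤ eig χ hσ (-μ) := fun v hv => by
    obtain ⟨x, hx, rfl⟩ := hv
    have h := hswap x
    rw [mem_eig.1 hx, ψ.map_smul, hψμ] at h
    rw [mem_eig, neg_smul, h, neg_neg]
  have h2' : imgσ ψ (eig χ hσ (-μ)) ≤ eig χ hσ μ := fun v hv => by
    obtain ⟨x, hx, rfl⟩ := hv
    have h := hswap x
    rw [mem_eig.1 hx, ψ.map_smul, map_neg, hψμ, neg_smul, neg_inj] at h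
    exact mem_eig.2 h.symm
  have d1 := Submodule.finrank_mono h1
  have d2 := Submodule.finrank_mono h2'
  rw [finrank_imgσ] at d1 d2
  have hd := eig_sum h2 hσ hμ hsq
  rw [finrank_plus] at hd
  rw [hk, map_mul, pol_scalar, one_mul, pol_ofIso (reg_of_two_ne_zero h2), dick_eq, finrank_plus, e,
    show Module.finrank L (eig χ hσ μ) = N by omega]
  exact (((even_two_mul N).add hN)).neg_one_pow

end plusEigen

section zero

variable {F : Type u} [Field F] [Fintype F] {V : Type v} [AddCommGroup V] [Module F V] [Finite V]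

theorem exists_zero (h2 : (2 : F) ≠ 0) (φ : QuadraticForm F V) (hn : 3 ≤ Module.finrank F V) :
    ∃ x, x ≠ 0 ∧ φ x = 0 := by
  have : FiniteDimensional F V := Module.Finite.of_finite
  by_cases hN : Nd φ
  · exact hN.exists_singular_three hn
  · obtain ⟨x, hx, hx0⟩ : ∃ x, (∀ y, polar φ x y = 0) ∧ x ≠ 0 := by
      by_contra! h
      exact hN h
    refine ⟨x, hx0, ?_⟩
    have h := hx x
    rw [polar_self, two_nsmul, ← two_mul] at h
    exact (mul_eq_zero.1 h).resolve_left h2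

variable {Q : QuadraticForm F V}

/-- An anisotropic vector orthogonal to its image. -/
theorem exists_orth_image (hQ : Nd Q) (h2 : (2 : F) ≠ 0) {χ : Semi Q} (hσ : χ.σ = 1) {lam : F}
    (hlam : lam ≠ 0) (hsq : ∀ v, χ.map (χ.map v) = lam • v) (hH : χ.H = lam)
    (hns : ¬ IsSquare lam) (S : Submodule F V) (hS : ∀ v ∈ S, Q v = 0)
    (hS3 : 3 ≤ Module.finrank F S) :
    ∃ u, Q u ≠ 0 ∧ polar Q u (χ.map u) = 0 := by
  classical
  have : FiniteDimensional F V := Module.Finite.of_finite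
  have hB : ∀ x y, polar Q (χ.map x) (χ.map y) = lam * polar Q x y := fun x y => by
    rw [χ.map_B, hH, hσ]; rfl
  have hadj : ∀ x y, polar Q x (χ.map y) = polar Q (χ.map x) y := fun x y => by
    refine mul_left_cancel₀ hlam ?_
    rw [← hB, hsq, polar_smul_right, smul_eq_mul, mul_comm]
  let φ : QuadraticForm F S := LinearMap.BilinMap.toQuadraticMap
    (((polarBilin Q).compl₂ (linOf χ hσ : V →ₗ[F] V)).compl₁₂ S.subtype S.subtype)
  have hφ : ∀ x : S, φ x = polar Q x.1 (χ.map x.1) := fun x => rfl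
  obtain ⟨x, hx0, hx⟩ := exists_zero h2 φ hS3
  set e : V := x.1
  have he0 : e ≠ 0 := fun h => hx0 (Subtype.ext h)
  have hQe : Q e = 0 := hS e x.2
  have hφe : polar Q e (χ.map e) = 0 := hx
  have hind : ∀ c : F, χ.map e ≠ c • e := fun c h => by
    have h1 := hsq e
    rw [h, χ.map_smul, hσ, RingAut.one_apply, h, smul_smul] at h1
    exact hns ⟨c, (smul_left_injective F he0 h1).symm⟩
  obtain ⟨v, hv1, hv2⟩ : ∃ v, polar Q (χ.map e) v = 0 ∧ polar Q e v = 1 := by
    obtain ⟨v, h1, h2'⟩ := hQ.exists_one_perp (x := χ.map e) (y := e) fun c hc => by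
      rcases eq_or_ne c 0 with rfl | hc0
      · rw [zero_smul] at hc; exact he0 hc
      · exact hind c⁻¹ (by conv_rhs => rw [hc, smul_smul, inv_mul_cancel₀ hc0, one_smul])
    exact ⟨v, h1, h2'⟩
  set t := polar Q v (χ.map v)
  set xc := 1 - Q v
  set yc := -t / (2 * lam)
  refine ⟨v + (xc • e + yc • χ.map e), ?_, ?_⟩
  · rw [QuadraticMap.map_add ⇑Q, QuadraticMap.map_add ⇑Q, QuadraticMap.map_smul,
      QuadraticMap.map_smul, hQe, χ.map_Q, hQe, polar_smul_left, polar_smul_right, hφe,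
      polar_add_right, polar_smul_right, polar_smul_right, polar_comm Q v e, hv2,
      polar_comm Q v (χ.map e), hv1]
    simp [xc]
  · have h1 : χ.map (v + (xc • e + yc • χ.map e)) = χ.map v + (xc • χ.map e + (yc * lam) • e) := by
      rw [map_add, map_add, χ.map_smul, χ.map_smul, hσ, RingAut.one_apply, RingAut.one_apply, hsq,
        smul_smul]
    have hee : polar Q e e = 0 := by rw [polar_self, hQe, smul_zero]
    have hff : polar Q (χ.map e) (χ.map e) = 0 := by rw [hB, hee, mul_zero]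
    have hev : polar Q e (χ.map v) = 0 := by rw [hadj, hv1]
    have hfv : polar Q (χ.map e) (χ.map v) = lam := by rw [hB, hv2, mul_one]
    rw [h1]
    simp only [polar_add_left, polar_add_right, polar_smul_left, polar_smul_right, smul_eq_mul,
      hee, hff, hev, hfv, hφe, polar_comm Q v e, hv2, polar_comm Q v (χ.map e), hv1,
      polar_comm Q (χ.map e) e]
    simp only [yc, t]
    field_simp
    ring

end zero

section split

variable {F : Type u} [Field F] [Fintype F] {ι : Type} [Fintype ι] [DecidableEq ι]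
  {f : (ι → F) → F} {Q : QuadraticForm F (ι → F)} {hf : ∀ v, Q v = f v} {hG : Good Q}
  {G : Subgroup (MulAut (Cfsg.POmega F f))}

omit [Fintype F] in
theorem act_comm_of_conjI {χ : Semi Q} {h : isoG Q} (e : χ.conjI h = h) :
    ofIso Q h * χ = χ * ofIso Q h := by rw [mul_ofIso, e]

/-- The spinor class commutes with an involutory similitude. -/
theorem exists_spn_comm (h2 : (2 : F) ≠ 0) {χ : Semi Q} (hσ : χ.σ = 1) {l : Fˣ}
    (hl : χ * χ = ofScalar Q l) (hH : χ.H = l) (hn : 3 ≤ Module.finrank F (ι → F))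
    {S : Submodule F (ι → F)} (hS : ∀ v ∈ S, Q v = 0) (hS3 : 3 ≤ Module.finrank F S)
    (hQ : Nd Q) :
    ∃ h : isoG Q, dick hQ h = 1 ∧ spn hQ h = -1 ∧ ofIso Q h * χ = χ * ofIso Q h := by
  have hsq : ∀ v, χ.map (χ.map v) = (l : F) • v := fun v => by
    rw [← semi_mul_map, hl, ofScalar_map]
  obtain ⟨ν, hν, hνns⟩ := exists_nonsquare (F := F) h2
  by_cases hs : IsSquare (l : F)
  · obtain ⟨μ, hμ⟩ := hs
    have hμ0 : μ ≠ 0 := fun h => l.ne_zero (by rw [hμ, h, mul_zero])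
    rw [hμ] at hsq
    have hd := eig_sum h2 hσ hμ0 hsq
    obtain ⟨s, hsμ, hsd⟩ : ∃ s : F, s * s = μ * μ ∧ 2 ≤ Module.finrank F (eig χ hσ s) ∧
        ∀ x ∈ eig χ hσ s, ∀ y ∈ eig χ hσ (-s), polar Q x y = 0 := by
      have horth : ∀ s : F, s * s = μ * μ → ∀ x ∈ eig χ hσ s, ∀ y ∈ eig χ hσ (-s),
          polar Q x y = 0 := fun s hs x hx y hy => by
        have h1 := χ.map_B x y
        rw [mem_eig.1 hx, mem_eig.1 hy, polar_smul_left, polar_smul_right, hH, hσ, hμ, ← hs,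
          RingAut.one_apply, smul_eq_mul, smul_eq_mul] at h1
        have h2' : (2 * (s * s)) * polar Q x y = 0 := by linear_combination -h1
        exact (mul_eq_zero.1 h2').resolve_left
          (mul_ne_zero h2 (by rw [hs]; exact mul_ne_zero hμ0 hμ0))
      by_cases h : 2 ≤ Module.finrank F (eig χ hσ μ)
      · exact ⟨μ, rfl, h, horth μ rfl⟩
      · exact ⟨-μ, by ring, by omega, horth (-μ) (by ring)⟩
    set W := eig χ hσ s
    have hs0 : s ≠ 0 := fun h => mul_ne_zero hμ0 hμ0 (by rw [← hsμ, h, mul_zero])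
    have hWnd : Nd (Q.comp W.subtype) := fun x hx => by
      refine Subtype.ext (hQ x.1 fun y => ?_)
      have hsum : eig χ hσ s ⊔ eig χ hσ (-s) = ⊤ := by
        have hd' := eig_sum h2 hσ hs0 (by rw [hsμ]; exact hsq)
        apply Submodule.eq_top_of_finrank_eq
        have hinf : eig χ hσ s ⊓ eig χ hσ (-s) = ⊥ := (Submodule.eq_bot_iff _).2 fun v hv => by
          obtain ⟨h1, h2'⟩ := Submodule.mem_inf.1 hv
          rw [mem_eig] at h1 h2'
          rw [h1, neg_smul, eq_neg_iff_add_eq_zero, ← add_smul, ← two_mul] at h2'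
          exact (smul_eq_zero.1 h2').resolve_left (mul_ne_zero h2 hs0)
        have h3 := Submodule.finrank_sup_add_finrank_inf_eq (eig χ hσ s) (eig χ hσ (-s))
        rw [hinf, finrank_bot, add_zero, hd'] at h3
        exact h3
      obtain ⟨p, hp, q, hq, rfl⟩ := Submodule.mem_sup.1 (hsum ▸ Submodule.mem_top : y ∈ _)
      rw [polar_add_right, hsd.2 _ x.2 _ hq, add_zero]
      have := hx ⟨p, hp⟩
      simpa [polar] using this
    obtain ⟨u, hu⟩ := Nd.exists_eq hWnd h2 hsd.1 1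
    obtain ⟨w, hw⟩ := Nd.exists_eq hWnd h2 hsd.1 ν
    have hu' : Q u.1 = 1 := hu
    have hw' : Q w.1 = ν := hw
    have hu0 : Q u.1 ≠ 0 := by rw [hu']; exact one_ne_zero
    have hw0 : Q w.1 ≠ 0 := by rwa [hw']
    refine ⟨refl Q u.1 * refl Q w.1, by rw [map_mul, dick_refl _ hu0, dick_refl _ hw0]; rfl, ?_,
      act_comm_of_conjI ?_⟩
    · rw [map_mul, spn_refl _ h2 hu0, spn_refl _ h2 hw0, hu', hw', sqSign_one, one_mul, sqSign,
        if_neg hνns]
    · rw [map_mul, (conjI_refl χ hu0).1, (conjI_refl χ hw0).1, mem_eig.1 u.2, mem_eig.1 w.2,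
        refl_smul hu0 hs0, refl_smul hw0 hs0]
  · obtain ⟨u, hu, hperp⟩ := exists_orth_image hQ h2 hσ l.ne_zero hsq hH hs S hS hS3
    have hgu : Q (χ.map u) = l * Q u := by rw [χ.map_Q, hH, hσ]; rfl
    have hgu0 : Q (χ.map u) ≠ 0 := by rw [hgu]; exact mul_ne_zero l.ne_zero hu
    refine ⟨refl Q u * refl Q (χ.map u), by rw [map_mul, dick_refl _ hu, dick_refl _ hgu0]; rfl, ?_,
      act_comm_of_conjI ?_⟩
    · rw [map_mul, spn_refl _ h2 hu, spn_refl _ h2 hgu0, hgu, sqSign_mul l.ne_zero hu, mul_left_comm,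
        Int.units_mul_self, mul_one, sqSign, if_neg hs]
    · rw [map_mul, (conjI_refl χ hu).1, (conjI_refl χ hgu0).1, hsq, refl_smul hu l.ne_zero]
      have h1 := refl_conj hu (refl Q (χ.map u))
      rw [refl_inv hgu0, refl_apply_perp hgu0 hperp] at h1
      calc refl Q (χ.map u) * refl Q u
          = refl Q (χ.map u) * refl Q u * (refl Q (χ.map u) * refl Q (χ.map u)) := by
            rw [refl_mul_self hgu0, mul_one]
        _ = refl Q (χ.map u) * refl Q u * refl Q (χ.map u) * refl Q (χ.map u) := by group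
        _ = _ := by rw [h1]

variable {L : Type w} [Field L] [Fintype L] {em : F →+* L} {N : ℕ}
  {J : (ι → L) ≃ₗ[L] (Fin N ⊕ Fin N → L)}

/-- The splitting of the class of an involutory improper similitude. -/
theorem graph_split [Nonempty ι] (D : Proper hf hG G) (h2 : (2 : F) ≠ 0)
    (h : Compat em J Q (plusQ N L))
    (hdet : ∀ g : (sigmaHom Q).ker, g.1 ∈ D.P ↔ pol N L (extHom h g) = 1)
    (hall : ∀ d : F, IsSquare (em d)) {χ : Semi Q} (hσ : χ.σ = 1) (hnot : χ ∉ D.P) {l : Fˣ}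
    (hl : χ * χ = ofScalar Q l) (hn : 3 ≤ Module.finrank F (ι → F)) {S : Submodule F (ι → F)}
    (hS : ∀ v ∈ S, Q v = 0) (hS3 : 3 ≤ Module.finrank F S) :
    (Cfsg.splitClassCount G (Cfsg.Inn (Cfsg.POmega F f)) (act hf hG χ) = 1 ∨
      Cfsg.splitClassCount G (Cfsg.Inn (Cfsg.POmega F f)) (act hf hG χ) = 2) ∧
    ((spn (show Nd Q from hG.nd) (negOne Q) = 1 ∨ Even N) →
      Cfsg.splitClassCount G (Cfsg.Inn (Cfsg.POmega F f)) (act hf hG χ) = 2) := by
  have hQ : Nd Q := hG.nd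
  have hreg : Reg F (ι → F) := reg_of_two_ne_zero h2
  have h2L : (2 : L) ≠ 0 := fun h0 => h2 (em.injective (by rw [map_ofNat, h0, map_zero]))
  obtain ⟨μ, hμ⟩ := hall l
  have hμ0 : μ ≠ 0 := fun h0 => l.ne_zero ((map_eq_zero em).1 (by rw [hμ, h0, mul_zero]))
  set X := extHom h ⟨χ, hσ⟩
  have hXsq : ∀ v, X.map (X.map v) = (μ * μ) • v := fun v => by
    have e : X * X = ofScalar _ (Units.map em.toMonoidHom l) := by
      rw [show X * X = extHom h (⟨χ, hσ⟩ * ⟨χ, hσ⟩) from (map_mul _ _ _).symm, ← extHom_scalar (h := h)]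
      congr 1
      exact Subtype.ext hl
    rw [← semi_mul_map, e, ofScalar_map, ← hμ]
    rfl
  have hH : χ.H = l := by
    have h1 := congrArg Semi.H hl
    rw [semi_mul_H, hσ, RingAut.one_apply, ofScalar_H] at h1
    rcases mul_self_eq_mul_self_iff.1 h1 with e | e
    · exact e
    · exfalso
      refine hnot ((hdet ⟨χ, hσ⟩).2 ?_)
      exact pol_of_neg h2L (extHom_σ _) hμ0 hXsq (by rw [extHom_H, ← hμ, ← map_neg, e])
  rw [split_count D]
  set I := Cfsg.Inn (Cfsg.POmega F f)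
  set Y := I ⊔ (G ⊓ Subgroup.centralizer {act hf hG χ})
  let M : Subgroup (MulAut (Cfsg.POmega F f)) := (D.P ⊓ (mc Q).ker).map (act hf hG)
  obtain ⟨z, hzd, hzs, hzc⟩ := exists_spn_comm h2 hσ hl hH hn hS hS3 hQ
  have hMY : M ≤ Y := by
    rintro _ ⟨g, hg, rfl⟩
    obtain ⟨hgP, hgm⟩ := Subgroup.mem_inf.1 hg
    obtain ⟨d, j, rfl⟩ := exists_scalar_iso_of_square (D.le hgP) (sqSign_eq_one_iff.1 hgm)
    have hj := D.dick_of_mem hgP
    rw [act_scalar_iso]
    rcases Int.units_eq_one_or (spn hQ j) with hs | hs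
    · exact Subgroup.mem_sup_left (act_iso_mem_inn hj (fun _ => hs) hreg)
    · rw [show j = (j * z⁻¹) * z from (inv_mul_cancel_right _ _).symm, map_mul, map_mul]
      refine mul_mem (Subgroup.mem_sup_left (act_iso_mem_inn ?_ (fun _ => ?_) hreg))
        (Subgroup.mem_sup_right (Subgroup.mem_inf.2 ⟨D.eq ▸ ⟨_, (D.iso z).2 hzd, rfl⟩, ?_⟩))
      · rw [map_mul, map_inv, hj, hzd, inv_one, one_mul]
      · rw [map_mul, map_inv, hs, hzs, mul_inv_cancel]
      · rw [Subgroup.mem_centralizer_singleton_iff, ← map_mul, ← map_mul, hzc]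
  have hYG : Y ≤ G := sup_le (inn_le_group D) inf_le_left
  have hMG : M.relIndex G = 2 := by
    obtain ⟨ν, hν, hνns⟩ := exists_nonsquare (F := F) h2
    obtain ⟨g₁, hg₁, hH₁⟩ := D.mult ν hν
    have hm1 : mc Q g₁ = -1 := by rw [mc_apply, hH₁, sqSign, if_neg hνns]
    refine relIndex_two (a := act hf hG g₁) (D.eq ▸ ⟨g₁, hg₁, rfl⟩) ?_ fun b hb => ?_
    · rintro ⟨g, hg, he⟩
      obtain ⟨-, hgm⟩ := Subgroup.mem_inf.1 hg
      obtain ⟨d, hd⟩ := (act_eq_iff hf hG).1 he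
      rw [MonoidHom.mem_ker, hd, map_mul, mc_ofScalar, one_mul, hm1] at hgm
      exact absurd hgm (by decide)
    · rw [D.eq] at hb
      obtain ⟨g, hg, rfl⟩ := hb
      rcases Int.units_eq_one_or (mc Q g) with e | e
      · exact Or.inl ⟨g, Subgroup.mem_inf.2 ⟨hg, e⟩, rfl⟩
      · exact Or.inr ⟨g * g₁, Subgroup.mem_inf.2 ⟨mul_mem hg hg₁,
          MonoidHom.mem_ker.2 (by rw [map_mul, e, hm1]; rfl)⟩, map_mul _ _ _⟩
  have hmul : M.relIndex Y * Y.relIndex G = 2 := by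
    rw [Subgroup.relIndex_mul_relIndex M Y G hMY hYG, hMG]
  refine ⟨(Nat.dvd_prime Nat.prime_two).1 ⟨M.relIndex Y, by rw [mul_comm]; exact hmul.symm⟩,
    fun hcond => ?_⟩
  suffices e : Y ≤ M by rw [le_antisymm e hMY, hMG]
  refine sup_le ?_ fun x hx => ?_
  · intro x hx
    rw [show I = _ from inn_eq hf hG] at hx
    obtain ⟨j, hj, rfl⟩ := hx
    rw [SetLike.mem_coe, ← commutator_eq hG] at hj
    exact ⟨_, Subgroup.mem_inf.2 ⟨(D.iso j).2 ((mem_commutator_iff _ h2 j).1 hj).1, mc_ofIso j⟩, rfl⟩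
  obtain ⟨hxG, hxC⟩ := Subgroup.mem_inf.1 hx
  rw [D.eq] at hxG
  obtain ⟨g₁, hg₁, rfl⟩ := hxG
  refine ⟨g₁, Subgroup.mem_inf.2 ⟨hg₁, ?_⟩, rfl⟩
  rcases Int.units_eq_one_or (mc Q g₁) with e | hm1
  · exact e
  exfalso
  rw [Subgroup.mem_centralizer_singleton_iff, ← map_mul, ← map_mul] at hxC
  obtain ⟨d, hd⟩ := (act_eq_iff hf hG).1 hxC
  have hg₁σ : g₁.σ = 1 := D.le hg₁
  have hd1 : d = 1 ∨ d = -1 := by
    have h1 := congrArg Semi.H hd
    simp only [semi_mul_H, ofScalar_H, ofScalar_σ, RingAut.one_apply, hg₁σ, hσ] at h1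
    have h3 : (d : F) * d = 1 := by
      refine mul_right_cancel₀ (mul_ne_zero χ.H0 g₁.H0) ?_
      rw [one_mul]
      linear_combination -h1
    rcases mul_self_eq_one_iff.1 h3 with e | e
    · exact Or.inl (Units.ext e)
    · exact Or.inr (Units.ext (by rw [e]; simp))
  -- an improper isometry conjugated by `g₁`
  obtain ⟨s, hs, c, k, hk⟩ : ∃ (s : Semi Q) (_ : (s = 1 ∨ s = g₁)) (c : Fˣ) (k : isoG Q),
      χ = ofScalar Q c * s * ofIso Q k := by
    obtain ⟨s, hs, hsq⟩ : ∃ s : Semi Q, (s = 1 ∨ s = g₁) ∧ IsSquare (χ.H / s.H) := by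
      by_cases hsq : IsSquare χ.H
      · exact ⟨1, Or.inl rfl, by rwa [semi_one_H, div_one]⟩
      · refine ⟨g₁, Or.inr rfl, ?_⟩
        rw [← sqSign_eq_one_iff]
        have h1 := sqSign_mul (div_ne_zero χ.H0 g₁.H0) g₁.H0
        rw [div_mul_cancel₀ _ g₁.H0, ← mc_apply g₁, hm1, sqSign, if_neg hsq] at h1
        rcases Int.units_eq_one_or (sqSign (χ.H / g₁.H)) with e | e
        · exact e
        · rw [e] at h1; exact absurd h1 (by decide)
    have hsσ : s.σ = 1 := by rcases hs with rfl | rfl; exacts [rfl, hg₁σ]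
    obtain ⟨c, hc⟩ := hsq
    have hc0 : c ≠ 0 := fun h0 => div_ne_zero χ.H0 s.H0 (by rw [hc, h0, mul_zero])
    obtain ⟨k, hk⟩ := exists_iso_part (g := χ) (s := ofScalar Q (Units.mk0 c hc0) * s) hσ
      (by rw [semi_mul_σ, ofScalar_σ, hsσ, one_mul])
      (by rw [semi_mul_H, ofScalar_σ, ofScalar_H, RingAut.one_apply, Units.val_mk0, ← hc,
            div_mul_cancel₀ _ s.H0])
    exact ⟨s, hs, _, k, hk⟩
  have hsP : s ∈ D.P := by rcases hs with rfl | rfl; exacts [one_mem _, hg₁]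
  have hsc : g₁ * s = s * g₁ := by rcases hs with rfl | rfl <;> simp
  have hkd : dick hQ k = -1 := (Int.units_eq_one_or _).resolve_left fun e =>
    hnot (hk ▸ mul_mem (mul_mem (D.scalar c) hsP) ((D.iso k).2 e))
  have key : ofIso Q (g₁.conjI k) = ofScalar Q d * ofIso Q k := by
    have h1 : g₁ * χ = ofScalar Q d * (χ * g₁) := hd
    rw [hk, ← mul_assoc g₁, ← mul_assoc g₁, ofScalar_comm _ hg₁σ, mul_assoc (ofScalar Q c) g₁, hsc,
      mul_assoc (ofScalar Q c), mul_assoc s g₁, mul_ofIso,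
      mul_assoc (ofScalar Q c * s), mul_assoc (ofScalar Q c), ← mul_assoc (ofScalar Q d),
      ← map_mul, mul_comm d c, map_mul, mul_assoc (ofScalar Q c)] at h1
    have h2' := mul_left_cancel h1
    have hsσ : s.σ = 1 := D.le hsP
    rw [← mul_assoc (ofScalar Q d), ← ofScalar_comm s hsσ, mul_assoc] at h2'
    have h3 := mul_left_cancel h2'
    rw [← mul_assoc] at h3
    exact mul_right_cancel h3
  have hsp : spn hQ (g₁.conjI k) = -spn hQ k := by
    rw [spn_conjI hQ h2, hkd, if_neg (by decide), hm1, mul_neg_one]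
  rcases hd1 with rfl | rfl
  · rw [map_one, one_mul] at key
    rw [ofIso_injective key] at hsp
    exact units_ne_neg_self _ hsp
  · rw [ofScalar_negOne, ← map_mul] at key
    rw [ofIso_injective key, map_mul] at hsp
    rcases hcond with hneg | hN
    · rw [hneg, one_mul] at hsp
      exact units_ne_neg_self _ hsp
    · refine hnot ((hdet ⟨χ, hσ⟩).2 ?_)
      refine pol_of_swap h2L hN (ψ := extHom h ⟨g₁, hg₁σ⟩) (extHom_σ _) hμ0
        (by rw [extHom_σ]; rfl) hXsq (by rw [extHom_H, ← hμ, hH]) fun v => ?_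
      have e : extHom h (⟨g₁, hg₁σ⟩ : (sigmaHom Q).ker) * X =
          ofScalar _ (Units.map em.toMonoidHom (-1)) * (X * extHom h ⟨g₁, hg₁σ⟩) := by
        rw [← extHom_scalar (h := h), ← map_mul, ← map_mul, ← map_mul]
        congr 1
        exact Subtype.ext hd
      rw [← semi_mul_map, e, semi_mul_map, semi_mul_map, ofScalar_map]
      simp [X]

end split

end Cfsg.Agent.Lib.AutOmega
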