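import Cfsg.Agent.Lib.AutOmega.GraphSplit

/-!
Splitting of graph automorphisms: the two even-dimensional families.
-/

set_option autoImplicit false

namespace Cfsg.Agent.Lib.AutOmega

open QuadraticMap hiding proj
open Cfsg.Agent.Lib.Classical.Quad Cfsg.Agent.Lib.Classical.QuadOmega Cfsg.Agent.Lib.Classical.QuadF2
open Cfsg.Agent.Lib.AutOmegaOdd (Semi)

universe u

variable {F : Type u} [Field F] [Fintype F]

theorem exists_quadratic :
    ∃ (L : Type u) (_ : Field L) (_ : Fintype L) (em : F →+* L),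
      Fintype.card L = Fintype.card F ^ 2 := by
  obtain ⟨ζ, hζ⟩ := Classical.UnitaryFlat.exists_aniso F
  obtain ⟨L, iL, iA, hL⟩ := exists_ext hζ
  have : Module.Finite F L := Module.finite_of_finrank_eq_succ hL
  have : Finite L := Module.finite_of_finite F
  letI : Fintype L := Fintype.ofFinite L
  exact ⟨L, iL, inferInstance, algebraMap F L, by
    rw [Module.card_eq_pow_finrank (K := F) (V := L), hL]⟩

theorem card_mod_four (hodd : Odd (Fintype.card F)) :
    Fintype.card F % 4 = 1 ∨ Fintype.card F % 4 = 3 := by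
  have := Nat.odd_iff.1 hodd
  omega

theorem graph_split_plus (hodd : Odd (Fintype.card F)) {m : ℕ} (hm : 4 ≤ m)
    (γ : MulAut (Cfsg.POmega F (Cfsg.quadFormPlus m F)))
    (hγ : Cfsg.IsSimilarityGraphAutPOmegaPlus m γ) (hγ2 : orderOf γ = 2) :
    (Cfsg.splitClassCount (Cfsg.inndiagPOmegaPlus m F)
        (Cfsg.Inn (Cfsg.POmega F (Cfsg.quadFormPlus m F))) γ = 1 ∨
      Cfsg.splitClassCount (Cfsg.inndiagPOmegaPlus m F)
        (Cfsg.Inn (Cfsg.POmega F (Cfsg.quadFormPlus m F))) γ = 2) ∧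
    (¬ (Odd m ∧ Fintype.card F % 4 = 3) → Cfsg.splitClassCount (Cfsg.inndiagPOmegaPlus m F)
        (Cfsg.Inn (Cfsg.POmega F (Cfsg.quadFormPlus m F))) γ = 2) := by
  have h2 := two_ne_zero_of_odd hodd
  have hm3 : 3 ≤ m := le_trans (by norm_num) hm
  haveI : Nonempty (Fin m ⊕ Fin m) := ⟨.inl ⟨0, by omega⟩⟩
  obtain ⟨g, ⟨c, hc⟩, hns, hi⟩ := hγ
  have hc' : ∀ v : Fin m ⊕ Fin m → F, plusQ m F ((g : Matrix _ _ F).mulVec
      (fun i => (1 : F ≃+* F) (v i))) = (c : F) * (1 : F ≃+* F) (plusQ m F v) := fun v => by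
    rw [plusQ_apply, plusQ_apply]
    exact hc v
  set χ := ofPair hc'
  have hσ : χ.σ = 1 := rfl
  obtain rfl : γ = act (fun v => plusQ_apply m v) (good_plusQ hm3) χ :=
    act_of_induced _ _ (σ := RingEquiv.refl F) rfl (fun v => (ofPair_map hc' v).symm) hi
  have hnot : χ ∉ Pp m F := fun h =>
    hns ((psc_iff_pol χ hσ _ fun v => (ofPair_map hc' v).symm).2 h.2)
  obtain ⟨l, hl⟩ := (act_eq_one_iff _ _).1
    (show act (fun v => plusQ_apply m v) (good_plusQ hm3) (χ * χ) = 1 by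
      rw [map_mul, ← pow_two]; exact orderOf_dvd_iff_pow_eq_one.1 hγ2.dvd)
  obtain ⟨L, iL, iF, em, hcard⟩ := exists_quadratic (F := F)
  have hdet : ∀ g : (sigmaHom (plusQ m F)).ker, g.1 ∈ (properPlus (F := F) hm3).P ↔
      pol m L (extHom (compat_plus em m) g) = 1 := fun g => by
    constructor
    · intro h
      exact (hext_plus (F := L) (em := em) hm3 ⟨g.1, h⟩).2
    · intro h
      obtain ⟨v, hv⟩ := exists_nonsing_vec (nd_plusQ (F := F) m)
      rcases (properPlus (F := F) hm3).mem_or _ _ g.2 hv with h1 | h1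
      · exact h1
      · exfalso
        have h3 : pol m L (extHom (compat_plus em m) (g * isoKer _ (refl (plusQ m F) v))) = 1 :=
          (hext_plus (F := L) (em := em) hm3 ⟨_, h1⟩).2
        obtain ⟨er, hv'⟩ := extI_refl (h := compat_plus em m) hv
        rw [map_mul, map_mul, h, one_mul, ← ofIso_extI, er, pol_ofIso (reg_plusQ hm3),
          dick_refl _ hv'] at h3
        exact absurd h3 (by decide)
  have h2L : (2 : L) ≠ 0 := fun h0 => h2 (em.injective (by rw [map_ofNat, h0, map_zero]))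
  obtain ⟨h12, h⟩ := graph_split (properPlus (F := F) hm3) h2 (compat_plus em m) hdet
    (fun d => isSquare_em_two hcard h2L d) hσ hnot hl (by rw [finrank_plus]; omega)
    (S := xPlane m F) (fun v hv => (maxTS_xPlane m).sing v hv)
    (by rw [((maxTS_iff m _).1 (maxTS_xPlane m)).1]; omega)
  refine ⟨h12, fun hc => h (Or.inl ?_)⟩
  obtain ⟨D, hD, -⟩ := exists_dat_plus (F := F) hm3 h2
  refine hD.trans ((Int.units_eq_one_or _).resolve_right fun e => hc ?_)
  exact (sqSign_negOne_pow hodd m).1 e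

theorem graph_split_minus (hodd : Odd (Fintype.card F)) {m : ℕ} (hm : 3 ≤ m) (a b : F)
    (hab : Aniso a b) (γ : MulAut (Cfsg.POmega F (Cfsg.quadFormMinus m F a b)))
    (hγ : Cfsg.IsGraphAutClassPOmegaMinus m a b γ) (hγ2 : orderOf γ = 2) :
    (Cfsg.splitClassCount (Cfsg.inndiagPOmegaMinus m F a b)
        (Cfsg.Inn (Cfsg.POmega F (Cfsg.quadFormMinus m F a b))) γ = 1 ∨
      Cfsg.splitClassCount (Cfsg.inndiagPOmegaMinus m F a b)
        (Cfsg.Inn (Cfsg.POmega F (Cfsg.quadFormMinus m F a b))) γ = 2) ∧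
    (¬ (Even m ∧ Fintype.card F % 4 = 1) → Cfsg.splitClassCount (Cfsg.inndiagPOmegaMinus m F a b)
        (Cfsg.Inn (Cfsg.POmega F (Cfsg.quadFormMinus m F a b))) γ = 2) := by
  classical
  have h2 := two_ne_zero_of_odd hodd
  haveI : Nonempty ((Fin m ⊕ Fin m) ⊕ Fin 2) := ⟨.inr 0⟩
  obtain ⟨-, hni, -⟩ := hγ
  obtain ⟨χ, rfl⟩ := act_surjective (fun v => minusQ_apply m a b v) (good_minusQ hab hm)
    (hyp_minus hab hm) γ
  have hσ : χ.σ = 1 := by
    by_contra hσne
    obtain ⟨hro, l, hl⟩ := semi_of_prime _ _ hσne Nat.prime_two hγ2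
    letI : Fintype (AutOmegaOdd.fixF χ.σ) := Fintype.ofFinite _
    have h := (minus_conj hab hm (fixF_range χ.σ) Nat.prime_two hro rfl hl).1
    exact absurd h (by decide)
  have hnot : χ ∉ (properMinus hab hm).P := fun h =>
    hni ((properMinus hab hm).eq ▸ ⟨χ, h, rfl⟩)
  obtain ⟨l, hl⟩ := (act_eq_one_iff _ _).1
    (show act (fun v => minusQ_apply m a b v) (good_minusQ hab hm) (χ * χ) = 1 by
      rw [map_mul, ← pow_two]; exact orderOf_dvd_iff_pow_eq_one.1 hγ2.dvd)
  obtain ⟨L, iL, iF, em, hcard⟩ := exists_quadratic (F := F)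
  obtain ⟨t₁, t₂, ht, hs, hp⟩ := exists_roots_ext em hcard hab
  have hdet : ∀ g : (sigmaHom (minusQ m a b)).ker, g.1 ∈ (properMinus hab hm).P ↔
      pol (m + 1) L (extHom (compat_split em ht hs hp) g) = 1 := fun g => by
    rw [pol_ext_eq hab (by omega) ht hs hp]
    exact ⟨fun h => h.2, fun h => ⟨g.2, h⟩⟩
  have h2L : (2 : L) ≠ 0 := fun h0 => h2 (em.injective (by rw [map_ofNat, h0, map_zero]))
  obtain ⟨h12, h⟩ := graph_split (properMinus hab hm) h2 (compat_split em ht hs hp) hdet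
    (fun d => isSquare_em_two hcard h2L d) hσ hnot hl
    (by rw [Module.finrank_fintype_fun_eq_card]; simp; omega)
    (S := minusY m F) (fun v hv => tsing_minusY m a b v hv) (by rw [finrank_minusY]; omega)
  refine ⟨h12, fun hc => h ?_⟩
  rcases Nat.even_or_odd m with he | ho
  · refine Or.inl ?_
    obtain ⟨D, hD, -⟩ := exists_dat_minus hab hm h2
    have e := (sqSign_negOne_pow hodd (m + 1)).2
      ⟨he.add_one, (card_mod_four hodd).resolve_left fun h1 => hc ⟨he, h1⟩⟩
    rw [e, neg_neg] at hD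
    exact hD
  · exact Or.inr ho.add_one

end Cfsg.Agent.Lib.AutOmega
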