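import Cfsg.Agent.Lib.AutOmega.QuadBalance
import Cfsg.Agent.Lib.AutOmega.GraphSplitThms

/-!
Local balance at involutory graph automorphisms of even orthogonal groups.
-/

set_option autoImplicit false

namespace Cfsg.Agent.Lib.AutOmega

open QuadraticMap hiding proj
open Cfsg.Agent.Lib.Classical.Quad Cfsg.Agent.Lib.Classical.QuadOmega
open Cfsg.Agent.Lib.AutOmegaOdd (Semi)

universe u w

section plusEigen

variable {L : Type w} [Field L] [Fintype L] {N : ℕ}

theorem pol_of_frob (h2 : (2 : L) ≠ 0) (hN : Even N) {χ ψ : Semi (plusQ N L)} (hσ : χ.σ = 1)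
    {μ : L} (hμ : μ ≠ 0) (hψμ : ψ.σ μ = -μ) (hsq : ∀ v, χ.map (χ.map v) = (μ * μ) • v)
    (hH : χ.H = μ * μ) (hcomm : ∀ v, ψ.map (χ.map v) = χ.map (ψ.map v)) : pol N L χ = 1 := by
  obtain ⟨k, hk⟩ := eq_scalar_iso hσ (c := Units.mk0 μ hμ) hH
  have hmap : ∀ v, χ.map v = μ • k.1 v := fun v => by rw [hk]; rfl
  have e : fixS k = eig χ hσ μ := by
    ext v
    rw [mem_fixS, mem_eig, hmap]
    exact ⟨fun h => by rw [h], fun h => smul_right_injective _ hμ h⟩
  have h1 : imgσ ψ (eig χ hσ μ) ≤ eig χ hσ (-μ) := fun v hv => by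
    obtain ⟨x, hx, rfl⟩ := hv
    have h := hcomm x
    rw [mem_eig.1 hx, ψ.map_smul, hψμ] at h
    exact mem_eig.2 h.symm
  have h2' : imgσ ψ (eig χ hσ (-μ)) ≤ eig χ hσ μ := fun v hv => by
    obtain ⟨x, hx, rfl⟩ := hv
    have h := hcomm x
    rw [mem_eig.1 hx, ψ.map_smul, map_neg, hψμ, neg_neg] at h
    exact mem_eig.2 h.symm
  have d1 := Submodule.finrank_mono h1
  have d2 := Submodule.finrank_mono h2'
  rw [finrank_imgσ] at d1 d2
  have hd := eig_sum h2 hσ hμ hsq
  rw [finrank_plus] at hd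
  rw [hk, map_mul, pol_scalar, one_mul, pol_ofIso (reg_of_two_ne_zero h2), dick_eq, finrank_plus, e,
    show Module.finrank L (eig χ hσ μ) = N by omega]
  exact (((even_two_mul N).add hN)).neg_one_pow

end plusEigen

variable {F : Type u} [Field F] [Fintype F] {ι : Type} [Fintype ι] [DecidableEq ι]
  {f : (ι → F) → F} {Q : QuadraticForm F (ι → F)} {hf : ∀ v, Q v = f v} {hG : Good Q}
  {G : Subgroup (MulAut (Cfsg.POmega F f))} {L : Type w} [Field L] [Fintype L] {em : F →+* L}
  {N : ℕ} {J : (ι → L) ≃ₗ[L] (Fin N ⊕ Fin N → L)}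

/-- The odd core of the centraliser of an involutory improper similitude is trivial. -/
theorem improper_core [Nonempty ι] (D : Proper hf hG G)
    (hsurj : Function.Surjective (act hf hG)) (h2 : (2 : F) ≠ 0)
    (h : Compat em J Q (plusQ N L))
    (hdet : ∀ g : (sigmaHom Q).ker, g.1 ∈ D.P ↔ pol N L (extHom h g) = 1)
    (hall : ∀ d : F, IsSquare (em d)) {χ : Semi Q} (hσ : χ.σ = 1) (hnot : χ ∉ D.P) {l : Fˣ}
    (hl : χ * χ = ofScalar Q l) (hN : 4 ≤ N) (A : Subgroup (MulAut (Cfsg.POmega F f)))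
    (hinn : ∀ z, MulAut.conj z ∈ A) :
    Cfsg.pPrimeCore 2 ↥(A ⊓ Subgroup.centralizer {act hf hG χ}) = ⊥ := by
  classical
  have hQ : Nd Q := hG.nd
  have h2L : (2 : L) ≠ 0 := fun h0 => h2 (em.injective (by rw [map_ofNat, h0, map_zero]))
  have hdim : Module.finrank F (ι → F) = 2 * N := by
    rw [Module.finrank_fintype_fun_eq_card]
    have := J.finrank_eq
    rw [Module.finrank_fintype_fun_eq_card, finrank_plus] at this
    exact this
  obtain ⟨μ, hμ⟩ := hall l
  have hμ0 : μ ≠ 0 := fun h0 => l.ne_zero ((map_eq_zero em).1 (by rw [hμ, h0, mul_zero]))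
  set X := extHom h ⟨χ, hσ⟩
  have hXsq : ∀ v, X.map (X.map v) = (μ * μ) • v := fun v => by
    have e : X * X = ofScalar _ (Units.map em.toMonoidHom l) := by
      rw [show X * X = extHom h (⟨χ, hσ⟩ * ⟨χ, hσ⟩) from (map_mul _ _ _).symm,
        ← extHom_scalar (h := h)]
      congr 1
      exact Subtype.ext hl
    rw [← semi_mul_map, e, ofScalar_map, ← hμ]
    rfl
  have hH : χ.H = l := by
    have h1 := congrArg Semi.H hl
    rw [semi_mul_H, hσ, RingAut.one_apply, ofScalar_H] at h1
    rcases mul_self_eq_mul_self_iff.1 h1 with e | e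
    · exact e
    · exfalso
      refine hnot ((hdet ⟨χ, hσ⟩).2 ?_)
      exact pol_of_neg h2L (extHom_σ _) hμ0 hXsq (by rw [extHom_H, ← hμ, ← map_neg, e])
  by_cases hs : IsSquare (l : F)
  · obtain ⟨s, hs⟩ := hs
    have hs0 : s ≠ 0 := fun h0 => l.ne_zero (by rw [hs, h0, mul_zero])
    obtain ⟨k, hk⟩ := eq_scalar_iso hσ (c := Units.mk0 s hs0) (hH.trans hs)
    have hact : act hf hG χ = act hf hG (ofIso Q k) := by rw [hk, map_mul, act_ofScalar, one_mul]
    have hkk : k * k = 1 := iso_ext fun v => by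
      have h1 := congrArg (fun z : Semi Q => z.map v) hl
      simp only [hk, semi_mul_map, ofScalar_map, ofIso_map, map_smul, smul_smul, Units.val_mk0,
        ← hs] at h1
      exact smul_right_injective _ l.ne_zero h1
    have hd : dick hQ k = -1 := (Int.units_eq_one_or _).resolve_left fun e =>
      hnot (hk ▸ mul_mem (D.scalar _) ((D.iso k).2 e))
    rw [hact]
    exact core_invol hsurj h2 hkk hd (by rw [hdim]; exact even_two_mul N) (by omega) A hinn
  · have hNodd : Odd N := by
      rcases Nat.even_or_odd N with he | ho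
      · exfalso
        letI : Algebra F L := em.toAlgebra
        haveI : Module.Finite F L := Module.Finite.of_finite
        obtain ⟨τ, hτ⟩ : ∃ τ : L ≃ₐ[F] L, τ μ ≠ μ := by
          by_contra! hall'
          obtain ⟨d, hd⟩ := (IsGalois.mem_range_algebraMap_iff_fixed μ).2 hall'
          exact hs ⟨d, em.injective (by
            rw [map_mul, show em d = μ from hd]
            exact hμ)⟩
        have hem : ∀ d, τ (em d) = em d := τ.commutes
        have hem' : ∀ d, τ.toRingEquiv (em d) = em ((1 : Semi Q).σ d) := fun d => hem d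
        have hτμ : τ μ = -μ := by
          have h1 : τ μ * τ μ = μ * μ := by rw [← map_mul, ← hμ, hem]
          exact (mul_self_eq_mul_self_iff.1 h1).resolve_left hτ
        refine hnot ((hdet ⟨χ, hσ⟩).2 (pol_of_frob h2L he (ψ := extSemi h 1 τ.toRingEquiv hem')
          (extHom_σ _) hμ0 (by rw [extSemi_σ]; exact hτμ) hXsq
          (by rw [extHom_H, hH, hμ]) fun v => ?_))
        refine semilin_ext em J (fun c => τ c)
          (fun z => (extSemi h 1 τ.toRingEquiv hem').map ((extHom h ⟨χ, hσ⟩).map z))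
          (fun z => (extHom h ⟨χ, hσ⟩).map ((extSemi h 1 τ.toRingEquiv hem').map z))
          (fun a b => by simp) (fun a b => by simp) (fun c z => ?_) (fun c z => ?_) (fun z => ?_) v
        · rw [(extHom h ⟨χ, hσ⟩).map_smul, (extSemi h 1 τ.toRingEquiv hem').map_smul, extHom_σ]
          rfl
        · rw [(extSemi h 1 τ.toRingEquiv hem').map_smul, (extHom h ⟨χ, hσ⟩).map_smul, extHom_σ]
          rfl
        · rw [extHom_kp, extSemi_kp, extSemi_kp, extHom_kp, semi_one_map, semi_one_map]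
      · exact ho
    obtain ⟨o, rfl⟩ := hNodd
    exact core_quad hsurj h2 hσ hl hH hs (by rw [hdim]; omega) A hinn

end Cfsg.Agent.Lib.AutOmega
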