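import Cfsg.Agent.Lib.AutOmega.Centralising
import Cfsg.Agent.Lib.Balance.Core

/-!
Local balance at field and graph-field automorphisms of even orthogonal groups.
-/

set_option autoImplicit false

namespace Cfsg.Agent.Lib.AutOmega

open QuadraticMap hiding proj
open Cfsg.Agent.Lib.Classical.Quad Cfsg.Agent.Lib.Classical.QuadOmega
open Cfsg.Agent.Lib.AutOmegaOdd (G G_ext Semi)

universe u w

/-- An automorphism fixing the fixed field is a power. -/
theorem exists_pow_of_fix {F : Type u} [Field F] [Fintype F] (σ τ : F ≃+* F)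
    (h : ∀ x, σ x = x → τ x = x) : ∃ j : ℕ, τ = σ ^ j := by
  classical
  haveI : Finite (F ≃+* F) :=
    Finite.of_injective (fun e : F ≃+* F => (e : F → F)) DFunLike.coe_injective
  let H : Subgroup (F ≃+* F) := Subgroup.zpowers σ
  letI : Fintype H := Fintype.ofFinite H
  let L := FixedPoints.subfield H F
  let τ' : F →ₐ[L] F :=
    { τ.toRingHom with
      commutes' := fun a => h (a : F) (a.2 ⟨σ, Subgroup.mem_zpowers σ⟩) }
  obtain ⟨s, hs⟩ := (FixedPoints.toAlgHom_bijective H F).2 τ'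
  have e : (s : F ≃+* F) = τ := RingEquiv.ext fun a => AlgHom.congr_fun hs a
  have hmem : τ ∈ Subgroup.zpowers σ := e ▸ s.2
  rw [← mem_powers_iff_mem_zpowers] at hmem
  obtain ⟨j, hj⟩ := hmem
  exact ⟨j, hj.symm⟩

section center

variable {F : Type u} [Field F] [Fintype F] {ι : Type} [Fintype ι] [DecidableEq ι]
  {f : (ι → F) → F} {Q : QuadraticForm F (ι → F)} (hf : ∀ v, Q v = f v) (hG : Good Q)

include hf hG in
theorem center_pomega : Subgroup.center (Cfsg.POmega F f) = ⊥ := by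
  rw [Subgroup.eq_bot_iff_forall]
  intro z hz
  obtain ⟨s, rfl⟩ := (toPG hf hG).symm.surjective z
  obtain ⟨g, rfl⟩ := pr_surjective s
  have h1 : MulAut.conj ((toPG hf hG).symm (pr Q g)) = 1 := MulEquiv.ext fun y => by
    rw [MulAut.conj_apply, MulAut.one_apply, ← Subgroup.mem_center_iff.1 hz y, mul_inv_cancel_right]
  rw [conj_toPG_symm, act_eq_one_iff] at h1
  obtain ⟨c, hc⟩ := h1
  rw [pr_eq_one.2 (central_of_scalar hc), map_one]

end center

section std

variable {F : Type u} [Field F] [Fintype F] {K : Type w} [Field K] [Fintype K] {em : K →+* F}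
  {σ : F ≃+* F} {ι κ : Type} [Fintype ι] [DecidableEq ι] [Fintype κ] [DecidableEq κ]
  {f : (ι → F) → F} {Q : QuadraticForm F (ι → F)} {f₀ : (κ → K) → K}
  {R : QuadraticForm K (κ → K)} {hf : ∀ v, Q v = f v} {hG : Good Q} {hf₀ : ∀ v, R v = f₀ v}
  {hG₀ : Good R} {G : Subgroup (MulAut (Cfsg.POmega F f))}
  {G₀ : Subgroup (MulAut (Cfsg.POmega K f₀))} {J : (κ → F) ≃ₗ[F] (ι → F)}

theorem extI_injective (h : Compat em J R Q) : Function.Injective (extI h) := fun a b e =>
  iso_ext fun v => kp_injective em J (by rw [← extI_kp (h := h), e, extI_kp])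

theorem stdS_pow_kp (h : Compat em J R Q) (hι : ∀ x : F, σ x = x ↔ x ∈ Set.range em) (j : ℕ)
    (v : κ → K) : (stdS h hι ^ j).map (kp em J v) = kp em J v ∧ (stdS h hι ^ j).H = 1 := by
  induction j with
  | zero => simp
  | succ n ih =>
    rw [pow_succ', semi_mul_map, ih.1, stdS_kp]
    refine ⟨rfl, ?_⟩
    rw [semi_mul_H, ih.2, map_one, mul_one]
    simp [stdS]

/-- A semisimilitude commuting with a standard one restricts to the rational form. -/
theorem exists_restrict [Nonempty ι] (h : Compat em J R Q)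
    (hι : ∀ x : F, σ x = x ↔ x ∈ Set.range em) {r : ℕ} (hr : orderOf σ = r) (hr0 : 0 < r)
    {x : MulAut (Cfsg.POmega F f)} (hx : x ∈ Set.range (act hf hG))
    (hc : x * act hf hG (stdS h hι) = act hf hG (stdS h hι) * x) :
    ∃ (g : Semi Q) (g₀ : Semi R), act hf hG g = x ∧ (∀ a, g.σ (em a) = em (g₀.σ a)) ∧
      g.H = em g₀.H ∧ ∀ v, g.map (kp em J v) = kp em J (g₀.map v) := by
  classical
  set S := stdS h hι
  obtain ⟨g, rfl⟩ := hx
  rw [← map_mul, ← map_mul] at hc
  obtain ⟨c, hc⟩ := (act_eq_iff hf hG).1 hc.symm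
  have hit : ∀ i, S ^ i * g = ofScalar Q (AutPSL.tw (AutPSL.mapU σ) c i) * (g * S ^ i) := by
    intro i
    induction i with
    | zero => simp
    | succ i ih =>
      rw [pow_succ', mul_assoc, ih, ← mul_assoc, mul_ofScalar, mul_assoc, ← mul_assoc S g, hc,
        mul_assoc (ofScalar Q c), ← mul_assoc (ofScalar Q (Units.map _ _)), ← map_mul,
        mul_assoc g, ← pow_succ', AutPSL.tw_succ, mul_comm c]
      rfl
  have hr1 := hit r
  rw [stdS_pow hr, one_mul, mul_one, right_eq_mul] at hr1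
  have hn : c ∈ (AutPSL.normU σ r).ker := by
    refine Units.ext ?_
    obtain ⟨v, hv⟩ := exists_nonsing_vec (show Nd Q from hG.nd)
    have h1 := congrArg (fun x : Semi Q => x.map v) hr1
    simp only [ofScalar_map, semi_one_map] at h1
    have hv0 : v ≠ 0 := fun h0 => hv (by rw [h0, map_zero])
    exact smul_left_injective F hv0 (h1.trans (one_smul F v).symm)
  rw [AutPSL.ker_normU hr hr0] at hn
  obtain ⟨d, hd⟩ := hn
  have hd' : AutPSL.mapU σ d * c = d := by
    rw [← hd, AutPSL.ratioU_apply, mul_div_cancel]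
  set g' := ofScalar Q d * g with hg'
  have hcomm : S * g' = g' * S := by
    rw [hg', ← mul_assoc, mul_ofScalar, mul_assoc, hc, ← mul_assoc, ← map_mul, mul_assoc]
    congr 2
  have hfix : ∀ v, S.map (g'.map (kp em J v)) = g'.map (kp em J v) := fun v => by
    rw [← semi_mul_map, hcomm, semi_mul_map, stdS_kp]
  choose m₀ hm₀ using fun v => exists_kp_of_fixed hι (hfix v)
  have hτσ : ∀ y, σ (g'.σ y) = g'.σ (σ y) := fun y => by
    have h1 := congrArg (fun z : Semi Q => z.σ y) hcomm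
    simpa [S, stdS] using h1
  have hH : σ g'.H = g'.H := by
    have h1 := congrArg Semi.H hcomm
    simpa [S, stdS] using h1
  obtain ⟨H₀, hH₀⟩ := (hι _).1 hH
  have hH0 : H₀ ≠ 0 := fun h0 => g'.H0 (by rw [← hH₀, h0, map_zero])
  have hτK : ∀ a : K, ∃ b : K, em b = g'.σ (em a) := fun a => (hι _).1 (by
    rw [hτσ, (hι _).2 ⟨a, rfl⟩])
  choose τf hτf using hτK
  let τh : K →+* K :=
    { toFun := τf
      map_one' := em.injective (by rw [hτf, map_one, map_one])
      map_mul' := fun a b => em.injective (by rw [hτf, map_mul, map_mul, map_mul, hτf, hτf])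
      map_zero' := em.injective (by rw [hτf, map_zero, map_zero])
      map_add' := fun a b => em.injective (by rw [hτf, map_add, map_add, map_add, hτf, hτf]) }
  let τ₀ : K ≃+* K := RingEquiv.ofBijective τh (Finite.injective_iff_bijective.1 τh.injective)
  have hτ₀ : ∀ a, g'.σ (em a) = em (τ₀ a) := fun a => (hτf a).symm
  let L : (κ → K) →+ (κ → K) := AddMonoidHom.mk' m₀ fun a b => kp_injective em J (by
    rw [hm₀, kp_add, map_add, kp_add, hm₀, hm₀])
  have hL : Function.Injective L := fun a b hab => kp_injective em J (g'.map.injective (by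
    rw [← hm₀, ← hm₀]; exact congrArg (kp em J) hab))
  let g₀ : Semi R :=
    { σ := τ₀, H := H₀, H0 := hH0
      map := AddEquiv.ofBijective L (Finite.injective_iff_bijective.1 hL)
      map_smul := fun t v => kp_injective em J (by
        show kp em J (m₀ (t • v)) = kp em J (τ₀ t • m₀ v)
        rw [hm₀, kp_smul, g'.map_smul, hτ₀, kp_smul, hm₀])
      map_Q := fun v => em.injective (by
        show em (R (m₀ v)) = em (H₀ * τ₀ (R v))
        rw [← h, hm₀, g'.map_Q, map_mul, hH₀, ← hτ₀, ← h]) }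
  exact ⟨g', g₀, by rw [hg', map_mul, act_ofScalar, one_mul], hτ₀, hH₀.symm,
    fun v => (hm₀ v).symm⟩

theorem conjI_extI (h : Compat em J R Q) {g : Semi Q} {g₀ : Semi R}
    (hmap : ∀ v, g.map (kp em J v) = kp em J (g₀.map v)) (k : isoG R) :
    g.conjI (extI h k) = extI h (g₀.conjI k) := by
  refine iso_ext fun z => semilin_ext em J id (fun x => (g.conjI (extI h k)).1 x)
    (fun x => (extI h (g₀.conjI k)).1 x) (map_add _) (map_add _) (map_smul _) (map_smul _)
    (fun v => ?_) z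
  obtain ⟨v, rfl⟩ := g₀.map.surjective v
  show (g.conjI (extI h k)).1 (kp em J (g₀.map v)) = (extI h (g₀.conjI k)).1 (kp em J (g₀.map v))
  rw [extI_kp, AutOmegaOdd.Semi.conjI_apply, ← hmap, AutOmegaOdd.Semi.conjI_apply, extI_kp, hmap]

/-- The socle of the fixed points. -/
noncomputable def socHom (hf : ∀ v, Q v = f v) (hG : Good Q) (h : Compat em J R Q) :
    AutOmegaOdd.G R →* MulAut (Cfsg.POmega F f) :=
  ((act hf hG).comp (ofIso Q)).comp ((extI h).comp (siegelGroup R).subtype)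

theorem socHom_apply (h : Compat em J R Q) (z : AutOmegaOdd.G R) :
    socHom hf hG h z = act hf hG (ofIso Q (extI h z.1)) := rfl

include hG₀ in
theorem socHom_ker [Nonempty ι] [Nonempty κ] (h : Compat em J R Q) (z : AutOmegaOdd.G R) :
    socHom hf hG h z = 1 ↔ z ∈ Subgroup.center (AutOmegaOdd.G R) := by
  rw [socHom_apply, act_eq_one_iff, ofIso_extI]
  constructor
  · rintro ⟨c, hc⟩
    obtain ⟨c₀, hc₀⟩ := extHom_eq_scalar hG₀.nd h hc
    exact central_of_scalar hc₀
  · intro hz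
    obtain ⟨c₀, hc₀⟩ := scalar_of_central hG₀ hz
    refine ⟨Units.map em.toMonoidHom c₀, ?_⟩
    rw [← extHom_scalar (h := h)]
    congr 1
    exact Subtype.ext hc₀

theorem extI_siegel (hG : Good Q) (hG₀ : Good R) (h : Compat em J R Q) {k : isoG R}
    (hk : k ∈ siegelGroup R) : extI h k ∈ siegelGroup Q := by
  rw [← commutator_eq hG₀] at hk
  rw [← commutator_eq hG]
  exact Classical.QuadOmega.map_commutator_le (extI h) ⟨k, hk, rfl⟩

/-- Local balance at a standard semisimilitude. -/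
theorem balance_std [Nonempty ι] [Nonempty κ] (D : Proper hf hG G) (D₀ : Proper hf₀ hG₀ G₀)
    (h : Compat em J R Q) (hext : ∀ g : D₀.P, extP D₀ h g ∈ D.P)
    (hι : ∀ x : F, σ x = x ↔ x ∈ Set.range em) (hreg : Reg K (κ → K))
    (hsurj : Function.Surjective (act hf hG)) {r : ℕ} [Fact r.Prime] (hr : orderOf σ = r)
    (h2 : r = 2 → (2 : K) ≠ 0) (A : Subgroup (MulAut (Cfsg.POmega F f)))
    (hinn : ∀ k : Cfsg.POmega F f, MulAut.conj k ∈ A) {x a : MulAut (Cfsg.POmega F f)}
    (hxA : x ∈ A) (hord : orderOf x = r) (ha : x = a * act hf hG (stdS h hι) * a⁻¹) :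
    Cfsg.pPrimeCore r ↥(A ⊓ Subgroup.centralizer {x}) ≠ ⊥ ↔
      Nat.Coprime r (Nat.card ↥(MonoidHom.eqLocus x.toMonoidHom (MonoidHom.id (Cfsg.POmega F f)))) := by
  classical
  have hp : r.Prime := Fact.out
  haveI : Finite (MulAut (Cfsg.POmega F f)) :=
    Finite.of_injective (fun e : MulAut (Cfsg.POmega F f) => (e : Cfsg.POmega F f → Cfsg.POmega F f))
      DFunLike.coe_injective
  haveI : (Cfsg.Inn (Cfsg.POmega F f)).Normal := AutPSp.normal_inn
  set S := act hf hG (stdS h hι)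
  have hconj : a⁻¹ * x * a⁻¹⁻¹ = S := by rw [ha]; group
  set A' := A.map (MulAut.conj a⁻¹).toMonoidHom
  have hinn' : Cfsg.Inn (Cfsg.POmega F f) ≤ A' := by
    rw [← AutPSp.map_conj_normal (Cfsg.Inn (Cfsg.POmega F f)) a⁻¹]
    exact Subgroup.map_mono fun z hz => by obtain ⟨k, rfl⟩ := hz; exact hinn k
  have hSA : S ∈ A' := ⟨x, hxA, hconj⟩
  obtain ⟨e⟩ := Balance.centralizer_conj_equiv A a⁻¹ x
  rw [hconj] at e
  rw [Balance.core_ne_bot_congr e, ← Balance.card_inn_inf (center_pomega hf hG)]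
  have hcard : Nat.card ↥(Cfsg.Inn (Cfsg.POmega F f) ⊓ Subgroup.centralizer {x}) =
      Nat.card ↥(Cfsg.Inn (Cfsg.POmega F f) ⊓ Subgroup.centralizer {S}) := by
    obtain ⟨e'⟩ := AutPSp.centralizerEquiv (H := Cfsg.Inn (Cfsg.POmega F f)) a⁻¹ x
    rw [hconj] at e'
    exact Nat.card_congr e'.toEquiv
  rw [hcard]
  set φ := socHom hf hG h
  have hker : ∀ z, φ z = 1 ↔ z ∈ Subgroup.center (AutOmegaOdd.G R) := socHom_ker (hG₀ := hG₀) h
  have hsimp : IsSimpleGroup φ.range := simple_image hG₀ φ hker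
  have hTC : φ.range ≤ Subgroup.centralizer {S} := by
    rintro _ ⟨z, rfl⟩
    rw [Subgroup.mem_centralizer_singleton_iff, socHom_apply, ← map_mul, ← map_mul, ofIso_extI,
      stdS_comm]
  have hTI : φ.range ≤ Cfsg.Inn (Cfsg.POmega F f) := by
    rintro _ ⟨z, rfl⟩
    rw [inn_eq hf hG]
    exact ⟨extI h z.1, extI_siegel hG hG₀ h z.2, rfl⟩
  have hrest : ∀ c ∈ A' ⊓ Subgroup.centralizer {S}, ∃ (g : Semi Q) (g₀ : Semi R),
      act hf hG g = c ∧ (∀ a, g.σ (em a) = em (g₀.σ a)) ∧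
      g.H = em g₀.H ∧ ∀ v, g.map (kp em J v) = kp em J (g₀.map v) := fun c hc =>
    exists_restrict h hι hr hp.pos (hsurj c)
      (Subgroup.mem_centralizer_singleton_iff.1 (Subgroup.mem_inf.1 hc).2)
  refine Balance.core_ne_bot_iff (T := φ.range) (S := S) ?_ (inf_le_inf_right _ hinn') ?_
    (le_inf (hTI.trans hinn') hTC) ?_ hsimp ?_ ?_ ?_
  · rw [← hconj, AutPSL.orderOf_conj, hord]
  · intro c hc z hz
    obtain ⟨hz1, hz2⟩ := Subgroup.mem_inf.1 hz
    exact Subgroup.mem_inf.2 ⟨(AutPSp.normal_inn (T := Cfsg.POmega F f)).conj_mem z hz1 c,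
      mul_mem (mul_mem (Subgroup.mem_inf.1 hc).2 hz2) (inv_mem (Subgroup.mem_inf.1 hc).2)⟩
  · rintro c hc _ ⟨z, rfl⟩
    obtain ⟨g, g₀, rfl, -, -, hmap⟩ := hrest c hc
    refine ⟨g₀.conjG z, ?_⟩
    rw [socHom_apply, socHom_apply, ← map_inv, ← map_mul, ← map_mul, conj_ofIso, conjI_extI h hmap]
    rfl
  · intro hb
    haveI := hsimp
    refine Subgroup.ne_bot_iff_exists_ne_one.2 ?_ (le_bot_iff.1 (hb ▸ le_inf hTI hTC))
    exact exists_ne 1
  · intro hp'
    by_cases hr2 : r = 2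
    · subst hr2
      exact two_dvd_image hG₀ (h2 rfl) φ hker
    obtain ⟨y, hy⟩ := exists_prime_orderOf_dvd_card' r hp'
    have hyord : orderOf (y : MulAut (Cfsg.POmega F f)) = r := by rw [Subgroup.orderOf_coe, hy]
    obtain ⟨hy1, hy2⟩ := Subgroup.mem_inf.1 y.2
    have hy3 : (y : MulAut (Cfsg.POmega F f)) ∈ G ⊓ Subgroup.centralizer {S} :=
      Subgroup.mem_inf.2 ⟨inn_le_group D hy1, hy2⟩
    rw [centralizer_eq D D₀ h hext hι hr hp.pos] at hy3
    obtain ⟨g₀, hg₀⟩ := hy3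
    have hgσ : g₀.1.σ = 1 := D₀.le g₀.2
    obtain ⟨j, hj⟩ := eq_scalar_iso (ψ := g₀.1 * g₀.1) (c := Units.mk0 g₀.1.H g₀.1.H0)
      (by rw [semi_mul_σ, hgσ, one_mul]) (by rw [semi_mul_H, hgσ]; rfl)
    have hjd : dick (show Nd R from hG₀.nd) j = 1 :=
      D₀.dick_of_mem (hj ▸ mul_mem g₀.2 g₀.2)
    have hjj : j * j ∈ siegelGroup R := by
      rw [← commutator_eq hG₀]
      by_cases h2K : (2 : K) = 0
      · exact (mem_commutator_iff_two _ hreg h2K _).2 (by rw [map_mul, hjd, one_mul])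
      · exact (mem_commutator_iff hG₀.nd h2K _).2
          ⟨by rw [map_mul, hjd, one_mul], by rw [map_mul, Int.units_mul_self]⟩
    have hy4 : (y : MulAut (Cfsg.POmega F f)) ^ 4 ∈ φ.range := by
      refine ⟨⟨j * j, hjj⟩, ?_⟩
      have e2 : (y : MulAut (Cfsg.POmega F f)) ^ 2 = act hf hG (ofIso Q (extI h j)) := by
        rw [← hg₀, pow_two, ← map_mul, MonoidHom.comp_apply, extP_apply]
        have e : (⟨(g₀ * g₀).1, D₀.le (g₀ * g₀).2⟩ : (sigmaHom R).ker) =
            ⟨ofScalar R (Units.mk0 g₀.1.H g₀.1.H0),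
                ofScalar_σ (Q := R) (Units.mk0 g₀.1.H g₀.1.H0)⟩ * isoKer R j :=
          Subtype.ext hj
        rw [e, map_mul, extHom_scalar (h := h), ← ofIso_extI, map_mul, act_ofScalar, one_mul]
      rw [socHom_apply, show (y : MulAut (Cfsg.POmega F f)) ^ 4 = (y : MulAut _) ^ 2 * (y : MulAut _) ^ 2
        by rw [← pow_add], e2, ← map_mul, ← map_mul, ← map_mul]
    have h4 : orderOf ((y : MulAut (Cfsg.POmega F f)) ^ 4) = r := by
      rw [Nat.Coprime.orderOf_pow, hyord]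
      rw [hyord]
      have h2' : (r.Coprime 2) := (Nat.coprime_primes hp Nat.prime_two).2 hr2
      exact h2'.pow_right 2
    have h5 := orderOf_dvd_natCard (⟨_, hy4⟩ : φ.range)
    rwa [Subgroup.orderOf_mk, h4] at h5
  · intro c hc ht
    obtain ⟨g, g₀, rfl, hσ, hH, hmap⟩ := hrest c hc
    let D' : Subgroup (isoG Q) := (siegelGroup R).map (extI h)
    have hperf : D' ≤ ⁅D', D'⁆ := by
      rw [← Subgroup.map_commutator]
      refine Subgroup.map_mono ?_
      rw [← Subgroup.map_subtype_commutator, siegelGroup_perfect hG₀, ← MonoidHom.range_eq_map,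
        Subgroup.range_subtype]
    have key := conjI_eq_of_perfect hf hG g D' hperf (by
      rintro _ ⟨k, hk, rfl⟩
      exact ht _ ⟨⟨k, hk⟩, rfl⟩)
    obtain ⟨c₀, rfl⟩ := scalar_of_conjI hG₀ g₀ fun k hk => extI_injective h (by
      rw [← conjI_extI h hmap]; exact key _ ⟨k, hk, rfl⟩)
    obtain ⟨j, hj⟩ := exists_pow_of_fix σ g.σ fun x hx => by
      obtain ⟨b, rfl⟩ := (hι x).1 hx
      rw [hσ, ofScalar_σ, RingAut.one_apply]
    have e : g = ofScalar Q (Units.map em.toMonoidHom c₀) * stdS h hι ^ j := by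
      refine semi_eq_of_kp (em := em) (J := J) ?_ ?_ fun v => ?_
      · rw [semi_mul_σ, ofScalar_σ, one_mul, semi_pow_σ]
        exact hj
      · rw [hH, semi_mul_H, (stdS_pow_kp h hι j 0).2]
        simp
      · rw [hmap, semi_mul_map, (stdS_pow_kp h hι j v).1, ofScalar_map, ofScalar_map, kp_smul]
        rfl
    rw [e, map_mul, act_ofScalar, one_mul, map_pow]
    exact pow_mem (Subgroup.mem_zpowers S) j

end std

end Cfsg.Agent.Lib.AutOmega
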