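import Cfsg.Agent.Lib.AutOmega.InvolFix
import Cfsg.Agent.Lib.AutOmega.StdBalance

/-!
The odd core of the centraliser of an involution of an orthogonal space vanishes.
-/

set_option autoImplicit false

namespace Cfsg.Agent.Lib.AutOmega

open QuadraticMap hiding proj
open Cfsg.Agent.Lib.Classical.Quad Cfsg.Agent.Lib.Classical.QuadOmega
open Cfsg.Agent.Lib.AutOmegaOdd (G G_ext Semi)

universe u w

/-- The odd core is trivial when every normal subgroup of odd order is. -/
theorem core_eq_bot_of {X : Type w} [Group X] [Finite X] (C : Subgroup X)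
    (h : ∀ N : Subgroup X, N ≤ C → (∀ c ∈ C, ∀ n ∈ N, c * n * c⁻¹ ∈ N) →
      (Nat.card N).Coprime 2 → N = ⊥) : Cfsg.pPrimeCore 2 C = ⊥ := by
  have hn := Balance.core_normal (X := C) 2
  refine (Subgroup.map_eq_bot_iff_of_injective _ C.subtype_injective).1
    (h _ (Subgroup.map_subtype_le _) ?_ ?_)
  · rintro c hc _ ⟨n, hn', rfl⟩
    exact ⟨⟨c, hc⟩ * n * ⟨c, hc⟩⁻¹, hn.conj_mem n hn' _, rfl⟩
  · rw [Subgroup.card_map_of_injective C.subtype_injective]
    exact Balance.core_coprime 2

theorem odd_of_coprime {X : Type w} [Group X] [Finite X] {N : Subgroup X}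
    (hN : (Nat.card N).Coprime 2) {n : X} (hn : n ∈ N) :
    Odd (orderOf n) := by
  rw [← show orderOf (⟨n, hn⟩ : N) = orderOf n from Subgroup.orderOf_mk n hn]
  exact (Nat.coprime_two_right.1 hN).of_dvd_nat (orderOf_dvd_natCard _)

theorem eq_one_of_odd_sq {X : Type w} [Group X] {n : X} (ho : Odd (orderOf n)) (h : n * n = 1) :
    n = 1 := by
  rcases (Nat.dvd_prime Nat.prime_two).1
    (orderOf_dvd_of_pow_eq_one (by rw [pow_two, h] : n ^ 2 = 1)) with e | e
  · exact orderOf_eq_one_iff.1 e
  · rw [e] at ho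
    exact absurd ho (by decide)

variable {F : Type u} [Field F] [Fintype F] {ι : Type} [Fintype ι] [DecidableEq ι]
  {f : (ι → F) → F} {Q : QuadraticForm F (ι → F)} {hf : ∀ v, Q v = f v} {hG : Good Q}

/-- An element of odd order commuting with an involution comes from a semisimilitude fixing it. -/
theorem exists_fix_lift (hsurj : Function.Surjective (act hf hG)) {k : isoG Q}
    {n : MulAut (Cfsg.POmega F f)} (ho : Odd (orderOf n))
    (hc : n * act hf hG (ofIso Q k) = act hf hG (ofIso Q k) * n) :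
    ∃ ψ : Semi Q, act hf hG ψ = n ∧ ψ.conjI k = k := by
  obtain ⟨j, hj⟩ := ho
  obtain ⟨φ, hφ⟩ := hsurj (n ^ (j + 1))
  refine ⟨φ * φ, ?_, ?_⟩
  · rw [map_mul, hφ, ← pow_add, show j + 1 + (j + 1) = orderOf n + 1 by omega, pow_succ,
      pow_orderOf_eq_one, one_mul]
  · have hφc : act hf hG φ * act hf hG (ofIso Q k) = act hf hG (ofIso Q k) * act hf hG φ := by
      rw [hφ]; exact (Commute.pow_left hc (j + 1)).eq
    rw [conjI_mul]
    rcases conjI_eq_or hf hG φ k hφc with e | e
    · rw [e, e]
    · rw [e, map_mul, e]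
      have hn : φ.conjI (negOne Q) = negOne Q := iso_ext fun v => by
        obtain ⟨v, rfl⟩ := φ.map.surjective v
        rw [AutOmegaOdd.Semi.conjI_apply, negOne_apply, negOne_apply, map_neg]
      rw [hn, ← mul_assoc, show negOne Q * negOne Q = 1 from iso_ext fun v => by
        show (negOne Q).1 ((negOne Q).1 v) = v
        rw [negOne_apply, negOne_apply, neg_neg], one_mul]

/-- A normal subgroup of odd order acts on a large fixed space by scalars. -/
theorem scalar_on_fix (hsurj : Function.Surjective (act hf hG)) (h2 : (2 : F) ≠ 0) {k : isoG Q}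
    (hk : k * k = 1) (hW : 5 ≤ Module.finrank F (fixS k)) (hWodd : Odd (Module.finrank F (fixS k)))
    {C N : Subgroup (MulAut (Cfsg.POmega F f))}
    (hC : ∀ y ∈ Cfsg.Inn (Cfsg.POmega F f),
      y * act hf hG (ofIso Q k) = act hf hG (ofIso Q k) * y → y ∈ C)
    (hconj : ∀ c ∈ C, ∀ n ∈ N, c * n * c⁻¹ ∈ N) (hcop : (Nat.card N).Coprime 2)
    (hcomm : ∀ n ∈ N, n * act hf hG (ofIso Q k) = act hf hG (ofIso Q k) * n)
    {ψ : Semi Q} (hn : act hf hG ψ ∈ N) (hψ : ψ.conjI k = k) :
    ∃ c : Fˣ, ψ.σ = 1 ∧ ψ.H = (c : F) * c ∧ ∀ x ∈ fixS k, ψ.map x = (c : F) • x := by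
  classical
  haveI : Finite (MulAut (Cfsg.POmega F f)) :=
    Finite.of_injective (fun e : MulAut (Cfsg.POmega F f) => (e : Cfsg.POmega F f → Cfsg.POmega F f))
      DFunLike.coe_injective
  have : FiniteDimensional F (fixS k) := Module.Finite.of_finite
  set W := fixS k
  set QW := Q.comp W.subtype
  have hGW : Good QW := good_of_nd (nd_fix hk h2 hG.nd) h2 hW
  let φ : AutOmegaOdd.G QW →* MulAut (Cfsg.POmega F f) :=
    ((act hf hG).comp (ofIso Q)).comp ((extFix hk h2).comp (siegelGroup QW).subtype)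
  have hφ : ∀ z, φ z = act hf hG (ofIso Q (extFix hk h2 z.1)) := fun z => rfl
  have hker : ∀ z, φ z = 1 ↔ z ∈ Subgroup.center (AutOmegaOdd.G QW) := by
    intro z
    rw [hφ, act_eq_one_iff]
    constructor
    · rintro ⟨c, hc⟩
      refine Subgroup.mem_center_iff.2 fun g => G_ext fun x => Subtype.ext ?_
      have hz : ∀ y : W, z.1.1 y = (c : F) • y := fun y => Subtype.ext (by
        rw [← extFix_fix hk h2]
        exact congrArg (fun s : Semi Q => s.map y.1) hc)
      show ((g.1.1 (z.1.1 x) : W) : ι → F) = (z.1.1 (g.1.1 x) : W)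
      rw [hz, hz, map_smul]
    · intro hz
      obtain ⟨c, hc⟩ := scalar_of_central hGW hz
      have hm : ∀ y : W, z.1.1 y = (c : F) • y := fun y =>
        congrArg (fun s : Semi QW => s.map y) hc
      have hc2 : (c : F) * c = 1 := (congrArg Semi.H hc).symm
      rcases mul_self_eq_one_iff.1 hc2 with e | e
      · refine ⟨1, ?_⟩
        rw [show extFix hk h2 z.1 = 1 from by
          rw [show z.1 = 1 from iso_ext fun y => (hm y).trans (by rw [e, one_smul]; rfl), map_one],
          map_one, map_one]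
      · exfalso
        -- a scalar `-1` in `Ω` extends to a central element, so the space is fixed
        have hmem : extFix hk h2 z.1 ∈ commutator (isoG Q) := by
          refine Classical.QuadOmega.map_commutator_le (extFix hk h2) ⟨z.1, ?_, rfl⟩
          rw [SetLike.mem_coe, commutator_eq hGW]
          exact z.2
        have h1 := ((mem_commutator_iff hG.nd h2 _).1 hmem).1
        have h1' := ((mem_commutator_iff (show Nd QW from hGW.nd) h2 z.1).1 (by rw [commutator_eq hGW]; exact z.2)).1
        rw [dick_eq, show fixS z.1 = ⊥ from (Submodule.eq_bot_iff _).2 fun y hy => by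
          rw [mem_fixS, hm, e] at hy
          have hy2 : -y = y := (neg_one_smul F y).symm.trans hy
          have h' : (2 : F) • y = 0 := by
            rw [two_smul]; nth_rewrite 1 [← hy2]; exact neg_add_cancel y
          exact (smul_eq_zero.1 h').resolve_left h2, finrank_bot, add_zero,
          hWodd.neg_one_pow] at h1'
        exact absurd h1' (by decide)
  have hsimp : IsSimpleGroup φ.range := simple_image hGW φ hker
  have h2T : 2 ∣ Nat.card φ.range := two_dvd_image hGW h2 φ hker
  have hTC : φ.range ≤ C := by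
    rintro _ ⟨z, rfl⟩
    refine hC _ ?_ ?_
    · rw [hφ, inn_eq hf hG]
      refine ⟨_, ?_, rfl⟩
      rw [SetLike.mem_coe, ← commutator_eq hG]
      refine Classical.QuadOmega.map_commutator_le (extFix hk h2) ⟨z.1, ?_, rfl⟩
      rw [SetLike.mem_coe, commutator_eq hGW]
      exact z.2
    · rw [hφ, ← map_mul, ← map_mul, ← map_mul, ← map_mul, extFix_comm hk h2]
  have hNT : ∀ n ∈ N, ∀ t ∈ φ.range, n * t * n⁻¹ ∈ φ.range := by
    rintro n hn _ ⟨z, rfl⟩
    obtain ⟨χ, rfl, hχ⟩ := exists_fix_lift hsurj (odd_of_coprime hcop hn) (hcomm n hn)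
    refine ⟨(restrFix χ hχ).conjG z, ?_⟩
    rw [hφ, hφ, ← map_inv, ← map_mul, ← map_mul, conj_ofIso, conjI_extFix hk h2 χ hχ]
    rfl
  have hcm : ∀ t ∈ φ.range, act hf hG ψ * t = t * act hf hG ψ := fun t ht =>
    commute_of_odd N φ.range hsimp h2T hcop (fun t ht n hn => hconj t (hTC ht) n hn) hNT hn ht
  let D : Subgroup (isoG Q) := (siegelGroup QW).map (extFix hk h2)
  have hperf : D ≤ ⁅D, D⁆ := by
    rw [← Subgroup.map_commutator]
    refine Subgroup.map_mono ?_
    rw [← Subgroup.map_subtype_commutator, siegelGroup_perfect hGW, ← MonoidHom.range_eq_map,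
      Subgroup.range_subtype]
  have key := conjI_eq_of_perfect hf hG ψ D hperf (by
    rintro _ ⟨g, hg, rfl⟩
    exact hcm _ ⟨⟨g, hg⟩, rfl⟩)
  obtain ⟨c, hc⟩ := scalar_of_conjI hGW (restrFix ψ hψ) fun g hg => iso_ext fun y => Subtype.ext (by
    have h := key _ ⟨g, hg, rfl⟩
    rw [conjI_extFix hk h2 ψ hψ] at h
    rw [← extFix_fix hk h2, h, extFix_fix])
  exact ⟨c, congrArg Semi.σ hc, congrArg Semi.H hc,
    fun x hx => congrArg Subtype.val (congrArg (fun s : Semi QW => s.map ⟨x, hx⟩) hc)⟩

omit [Fintype F] [Fintype ι] [DecidableEq ι] in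
theorem negOne_mul_self : negOne Q * negOne Q = 1 := iso_ext fun v => by
  show (negOne Q).1 ((negOne Q).1 v) = v
  rw [negOne_apply, negOne_apply, neg_neg]

theorem core_invol_big (hsurj : Function.Surjective (act hf hG)) (h2 : (2 : F) ≠ 0) {k : isoG Q}
    (hk : k * k = 1) (hW : 5 ≤ Module.finrank F (fixS k))
    (hodd : Odd (Module.finrank F (fixS k)))
    (hodd' : Odd (Module.finrank F (fixS (negOne Q * k))))
    (A : Subgroup (MulAut (Cfsg.POmega F f))) (hinn : ∀ z, MulAut.conj z ∈ A) :
    Cfsg.pPrimeCore 2 ↥(A ⊓ Subgroup.centralizer {act hf hG (ofIso Q k)}) = ⊥ := by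
  classical
  have hQ : Nd Q := hG.nd
  haveI : Finite (MulAut (Cfsg.POmega F f)) :=
    Finite.of_injective (fun e : MulAut (Cfsg.POmega F f) => (e : Cfsg.POmega F f → Cfsg.POmega F f))
      DFunLike.coe_injective
  set k' := negOne Q * k with hk'def
  have hk' : k' * k' = 1 := by
    rw [hk'def, mul_assoc, ← mul_assoc k, ← negOne_central k, mul_assoc, hk, mul_one,
      negOne_mul_self]
  have hk'v : ∀ v, k'.1 v = -(k.1 v) := fun v => rfl
  have hanti : ∀ v, v ∈ fixS k' ↔ k.1 v = -v := fun v => by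
    rw [mem_fixS, hk'v, neg_eq_iff_eq_neg]
  have hact : act hf hG (ofIso Q k') = act hf hG (ofIso Q k) := by
    rw [hk'def, map_mul, map_mul, ← ofScalar_negOne, act_ofScalar, one_mul]
  clear_value k'
  refine core_eq_bot_of _ fun N hNC hconj hcop => ?_
  rw [Subgroup.eq_bot_iff_forall]
  intro n hn
  set x := act hf hG (ofIso Q k)
  have hcomm : ∀ n ∈ N, n * x = x * n := fun n hn =>
    Subgroup.mem_centralizer_singleton_iff.1 (Subgroup.mem_inf.1 (hNC hn)).2
  have hC : ∀ y ∈ Cfsg.Inn (Cfsg.POmega F f), y * x = x * y → y ∈ A ⊓ Subgroup.centralizer {x} :=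
    fun y hy hyx => Subgroup.mem_inf.2 ⟨by obtain ⟨z, rfl⟩ := hy; exact hinn z,
      Subgroup.mem_centralizer_singleton_iff.2 hyx⟩
  have hord := odd_of_coprime hcop hn
  obtain ⟨ψ, rfl, hψ⟩ := exists_fix_lift hsurj hord (hcomm n hn)
  obtain ⟨c, hσ, hH, hc⟩ := scalar_on_fix hsurj h2 hk hW hodd hC hconj hcop hcomm hn hψ
  obtain ⟨g, hg⟩ := eq_scalar_iso hσ hH
  have hgm : ∀ v, ψ.map v = (c : F) • g.1 v := fun v => congrArg (fun s : Semi Q => s.map v) hg
  have hgfix : ∀ v ∈ fixS k, g.1 v = v := fun v hv =>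
    smul_right_injective _ c.ne_zero (show (c : F) • g.1 v = (c : F) • v by rw [← hgm, hc v hv])
  have hact_g : act hf hG ψ = act hf hG (ofIso Q g) := by rw [hg, map_mul, act_ofScalar, one_mul]
  have hkg : ∀ v, k.1 (g.1 v) = g.1 (k.1 v) := fun v => by
    have h := ψ.conjI_apply k v
    rw [hψ, hgm, hgm, map_smul] at h
    exact smul_right_injective _ c.ne_zero h
  have : Nontrivial (fixS k) := Module.nontrivial_of_finrank_pos (R := F) (by omega)
  obtain ⟨w0, hw0⟩ := (nd_fix hk h2 hQ).exists_nonsing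
  have hw00 : w0.1 ≠ 0 := fun h => hw0 (by
    show Q w0.1 = 0
    rw [h, map_zero])
  have hgpow : g ^ orderOf (act hf hG ψ) = 1 := by
    have h1 : act hf hG (ofIso Q (g ^ orderOf (act hf hG ψ))) = 1 := by
      rw [map_pow, map_pow, ← hact_g, pow_orderOf_eq_one]
    obtain ⟨d, hd⟩ := (act_eq_one_iff hf hG).1 h1
    have hdv : ∀ v, (g ^ orderOf (act hf hG ψ)).1 v = (d : F) • v := fun v =>
      congrArg (fun s : Semi Q => s.map v) hd
    have hd1 : (d : F) = 1 := by
      have h3 := iso_pow_smul g (c := (1 : F)) (by rw [one_smul]; exact hgfix _ w0.2)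
        (orderOf (act hf hG ψ))
      rw [hdv, one_pow] at h3
      exact smul_left_injective F hw00 h3
    exact iso_ext fun v => by rw [hdv, hd1, one_smul]; rfl
  set M := orderOf (act hf hG ψ)
  suffices hg1 : g = 1 by rw [hact_g, hg1, map_one, map_one]
  have hfix2 : ∀ v, k.1 v = -v → k.1 (g.1 v) = -(g.1 v) := fun v hv => by rw [hkg, hv, map_neg]
  have hred : ∀ s : F, (∀ v, k.1 v = -v → g.1 v = s • v) → s * s = 1 → g = 1 := by
    intro s hs hs2
    have hnt : Nontrivial (fixS k') := Module.nontrivial_of_finrank_pos (R := F) (by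
      obtain ⟨o, ho⟩ := hodd'; omega)
    obtain ⟨v, hv⟩ := exists_ne (0 : fixS k')
    have hv' := (hanti _).1 v.2
    have h := iso_pow_smul g (hs _ hv') M
    rw [hgpow] at h
    have hsM : s ^ M = 1 := (smul_left_injective F (fun h0 => hv (Subtype.ext h0))
      ((one_smul F v.1).trans h)).symm
    have hs1 : s = 1 := by
      rcases mul_self_eq_one_iff.1 hs2 with e | e
      · exact e
      · rw [e, hord.neg_one_pow] at hsM
        exact absurd (by linear_combination -hsM : (2 : F) = 0) h2
    exact iso_ext fun v => by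
      rw [show v = fixProj k v + (v - fixProj k v) from (add_sub_cancel _ _).symm, map_add,
        hgfix _ (fixProj_mem hk v), hs _ (map_sub_fixProj hk h2 v), hs1, one_smul]
      rfl
  by_cases h5 : 5 ≤ Module.finrank F (fixS k')
  · have hψ' : ψ.conjI k' = k' := iso_ext fun v => by
      obtain ⟨v, rfl⟩ := ψ.map.surjective v
      rw [AutOmegaOdd.Semi.conjI_apply, hk'v, hk'v, map_neg, ← AutOmegaOdd.Semi.conjI_apply, hψ]
    have hx : x = act hf hG (ofIso Q k') := hact.symm
    obtain ⟨c', -, hH', hc'⟩ := scalar_on_fix hsurj h2 hk' h5 hodd'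
      (C := A ⊓ Subgroup.centralizer {x}) (fun y hy h => hC y hy (by rwa [hx]))
      hconj hcop (fun n hn => by rw [← hx]; exact hcomm n hn) hn hψ'
    refine hred ((c' : F) / c) (fun v hv => ?_) ?_
    · refine smul_right_injective _ c.ne_zero ?_
      show (c : F) • g.1 v = (c : F) • ((c' : F) / c) • v
      rw [← hgm, hc' v ((hanti v).2 hv), smul_smul, mul_div_cancel₀ _ c.ne_zero]
    · rw [div_mul_div_comm, ← hH, ← hH', div_self ψ.H0]
  · have : FiniteDimensional F (fixS k') := Module.Finite.of_finite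
    obtain ⟨o, ho⟩ := hodd'
    rcases (show o = 0 ∨ o = 1 by omega) with rfl | rfl
    · -- a line
      have h1' : Module.finrank F (fixS k') = 1 := ho.trans (by norm_num)
      obtain ⟨v₀, hv₀, hgen⟩ := finrank_eq_one_iff'.1 h1'
      obtain ⟨s, hs⟩ := hgen ⟨g.1 v₀, (hanti _).2 (hfix2 _ ((hanti _).1 v₀.2))⟩
      have hs' : g.1 v₀ = s • v₀.1 := (congrArg Subtype.val hs).symm
      have hQv : Q v₀.1 ≠ 0 := fun h0 => hv₀ (nd_fix hk' h2 hQ v₀ fun y => by
        obtain ⟨t, rfl⟩ := hgen y
        rw [polar_smul_right, polar_self_sing (show (Q.comp (fixS k').subtype) v₀ = 0 from h0),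
          smul_zero])
      refine hred s (fun v hv => ?_) ?_
      · obtain ⟨t, ht⟩ := hgen ⟨v, (hanti v).2 hv⟩
        have ht' : t • v₀.1 = v := congrArg Subtype.val ht
        rw [← ht', map_smul, hs', smul_comm]
      · have h := iso_Q g v₀.1
        rw [hs', QuadraticMap.map_smul, smul_eq_mul] at h
        exact mul_right_cancel₀ hQv (h.trans (one_mul _).symm)
    · by_contra hg1
      have h3 : Module.finrank F (fixS k') = 3 := ho.trans (by norm_num)
      have hgc : (ofIso Q g).conjI k' = k' := iso_ext fun v => by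
        obtain ⟨v, rfl⟩ := (ofIso Q g).map.surjective v
        rw [AutOmegaOdd.Semi.conjI_apply, ofIso_map, ofIso_map, hk'v, hk'v, hkg, map_neg]
      let R := restrFix (ofIso Q g) hgc
      let gW : isoG (Q.comp (fixS k').subtype) :=
        ⟨{ R.map with map_smul' := fun t v => R.map_smul t v }, fun v => by
          show Q (g.1 v.1) = Q v.1
          exact iso_Q g _⟩
      have hgW : ∀ (j : ℕ) (v : fixS k'), ((gW ^ j).1 v : ι → F) = (g ^ j).1 v.1 := by
        intro j
        induction j with
        | zero => intro v; rfl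
        | succ i ih =>
          intro v
          rw [pow_succ, pow_succ]
          exact ih (gW.1 v)
      have hne : gW ≠ 1 := fun e => hg1 (hred 1 (fun v hv => by
        rw [one_smul]
        exact congrArg (fun s : isoG (Q.comp (fixS k').subtype) =>
          ((s.1 ⟨v, (hanti v).2 hv⟩ : fixS k') : ι → F)) e) (one_mul 1))
      obtain ⟨a, ha, hperp⟩ := exists_orth_moved (nd_fix hk' h2 hQ) h2 h3 gW hord
        (iso_ext fun v => Subtype.ext (by rw [hgW, hgpow]; rfl)) hne
      have ha' : Q a.1 ≠ 0 := ha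
      have hperp' : polar Q a.1 (g.1 a.1) = 0 := hperp
      obtain ⟨w, hw⟩ := (nd_fix hk h2 hQ).exists_eq h2 (by omega) (Q a.1)
      have hwQ : Q w.1 = Q a.1 := hw
      have hw0' : Q w.1 ≠ 0 := by rwa [hwQ]
      have hga : Q (g.1 a.1) ≠ 0 := by rw [iso_Q]; exact ha'
      set ra := refl Q a.1
      set rb := refl Q (g.1 a.1)
      set rw' := refl Q w.1
      have hka : k.1 a.1 = -a.1 := (hanti _).1 a.2
      have hy : act hf hG (ofIso Q (ra * rw')) ∈ A ⊓ Subgroup.centralizer {x} := by
        refine hC _ ?_ ?_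
        · rw [inn_eq hf hG]
          refine ⟨ra * rw', ?_, rfl⟩
          have h := QuotientGroup.eq.1 (mk_refl_eq hG hw0' hwQ.symm)
          rwa [refl_inv ha'] at h
        · rw [← map_mul, ← map_mul, ← map_mul, ← map_mul]
          congr 2
          have e1 : k * ra = ra * k := by
            have h := refl_conj ha' k
            rw [hka, ← neg_one_smul F a.1, refl_smul ha' (neg_ne_zero.2 one_ne_zero)] at h
            exact mul_inv_eq_iff_eq_mul.1 h
          have e2 : k * rw' = rw' * k := by
            have h := refl_conj hw0' k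
            rw [mem_fixS.1 w.2] at h
            exact mul_inv_eq_iff_eq_mul.1 h
          rw [mul_assoc, ← e2, ← mul_assoc, ← e1, mul_assoc]
      have hz : act hf hG (ofIso Q (rb * ra)) ∈ N := by
        have e : rb * ra = g * (ra * rw') * g⁻¹ * (ra * rw')⁻¹ := by
          have h1 : g * ra * g⁻¹ = rb := refl_conj ha' g
          have h2' : g * rw' * g⁻¹ = rw' := by
            have h := refl_conj hw0' g
            rwa [hgfix _ w.2] at h
          calc rb * ra = rb * ra⁻¹ := by rw [refl_inv ha']
            _ = (g * ra * g⁻¹) * (g * rw' * g⁻¹) * (ra * rw')⁻¹ := by rw [h1, h2']; group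
            _ = _ := by group
        have hE : ∀ p q : isoG Q, act hf hG (ofIso Q (g * p * g⁻¹ * q)) = act hf hG ψ *
            act hf hG (ofIso Q p) * (act hf hG ψ)⁻¹ * act hf hG (ofIso Q q) := fun p q => by
          simp only [map_mul, map_inv, hact_g]
        rw [e, hE, map_inv, map_inv, show act hf hG ψ * act hf hG (ofIso Q (ra * rw')) * (act hf hG ψ)⁻¹ *
            (act hf hG (ofIso Q (ra * rw')))⁻¹ = act hf hG ψ * (act hf hG (ofIso Q (ra * rw')) *
            (act hf hG ψ)⁻¹ * (act hf hG (ofIso Q (ra * rw')))⁻¹) by group]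
        exact mul_mem hn (hconj _ hy _ (inv_mem hn))
      have hcommr : ra * rb = rb * ra := by
        have h := refl_conj hga ra
        rw [refl_apply_perp ha' (by rw [polar_comm]; exact hperp')] at h
        exact mul_inv_eq_iff_eq_mul.1 h
      have hz1 := eq_one_of_odd_sq (odd_of_coprime hcop hz) (by
        rw [← map_mul, ← map_mul, mul_assoc rb, ← mul_assoc ra, hcommr, mul_assoc rb,
          refl_mul_self ha', mul_one, refl_mul_self hga, map_one, map_one])
      obtain ⟨d, hd⟩ := (act_eq_one_iff hf hG).1 hz1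
      have hdv : ∀ v, rb.1 (ra.1 v) = (d : F) • v := fun v =>
        congrArg (fun s : Semi Q => s.map v) hd
      have hgk : k.1 (g.1 a.1) = -(g.1 a.1) := hfix2 _ hka
      have hd1 : (d : F) = 1 := by
        have h := hdv w0.1
        rw [refl_apply_perp ha' (fix_orth h2 w0.2 hka),
          refl_apply_perp hga (fix_orth h2 w0.2 hgk)] at h
        exact smul_left_injective F hw00 ((h.symm).trans (one_smul F w0.1).symm)
      have h := hdv a.1
      rw [refl_self ha', map_neg, refl_apply_perp hga hperp', hd1, one_smul] at h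
      refine ha' ?_
      have h' : (2 : F) • a.1 = 0 := by
        rw [two_smul]; nth_rewrite 1 [← h]; exact neg_add_cancel _
      rw [(smul_eq_zero.1 h').resolve_left h2, map_zero]

/-- The odd core of the centraliser of an involutory isometry of determinant `-1` is trivial. -/
theorem core_invol (hsurj : Function.Surjective (act hf hG)) (h2 : (2 : F) ≠ 0) {k : isoG Q}
    (hk : k * k = 1) (hd : dick (show Nd Q from hG.nd) k = -1)
    (heven : Even (Module.finrank F (ι → F))) (hn8 : 8 ≤ Module.finrank F (ι → F))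
    (A : Subgroup (MulAut (Cfsg.POmega F f))) (hinn : ∀ z, MulAut.conj z ∈ A) :
    Cfsg.pPrimeCore 2 ↥(A ⊓ Subgroup.centralizer {act hf hG (ofIso Q k)}) = ⊥ := by
  classical
  have hsum : Module.finrank F (fixS k) + Module.finrank F (fixS (negOne Q * k)) =
      Module.finrank F (ι → F) := by
    have h := eig_sum (Q := Q) h2 (χ := ofIso Q k) (ofIso_σ k) one_ne_zero
      (fun v => by rw [ofIso_map, ofIso_map, invol_apply hk, one_mul, one_smul])
    rw [show fixS k = eig (ofIso Q k) (ofIso_σ k) 1 from Submodule.ext fun v => by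
        rw [mem_fixS, mem_eig, ofIso_map, one_smul],
      show fixS (negOne Q * k) = eig (ofIso Q k) (ofIso_σ k) (-1) from Submodule.ext fun v => by
        rw [mem_fixS, mem_eig, ofIso_map, neg_one_smul]
        exact neg_eq_iff_eq_neg]
    exact h
  have hodd : Odd (Module.finrank F (fixS k)) := by
    rw [dick_eq, neg_one_pow_eq_neg_one_iff_odd (by decide)] at hd
    exact (Nat.odd_add'.1 hd).2 heven
  have hodd' : Odd (Module.finrank F (fixS (negOne Q * k))) := by
    obtain ⟨e, he⟩ := heven
    obtain ⟨o, ho⟩ := hodd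
    exact ⟨e - o - 1, by omega⟩
  by_cases hW : 5 ≤ Module.finrank F (fixS k)
  · exact core_invol_big hsurj h2 hk hW hodd hodd' A hinn
  · set k' := negOne Q * k with hk'def
    have e : negOne Q * k' = k := by rw [hk'def, ← mul_assoc, negOne_mul_self, one_mul]
    have hk' : k' * k' = 1 := by
      rw [hk'def, mul_assoc, ← mul_assoc k, ← negOne_central k, mul_assoc, hk, mul_one,
        negOne_mul_self]
    have hact : act hf hG (ofIso Q k') = act hf hG (ofIso Q k) := by
      rw [hk'def, map_mul, map_mul, ← ofScalar_negOne, act_ofScalar, one_mul]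
    rw [← hact]
    refine core_invol_big hsurj h2 hk' ?_ hodd' (by rwa [e]) A hinn
    obtain ⟨o, ho⟩ := hodd
    obtain ⟨o', ho'⟩ := hodd'
    omega

end Cfsg.Agent.Lib.AutOmega
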