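import Cfsg.Agent.Lib.AutOmega.Centralising
import Cfsg.Agent.Lib.AutOmega.GraphSplit

/-!
Involutions of a quadratic space, their fixed spaces, and rotations in three dimensions.
-/

set_option autoImplicit false

namespace Cfsg.Agent.Lib.AutOmega

open QuadraticMap hiding proj
open Cfsg.Agent.Lib.Classical.Quad Cfsg.Agent.Lib.Classical.QuadOmega
open Cfsg.Agent.Lib.AutOmegaOdd (G G_ext Semi)

universe u v

variable {F : Type u} [Field F] {V : Type v} [AddCommGroup V] [Module F V] {Q : QuadraticForm F V}

theorem iso_pow_smul (k : isoG Q) {a : V} {c : F} (h : k.1 a = c • a) (n : ℕ) :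
    (k ^ n).1 a = c ^ n • a := by
  induction n with
  | zero => simp
  | succ j ih =>
    rw [pow_succ, pow_succ]
    show (k ^ j).1 (k.1 a) = _
    rw [h, map_smul, ih, smul_smul, mul_comm c]

theorem conjI_mul (ψ φ : Semi Q) (g : isoG Q) : (ψ * φ).conjI g = ψ.conjI (φ.conjI g) :=
  iso_ext fun v => by
    obtain ⟨v, rfl⟩ := (ψ * φ).map.surjective v
    rw [AutOmegaOdd.Semi.conjI_apply, semi_mul_map, semi_mul_map, AutOmegaOdd.Semi.conjI_apply,
      AutOmegaOdd.Semi.conjI_apply]

section three

variable [Fintype F] [Finite V]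

/-- A rotation of odd order in three dimensions moves some vector to an orthogonal one. -/
theorem exists_orth_moved (hQ : Nd Q) (h2 : (2 : F) ≠ 0) (hn : Module.finrank F V = 3)
    (k : isoG Q) {n : ℕ} (hodd : Odd n) (hk : k ^ n = 1) (hne : k ≠ 1) :
    ∃ a, Q a ≠ 0 ∧ polar Q a (k.1 a) = 0 := by
  classical
  have : FiniteDimensional F V := Module.Finite.of_finite
  let φ : QuadraticForm F V := LinearMap.BilinMap.toQuadraticMap
    ((polarBilin Q).compl₂ (k.1 : V →ₗ[F] V))
  have hφ : ∀ x, φ x = polar Q x (k.1 x) := fun x => rfl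
  obtain ⟨a, ha0, ha⟩ := exists_zero h2 φ hn.ge
  rw [hφ] at ha
  by_cases hQa : Q a ≠ 0
  · exact ⟨a, hQa, ha⟩
  push Not at hQa
  obtain ⟨w, hw⟩ := hQ.exists_one ha0
  obtain ⟨b, hb, hab, -⟩ := exists_sing_of_pairing hQa hw
  have hba : polar Q b a = 1 := by rw [polar_comm, hab]
  let ψ : V →ₗ[F] F × F := ((polarBilin Q).flip a).prod ((polarBilin Q).flip b)
  obtain ⟨d, hd, hd0⟩ : ∃ d, ψ d = 0 ∧ d ≠ 0 := by
    by_contra! hh
    have hinj : Function.Injective ψ := (injective_iff_map_eq_zero ψ).2 hh
    have h1 := LinearMap.finrank_le_finrank_of_injective hinj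
    rw [hn, Module.finrank_prod, Module.finrank_self] at h1
    omega
  have hda : polar Q d a = 0 := congrArg Prod.fst hd
  have hdb : polar Q d b = 0 := congrArg Prod.snd hd
  have had : polar Q a d = 0 := by rw [polar_comm, hda]
  have hbd : polar Q b d = 0 := by rw [polar_comm, hdb]
  have haa : polar Q a a = 0 := polar_self_sing hQa
  have hbb : polar Q b b = 0 := polar_self_sing hb
  let T : (Fin 3 → F) →ₗ[F] V := Fintype.linearCombination F ![a, b, d]
  have hT : ∀ c, T c = c 0 • a + c 1 • b + c 2 • d := fun c => by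
    simp [T, Fintype.linearCombination_apply, Fin.sum_univ_three]
  have hTa : ∀ c, polar Q (T c) a = c 1 := fun c => by
    simp [hT, polar_add_left, polar_smul_left, haa, hba, hda]
  have hTb : ∀ c, polar Q (T c) b = c 0 := fun c => by
    simp [hT, polar_add_left, polar_smul_left, hab, hbb, hdb]
  have hinj : Function.Injective T := (injective_iff_map_eq_zero T).2 fun c hc => by
    have e1 := hTa c
    have e0 := hTb c
    rw [hc, polar_zero_left] at e1 e0
    have e2 : c 2 • d = 0 := by simpa [hT, ← e1, ← e0] using hc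
    ext i
    fin_cases i
    exacts [e0.symm, e1.symm, (smul_eq_zero.1 e2).resolve_right hd0]
  have hsurj : Function.Surjective T :=
    (LinearMap.injective_iff_surjective_of_finrank_eq_finrank
      (by rw [hn, Module.finrank_fin_fun])).1 hinj
  set δ := Q d
  have hδ : δ ≠ 0 := fun h0 => hd0 (hQ d fun y => by
    obtain ⟨c, rfl⟩ := hsurj y
    have hdd : polar Q d d = 0 := polar_self_sing h0
    simp [hT, polar_add_right, polar_smul_right, hda, hdb, hdd])
  have hQc : ∀ x y z : F, Q (x • a + y • b + z • d) = x * y + z * z * δ := fun x y z => by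
    rw [QuadraticMap.map_add ⇑Q, QuadraticMap.map_add ⇑Q, QuadraticMap.map_smul,
      QuadraticMap.map_smul, QuadraticMap.map_smul, hQa, hb]
    simp [polar_add_left, polar_smul_left, polar_smul_right, hab, had, hbd, δ]
    ring
  have hBc : ∀ x y z x' y' z' : F, polar Q (x • a + y • b + z • d) (x' • a + y' • b + z' • d) =
      x * y' + y * x' + 2 * δ * (z * z') := fun x y z x' y' z' => by
    simp [polar_add_left, polar_add_right, polar_smul_left, polar_smul_right, haa, hbb, hab, hba,
      had, hda, hbd, hdb, polar_self, δ]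
    ring
  have hcomb : ∀ v, ∃ x y z : F, v = x • a + y • b + z • d := fun v => by
    obtain ⟨c, rfl⟩ := hsurj v
    exact ⟨_, _, _, hT c⟩
  obtain ⟨lam, y1, z1, hka⟩ := hcomb (k.1 a)
  obtain rfl : y1 = 0 := by
    have h := hBc 1 0 0 lam y1 z1
    rw [one_smul, zero_smul, zero_smul, add_zero, add_zero, ← hka, ha] at h
    linear_combination -h
  obtain rfl : z1 = 0 := by
    have h := hQc lam 0 z1
    rw [← hka, iso_Q, hQa] at h
    have h' : z1 * z1 * δ = 0 := by linear_combination -h
    exact mul_self_eq_zero.1 ((mul_eq_zero.1 h').resolve_right hδ)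
  have hka' : k.1 a = lam • a := by rw [hka, zero_smul, zero_smul, add_zero, add_zero]
  have hlam : lam ^ n = 1 := by
    have h := iso_pow_smul k hka' n
    rw [hk] at h
    exact smul_left_injective F ha0 ((h.symm).trans (one_smul F a).symm)
  obtain ⟨g, e1', ε, hkd⟩ := hcomb (k.1 d)
  obtain ⟨β, μ, α, hkb⟩ := hcomb (k.1 b)
  have hlam0 : lam ≠ 0 := fun h => by
    rw [h, zero_pow hodd.pos.ne'] at hlam
    exact zero_ne_one hlam
  obtain rfl : e1' = 0 := by
    have h := iso_B k a d
    rw [hka, hkd, hBc, had] at h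
    refine (mul_eq_zero.1 (show lam * e1' = 0 by linear_combination h)).resolve_left hlam0
  have hε2 : ε * ε = 1 := by
    have h := hQc g 0 ε
    rw [← hkd, iso_Q] at h
    refine mul_right_cancel₀ hδ ?_
    linear_combination -h
  have hμ : μ * lam = 1 := by
    have h := iso_B k a b
    rw [hka, hkb, hBc, hab] at h
    linear_combination h
  have hQb : β * μ + α * α * δ = 0 := by
    have h := hQc β μ α
    rw [← hkb, iso_Q, hb] at h
    linear_combination -h
  have hbd' : μ * g + 2 * δ * (α * ε) = 0 := by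
    have h := iso_B k b d
    rw [hkb, hkd, hBc, hbd] at h
    linear_combination h
  have hμ0 : μ ≠ 0 := fun h => by rw [h, zero_mul] at hμ; exact zero_ne_one hμ
  have hne4 : lam * lam ≠ -1 := fun h => by
    have h1 : ((-1 : F)) ^ n = 1 := by rw [← h, mul_pow, hlam, one_mul]
    rw [hodd.neg_one_pow] at h1
    exact h2 (by linear_combination -h1)
  have hsum : lam + μ ≠ 0 := fun h => hne4 (by linear_combination lam * h - hμ)
  by_cases hβ : β = 0
  · have hα : α = 0 := by
      rw [hβ, zero_mul, zero_add] at hQb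
      exact mul_self_eq_zero.1 ((mul_eq_zero.1 hQb).resolve_right hδ)
    have hg : g = 0 := by
      rw [hα, zero_mul, mul_zero, add_zero] at hbd'
      exact (mul_eq_zero.1 hbd').resolve_left hμ0
    have hkd' : k.1 d = ε • d := by rw [hkd, hg, zero_smul, zero_smul, zero_add, zero_add]
    have hεn : ε ^ n = 1 := by
      have h := iso_pow_smul k hkd' n
      rw [hk] at h
      exact smul_left_injective F hd0 ((h.symm).trans (one_smul F d).symm)
    have hε : ε = 1 := by
      rcases mul_self_eq_one_iff.1 hε2 with e | e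
      · exact e
      · rw [e, hodd.neg_one_pow] at hεn
        exact absurd (by linear_combination -hεn : (2 : F) = 0) h2
    have hlam1 : lam ≠ 1 := fun h => hne (iso_ext fun v => by
      obtain ⟨x, y, z, rfl⟩ := hcomb v
      have hμ1 : μ = 1 := by rw [h, mul_one] at hμ; exact hμ
      show k.1 _ = _
      rw [map_add, map_add, map_smul, map_smul, map_smul, hka', hkb, hkd', hβ, hα, hε, h, hμ1]
      simp)
    refine ⟨(-(2 * δ) / (lam + μ)) • a + (1 : F) • b + (1 : F) • d, ?_, ?_⟩
    · rw [hQc]
      intro h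
      have h' : (lam + μ - 2) * δ = 0 := by
        field_simp at h
        linear_combination h
      have h3 : lam + μ - 2 = 0 := (mul_eq_zero.1 h').resolve_right hδ
      refine hlam1 ?_
      have h4 : (lam - 1) * (lam - 1) = 0 := by linear_combination lam * h3 - hμ
      exact sub_eq_zero.1 (mul_self_eq_zero.1 h4)
    · have hkv : k.1 ((-(2 * δ) / (lam + μ)) • a + (1 : F) • b + (1 : F) • d) =
          (-(2 * δ) / (lam + μ) * lam) • a + μ • b + (1 : F) • d := by
        rw [map_add, map_add, map_smul, map_smul, map_smul, hka', hkb, hkd', hβ, hα, hε]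
        module
      rw [hkv, hBc]
      field_simp
      ring
  · refine ⟨(-β / (lam + μ)) • a + (1 : F) • b + (0 : F) • d, ?_, ?_⟩
    · rw [hQc]
      intro h
      refine hβ ?_
      field_simp at h
      linear_combination -h
    · have hkv : k.1 ((-β / (lam + μ)) • a + (1 : F) • b + (0 : F) • d) =
          (-β / (lam + μ) * lam + β) • a + μ • b + α • d := by
        rw [map_add, map_add, map_smul, map_smul, map_smul, hka', hkb]
        module
      rw [hkv, hBc]
      field_simp
      ring

end three

section fix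

/-- The projection on the fixed space of an involution. -/
noncomputable def fixProj (k : isoG Q) : V →ₗ[F] V :=
  (2 : F)⁻¹ • (LinearMap.id + (k.1 : V →ₗ[F] V))

theorem fixProj_apply (k : isoG Q) (v : V) : fixProj k v = (2 : F)⁻¹ • (v + k.1 v) := rfl

variable {k : isoG Q} (hk : k * k = 1) (h2 : (2 : F) ≠ 0)

include hk in
theorem invol_apply (v : V) : k.1 (k.1 v) = v := by
  show (k * k).1 v = v
  rw [hk]
  rfl

include hk in
theorem fixProj_mem (v : V) : fixProj k v ∈ fixS k := by
  rw [mem_fixS, fixProj_apply, map_smul, map_add, invol_apply hk, add_comm]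

include h2 in
theorem fixProj_fix {v : V} (hv : v ∈ fixS k) : fixProj k v = v := by
  rw [fixProj_apply, mem_fixS.1 hv, ← two_smul F v, smul_smul, inv_mul_cancel₀ h2, one_smul]

theorem fixProj_anti {v : V} (hv : k.1 v = -v) : fixProj k v = 0 := by
  rw [fixProj_apply, hv, add_neg_cancel, smul_zero]

include hk h2 in
theorem map_sub_fixProj (v : V) : k.1 (v - fixProj k v) = -(v - fixProj k v) := by
  rw [map_sub, mem_fixS.1 (fixProj_mem hk v), fixProj_apply]
  match_scalars <;> field_simp <;> ring

include h2 in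
theorem fix_orth {x y : V} (hx : x ∈ fixS k) (hy : k.1 y = -y) : polar Q x y = 0 := by
  have h := iso_B k x y
  rw [mem_fixS.1 hx, hy, polar_neg_right] at h
  have h' : (2 : F) * polar Q x y = 0 := by linear_combination -h
  exact (mul_eq_zero.1 h').resolve_left h2

include hk h2 in
theorem nd_fix (hQ : Nd Q) : Nd (Q.comp (fixS k).subtype) := fun x hx => by
  refine Subtype.ext (hQ x.1 fun y => ?_)
  conv_lhs => rw [show y = fixProj k y + (y - fixProj k y) from (add_sub_cancel _ _).symm]
  rw [polar_add_right, fix_orth h2 x.2 (map_sub_fixProj hk h2 y), add_zero]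
  exact hx ⟨_, fixProj_mem hk y⟩

/-- The extension of a map of the fixed space, fixing the complement. -/
noncomputable def extFixMap (hk : k * k = 1) (g : isoG (Q.comp (fixS k).subtype)) : V →ₗ[F] V :=
  LinearMap.id - fixProj k +
    ((fixS k).subtype.comp g.1.toLinearMap).comp ((fixProj k).codRestrict _ (fixProj_mem hk))

theorem extFixMap_apply (hk : k * k = 1) (g : isoG (Q.comp (fixS k).subtype)) (v : V) :
    extFixMap hk g v = v - fixProj k v + (g.1 ⟨fixProj k v, fixProj_mem hk v⟩ : V) := rfl

include h2 in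
theorem fixProj_extFixMap (g : isoG (Q.comp (fixS k).subtype)) (v : V) :
    fixProj k (extFixMap hk g v) = g.1 ⟨fixProj k v, fixProj_mem hk v⟩ := by
  rw [extFixMap_apply, map_add, fixProj_anti (map_sub_fixProj hk h2 v), zero_add,
    fixProj_fix h2 (g.1 _).2]

include h2 in
theorem extFixMap_mul (g g' : isoG (Q.comp (fixS k).subtype)) (v : V) :
    extFixMap hk (g * g') v = extFixMap hk g (extFixMap hk g' v) := by
  rw [extFixMap_apply hk g (extFixMap hk g' v)]
  have e : (⟨fixProj k (extFixMap hk g' v), fixProj_mem hk _⟩ : fixS k) =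
      g'.1 ⟨fixProj k v, fixProj_mem hk v⟩ := Subtype.ext (fixProj_extFixMap hk h2 g' v)
  rw [e, fixProj_extFixMap hk h2 g' v, extFixMap_apply, extFixMap_apply, add_sub_cancel_right]
  rfl

theorem extFixMap_one (hk : k * k = 1) (v : V) : extFixMap hk 1 v = v := by
  rw [extFixMap_apply]
  exact sub_add_cancel _ _

/-- Isometries of the fixed space as isometries of the whole space. -/
noncomputable def extFix (hk : k * k = 1) (h2 : (2 : F) ≠ 0) :
    isoG (Q.comp (fixS k).subtype) →* isoG Q where
  toFun g := ⟨LinearEquiv.ofLinearMap (extFixMap hk g) (extFixMap hk g⁻¹)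
      (LinearMap.ext fun v => by
        show extFixMap hk g (extFixMap hk g⁻¹ v) = v
        rw [← extFixMap_mul hk h2, mul_inv_cancel, extFixMap_one])
      (LinearMap.ext fun v => by
        show extFixMap hk g⁻¹ (extFixMap hk g v) = v
        rw [← extFixMap_mul hk h2, inv_mul_cancel, extFixMap_one]), fun v => by
    show Q (extFixMap hk g v) = Q v
    have ha : ∀ x ∈ fixS k, Q (v - fixProj k v + x) = Q (v - fixProj k v) + Q x := fun x hx => by
      rw [QuadraticMap.map_add ⇑Q, polar_comm, fix_orth h2 hx (map_sub_fixProj hk h2 v), add_zero]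
    rw [extFixMap_apply, ha _ (g.1 _).2]
    conv_rhs => rw [show v = v - fixProj k v + fixProj k v from (sub_add_cancel _ _).symm,
      ha _ (fixProj_mem hk v)]
    exact congrArg _ (iso_Q g ⟨fixProj k v, fixProj_mem hk v⟩)⟩
  map_one' := iso_ext fun v => extFixMap_one hk v
  map_mul' g g' := iso_ext fun v => extFixMap_mul hk h2 g g' v

theorem extFix_apply (g : isoG (Q.comp (fixS k).subtype)) (v : V) :
    (extFix hk h2 g).1 v = v - fixProj k v + (g.1 ⟨fixProj k v, fixProj_mem hk v⟩ : V) := rfl

theorem extFix_fix (g : isoG (Q.comp (fixS k).subtype)) (x : fixS k) :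
    (extFix hk h2 g).1 x = g.1 x := by
  rw [extFix_apply]
  simp only [fixProj_fix h2 x.2, sub_self, zero_add]

theorem extFix_anti (g : isoG (Q.comp (fixS k).subtype)) {y : V} (hy : k.1 y = -y) :
    (extFix hk h2 g).1 y = y := by
  rw [extFix_apply]
  simp only [fixProj_anti hy, sub_zero]
  rw [show (⟨0, _⟩ : fixS k) = 0 from rfl, map_zero, Submodule.coe_zero, add_zero]

theorem extFix_comm (g : isoG (Q.comp (fixS k).subtype)) :
    extFix hk h2 g * k = k * extFix hk h2 g := iso_ext fun v => by
  show (extFix hk h2 g).1 (k.1 v) = k.1 ((extFix hk h2 g).1 v)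
  have hv : v = fixProj k v + (v - fixProj k v) := (add_sub_cancel _ _).symm
  rw [hv, map_add, map_add, map_add, mem_fixS.1 (fixProj_mem hk v), map_sub_fixProj hk h2 v,
    map_neg, extFix_anti hk h2 g (map_sub_fixProj hk h2 v),
    show (extFix hk h2 g).1 (fixProj k v) = _ from extFix_fix hk h2 g ⟨_, fixProj_mem hk v⟩,
    map_add, mem_fixS.1 (g.1 _).2, map_sub_fixProj hk h2 v]

variable [Finite V]

/-- The restriction of a semisimilitude fixing the involution. -/
noncomputable def restrFix (ψ : Semi Q) (hψ : ψ.conjI k = k) : Semi (Q.comp (fixS k).subtype) where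
  σ := ψ.σ
  H := ψ.H
  H0 := ψ.H0
  map := AddEquiv.ofBijective
    (AddMonoidHom.mk' (fun x : fixS k => (⟨ψ.map x, mem_fixS.2 (by
      have h := ψ.conjI_apply k x.1
      rwa [hψ, mem_fixS.1 x.2] at h)⟩ : fixS k))
      fun a b => Subtype.ext (map_add ψ.map _ _))
    (Finite.injective_iff_bijective.1 fun a b e =>
      Subtype.ext (ψ.map.injective (congrArg Subtype.val e)))
  map_smul c x := Subtype.ext (ψ.map_smul c x)
  map_Q x := ψ.map_Q x

theorem restrFix_map (ψ : Semi Q) (hψ : ψ.conjI k = k) (x : fixS k) :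
    ((restrFix ψ hψ).map x : V) = ψ.map x := rfl

theorem conjI_extFix (ψ : Semi Q) (hψ : ψ.conjI k = k) (g : isoG (Q.comp (fixS k).subtype)) :
    ψ.conjI (extFix hk h2 g) = extFix hk h2 ((restrFix ψ hψ).conjI g) := by
  refine iso_ext fun v => ?_
  obtain ⟨v, rfl⟩ := ψ.map.surjective v
  have hz : k.1 (ψ.map (v - fixProj k v)) = -ψ.map (v - fixProj k v) := by
    have h := ψ.conjI_apply k (v - fixProj k v)
    rwa [hψ, map_sub_fixProj hk h2 v, map_neg] at h
  rw [AutOmegaOdd.Semi.conjI_apply, extFix_apply, map_add]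
  conv_rhs => rw [show v = (v - fixProj k v) + fixProj k v from (sub_add_cancel _ _).symm,
    map_add, map_add, extFix_anti hk h2 _ hz]
  congr 1
  have h := extFix_fix hk h2 ((restrFix ψ hψ).conjI g)
    ((restrFix ψ hψ).map ⟨fixProj k v, fixProj_mem hk v⟩)
  rw [AutOmegaOdd.Semi.conjI_apply] at h
  exact h.symm

end fix

end Cfsg.Agent.Lib.AutOmega
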