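import Cfsg.Agent.Lib.AutOmega.InvolBalance
import Mathlib.Algebra.QuadraticAlgebra.Basic

/-!
The odd core of the centraliser of an involutory similitude with non-square multiplier.
-/

set_option autoImplicit false

namespace Cfsg.Agent.Lib.AutOmega

open QuadraticMap hiding proj
open Cfsg.Agent.Lib.Classical.Quad Cfsg.Agent.Lib.Classical.QuadOmega
open Cfsg.Agent.Lib.AutOmegaOdd (G G_ext Semi)

universe u v

/-- The quadratic extension by a square root. -/
abbrev QE {F : Type u} [Field F] (l : F) := QuadraticAlgebra F l 0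

section space

variable {F : Type u} [Field F] {V : Type v} [AddCommGroup V] [Module F V] {Q : QuadraticForm F V}
  {l : F} [Fact (∀ r : F, r ^ 2 ≠ l + 0 * r)] [Module (QE l) V] {χ : Semi Q}
  (hsm : ∀ (e : QE l) (v : V), e • v = e.re • v + e.im • χ.map v)

include hsm in
theorem qe_re_smul (c : F) (v : V) : (⟨c, 0⟩ : QE l) • v = c • v := by
  rw [hsm, zero_smul, add_zero]

include hsm in
/-- The form over the quadratic extension. -/
theorem exists_formE (h2 : (2 : F) ≠ 0) (hσ : χ.σ = 1) (hl : l ≠ 0)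
    (hsq : ∀ v, χ.map (χ.map v) = l • v) (hH : χ.H = l) :
    ∃ R : QuadraticForm (QE l) V, ∀ v, R v = ⟨Q v, polar Q v (χ.map v) / (2 * l)⟩ := by
  have hlin : ∀ (c : F) x, χ.map (c • x) = c • χ.map x := fun c x => by
    rw [χ.map_smul, hσ]; rfl
  have hB : ∀ x y, polar Q (χ.map x) (χ.map y) = l * polar Q x y := fun x y => by
    rw [χ.map_B, hH, hσ]; rfl
  have hadj : ∀ x y, polar Q x (χ.map y) = polar Q (χ.map x) y := fun x y => by
    refine mul_left_cancel₀ hl ?_
    rw [← hB, hsq, polar_smul_right, smul_eq_mul, mul_comm]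
  let f : V → QE l := fun v => ⟨Q v, polar Q v (χ.map v) / (2 * l)⟩
  have hpol : ∀ v w, polar f v w = ⟨polar Q v w, polar Q (χ.map v) w / l⟩ := fun v w => by
    simp only [polar, f]
    ext
    · simp
    · simp only [QuadraticAlgebra.im_sub]
      show polar Q (v + w) (χ.map (v + w)) / (2 * l) - polar Q v (χ.map v) / (2 * l) -
        polar Q w (χ.map w) / (2 * l) = polar Q (χ.map v) w / l
      rw [map_add, polar_add_left, polar_add_right, polar_add_right, hadj v w,
        polar_comm Q w (χ.map v)]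
      field_simp
      ring
  refine ⟨QuadraticMap.ofPolar f (fun e v => ?_) (fun v v' w => ?_) (fun e v w => ?_), fun v => rfl⟩
  · have hq : ∀ v, Q (χ.map v) = l * Q v := fun v => by rw [χ.map_Q, hH, hσ]; rfl
    simp only [f, smul_eq_mul]
    ext
    · simp only [QuadraticAlgebra.re_mul, QuadraticAlgebra.im_mul]
      rw [hsm, QuadraticMap.map_add ⇑Q, QuadraticMap.map_smul, QuadraticMap.map_smul, hq,
        polar_smul_left, polar_smul_right]
      simp only [smul_eq_mul]
      field_simp
      ring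
    · simp only [QuadraticAlgebra.re_mul, QuadraticAlgebra.im_mul]
      rw [hsm, map_add, hlin, hlin, hsq]
      simp only [polar_add_left, polar_add_right, polar_smul_left, polar_smul_right, smul_eq_mul,
        polar_self, nsmul_eq_mul, hB, polar_comm Q (χ.map v) v, hq]
      field_simp
      push_cast
      ring
  · rw [hpol, hpol, hpol, polar_add_left, map_add, polar_add_left, add_div]
    ext <;> simp
  · rw [hpol, hpol, hsm, map_add, hlin, hlin, hsq]
    simp only [smul_eq_mul, polar_add_left, polar_smul_left]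
    ext <;> simp <;> field_simp <;> ring

variable {R : QuadraticForm (QE l) V} (hR : ∀ v, R v = ⟨Q v, polar Q v (χ.map v) / (2 * l)⟩)

include hR in
theorem nd_formE (hQ : Nd Q) : Nd R := fun x hx => hQ x fun y => by
  have h := congrArg QuadraticAlgebra.re (hx y)
  simpa [polar, hR] using h

/-- Isometries over the extension as isometries. -/
noncomputable def resE (hsm : ∀ (e : QE l) (v : V), e • v = e.re • v + e.im • χ.map v)
    (hR : ∀ v, R v = ⟨Q v, polar Q v (χ.map v) / (2 * l)⟩) : isoG R →* isoG Q where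
  toFun g := ⟨
    { toFun := g.1
      invFun := g.1.symm
      left_inv := g.1.left_inv
      right_inv := g.1.right_inv
      map_add' := map_add g.1
      map_smul' := fun c v => by
        rw [← qe_re_smul hsm c v, map_smul, qe_re_smul hsm]
        rfl }, fun v => by
    have h := congrArg QuadraticAlgebra.re (iso_Q g v)
    rw [hR, hR] at h
    exact h⟩
  map_one' := iso_ext fun v => rfl
  map_mul' g g' := iso_ext fun v => rfl

theorem resE_apply (g : isoG R) (v : V) : (resE hsm hR g).1 v = g.1 v := rfl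

theorem resE_chi (g : isoG R) (v : V) :
    (resE hsm hR g).1 (χ.map v) = χ.map ((resE hsm hR g).1 v) := by
  have e : ∀ w, (⟨0, 1⟩ : QE l) • w = χ.map w := fun w => by
    rw [hsm, zero_smul, zero_add, one_smul]
  rw [resE_apply hsm hR, resE_apply hsm hR, ← e, ← e, map_smul]

variable [Fintype F]

include hsm hR in
/-- A semisimilitude permuting the square roots is semisimilar over the extension. -/
theorem exists_semiE (h2 : (2 : F) ≠ 0) {ψ : Semi Q} {c : F} (hl : l ≠ 0) (hc : c ≠ 0)
    (hcl : ψ.σ l = c * c * l) (hψ : ∀ v, ψ.map (χ.map v) = c • χ.map (ψ.map v)) :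
    ∃ φ : Semi R, (∀ v, φ.map v = ψ.map v) ∧ φ.H = ⟨ψ.H, 0⟩ ∧
      ∀ a : F, φ.σ ⟨a, 0⟩ = ⟨ψ.σ a, 0⟩ := by
  classical
  haveI : Finite (QE l) := Finite.of_equiv _ (QuadraticAlgebra.equivProd l 0).symm
  let τh : QE l →+* QE l :=
    { toFun := fun e => ⟨ψ.σ e.re, c * ψ.σ e.im⟩
      map_one' := QuadraticAlgebra.ext (map_one ψ.σ) (show c * ψ.σ 0 = 0 by rw [map_zero, mul_zero])
      map_zero' := by ext <;> simp
      map_add' := fun x y => by ext <;> simp [mul_add]
      map_mul' := fun x y => by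
        ext <;> simp [hcl] <;> ring }
  let τ : QE l ≃+* QE l := RingEquiv.ofBijective τh (Finite.injective_iff_bijective.1 τh.injective)
  have hτ : ∀ e, τ e = ⟨ψ.σ e.re, c * ψ.σ e.im⟩ := fun e => rfl
  refine ⟨{ σ := τ, H := ⟨ψ.H, 0⟩
            H0 := fun h => ψ.H0 (congrArg QuadraticAlgebra.re h)
            map := ψ.map
            map_smul := fun e v => by
              rw [hsm, hsm, hτ, map_add, ψ.map_smul, ψ.map_smul, hψ, smul_smul, mul_comm]
            map_Q := fun v => by
              rw [hR, hR, hτ]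
              have hB : polar Q (ψ.map v) (ψ.map (χ.map v)) = ψ.H * ψ.σ (polar Q v (χ.map v)) :=
                ψ.map_B v (χ.map v)
              rw [hψ, polar_smul_right, smul_eq_mul] at hB
              ext
              · simp [ψ.map_Q]
              · simp only [QuadraticAlgebra.im_mul, map_div₀, map_mul, map_ofNat, hcl]
                field_simp
                linear_combination hB },
    fun v => rfl, rfl, fun a => by
      show τ _ = _
      rw [hτ]
      simp⟩

end space

section core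

variable {F : Type u} [Field F] [Fintype F] {ι : Type} [Fintype ι] [DecidableEq ι]
  {f : (ι → F) → F} {Q : QuadraticForm F (ι → F)} {hf : ∀ v, Q v = f v} {hG : Good Q}

/-- The odd core of the centraliser of an involutory similitude with non-square multiplier. -/
theorem core_quad [Nonempty ι] (hsurj : Function.Surjective (act hf hG)) (h2 : (2 : F) ≠ 0)
    {χ : Semi Q} (hσ : χ.σ = 1) {l : Fˣ} (hl : χ * χ = ofScalar Q l) (hH : χ.H = l)
    (hns : ¬ IsSquare (l : F)) (hn : 10 ≤ Module.finrank F (ι → F))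
    (A : Subgroup (MulAut (Cfsg.POmega F f))) (hinn : ∀ z, MulAut.conj z ∈ A) :
    Cfsg.pPrimeCore 2 ↥(A ⊓ Subgroup.centralizer {act hf hG χ}) = ⊥ := by
  classical
  haveI : Finite (MulAut (Cfsg.POmega F f)) :=
    Finite.of_injective (fun e : MulAut (Cfsg.POmega F f) => (e : Cfsg.POmega F f → Cfsg.POmega F f))
      DFunLike.coe_injective
  haveI : Fact (∀ r : F, r ^ 2 ≠ (l : F) + 0 * r) := ⟨fun r hr => hns ⟨r, by
    rw [zero_mul, add_zero] at hr; rw [← hr, pow_two]⟩⟩
  have hlin : ∀ (c : F) x, χ.map (c • x) = c • χ.map x := fun c x => by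
    rw [χ.map_smul, hσ]; rfl
  have hsq : ∀ v, χ.map (χ.map v) = (l : F) • v := fun v => by
    rw [← semi_mul_map, hl, ofScalar_map]
  let u : Module.End F (ι → F) := linOf χ hσ
  have hu : u * u = (l : F) • 1 + (0 : F) • u := LinearMap.ext fun v => by
    simp [u, linOf_apply, hsq]
  letI instE : Module (QE (l : F)) (ι → F) :=
    Module.compHom _ (QuadraticAlgebra.lift ⟨u, hu⟩).toRingHom
  have hsm : ∀ (e : QE (l : F)) (v : ι → F), e • v = e.re • v + e.im • χ.map v := fun e v => rfl
  haveI : Finite (QE (l : F)) := Finite.of_equiv _ (QuadraticAlgebra.equivProd (l : F) 0).symm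
  letI : Fintype (QE (l : F)) := Fintype.ofFinite _
  obtain ⟨R, hR⟩ := exists_formE hsm h2 hσ l.ne_zero hsq hH
  have h2E : (2 : QE (l : F)) ≠ 0 := fun h => h2 (by
    have h' := congrArg QuadraticAlgebra.re h
    rw [QuadraticAlgebra.re_ofNat] at h'
    exact h')
  have hdim : 5 ≤ Module.finrank (QE (l : F)) (ι → F) := by
    haveI : Module.Finite (QE (l : F)) (ι → F) := Module.Finite.of_finite
    have e1 := Module.natCard_eq_pow_finrank (K := F) (V := ι → F)
    have e2 := Module.natCard_eq_pow_finrank (K := QE (l : F)) (V := ι → F)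
    rw [e1, Nat.card_congr (QuadraticAlgebra.equivProd (l : F) 0), Nat.card_prod, ← pow_two,
      ← pow_mul] at e2
    have := Nat.pow_right_injective (Finite.one_lt_card (α := F)) e2
    omega
  have hGR : Good R := good_of_nd (nd_formE hR hG.nd) h2E hdim
  refine core_eq_bot_of _ fun N hNC hconj hcop => ?_
  rw [Subgroup.eq_bot_iff_forall]
  set x := act hf hG χ
  let φ : AutOmegaOdd.G R →* MulAut (Cfsg.POmega F f) :=
    ((act hf hG).comp (ofIso Q)).comp ((resE hsm hR).comp (siegelGroup R).subtype)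
  have hφ : ∀ z, φ z = act hf hG (ofIso Q (resE hsm hR z.1)) := fun z => rfl
  have hker : ∀ z, φ z = 1 ↔ z ∈ Subgroup.center (AutOmegaOdd.G R) := by
    intro z
    rw [hφ, act_eq_one_iff]
    constructor
    · rintro ⟨d, hd⟩
      refine Subgroup.mem_center_iff.2 fun g => G_ext fun y => ?_
      have hz : ∀ y, z.1.1 y = (⟨d, 0⟩ : QE (l : F)) • y := fun y => by
        rw [qe_re_smul hsm, ← resE_apply hsm hR]
        exact congrArg (fun s : Semi Q => s.map y) hd
      show g.1.1 (z.1.1 y) = z.1.1 (g.1.1 y)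
      rw [hz, hz, map_smul]
    · intro hz
      obtain ⟨e, he⟩ := scalar_of_central hGR hz
      have hm : ∀ y, z.1.1 y = (e : QE (l : F)) • y := fun y =>
        congrArg (fun s : Semi R => s.map y) he
      have he2 : (e : QE (l : F)) * e = 1 := (congrArg Semi.H he).symm
      rcases mul_self_eq_one_iff.1 he2 with e1 | e1
      · refine ⟨1, ?_⟩
        rw [show z.1 = 1 from iso_ext fun y => by rw [hm, e1, one_smul]; rfl, map_one, map_one,
          map_one]
      · refine ⟨-1, ?_⟩
        rw [ofScalar_negOne]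
        congr 1
        refine iso_ext fun y => ?_
        rw [resE_apply hsm hR, hm, e1, negOne_apply]
        exact neg_one_smul _ y
  have hsimp : IsSimpleGroup φ.range := simple_image hGR φ hker
  have h2T : 2 ∣ Nat.card φ.range := two_dvd_image hGR h2E φ hker
  have hTC : φ.range ≤ A ⊓ Subgroup.centralizer {x} := by
    rintro _ ⟨z, rfl⟩
    have hI : φ z ∈ Cfsg.Inn (Cfsg.POmega F f) := by
      rw [hφ, inn_eq hf hG]
      refine ⟨_, ?_, rfl⟩
      rw [SetLike.mem_coe, ← commutator_eq hG]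
      refine Classical.QuadOmega.map_commutator_le (resE hsm hR) ⟨z.1, ?_, rfl⟩
      rw [SetLike.mem_coe, commutator_eq hGR]
      exact z.2
    refine Subgroup.mem_inf.2 ⟨by obtain ⟨w, hw⟩ := hI; exact hw ▸ hinn w, ?_⟩
    rw [Subgroup.mem_centralizer_singleton_iff, hφ, ← map_mul, ← map_mul]
    congr 1
    refine semi_ext (by simp [hσ]) (by simp [hσ]) fun v => ?_
    rw [semi_mul_map, semi_mul_map, ofIso_map, ofIso_map, resE_chi hsm hR]
  have hlift : ∀ n ∈ A ⊓ Subgroup.centralizer {x}, ∃ (ψ : Semi Q) (ψE : Semi R),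
      act hf hG ψ = n ∧ (∀ v, ψE.map v = ψ.map v) ∧ ψE.H = ⟨ψ.H, 0⟩ ∧
      ∀ a : F, ψE.σ ⟨a, 0⟩ = ⟨ψ.σ a, 0⟩ := by
    intro n hn
    obtain ⟨ψ, rfl⟩ := hsurj n
    have h := Subgroup.mem_centralizer_singleton_iff.1 (Subgroup.mem_inf.1 hn).2
    rw [← map_mul, ← map_mul, act_eq_iff] at h
    obtain ⟨c, hc⟩ := h
    have hψ : ∀ v, ψ.map (χ.map v) = (c : F) • χ.map (ψ.map v) := fun v => by
      have := congrArg (fun s : Semi Q => s.map v) hc
      simpa using this
    have hcl : ψ.σ (l : F) = (c : F) * c * l := by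
      obtain ⟨v, hv⟩ := exists_nonsing_vec (show Nd Q from hG.nd)
      have hv0 : ψ.map v ≠ 0 := fun h0 => hv (by
        rw [ψ.map.map_eq_zero_iff.1 h0, map_zero])
      refine smul_left_injective F hv0 ?_
      show ψ.σ (l : F) • ψ.map v = ((c : F) * c * l) • ψ.map v
      rw [← ψ.map_smul, ← hsq, hψ, hψ, hlin, hsq, smul_smul, smul_smul]
    obtain ⟨ψE, h1, h2', h3⟩ := exists_semiE hsm hR h2 l.ne_zero c.ne_zero hcl hψ
    exact ⟨ψ, ψE, rfl, h1, h2', h3⟩
  have hres : ∀ (ψ : Semi Q) (ψE : Semi R), (∀ v, ψE.map v = ψ.map v) → ∀ g,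
      ψ.conjI (resE hsm hR g) = resE hsm hR (ψE.conjI g) := fun ψ ψE h g => iso_ext fun v => by
    obtain ⟨v, rfl⟩ := ψ.map.surjective v
    rw [AutOmegaOdd.Semi.conjI_apply, resE_apply hsm hR, resE_apply hsm hR, ← h, ← h,
      AutOmegaOdd.Semi.conjI_apply]
  have hNT : ∀ n ∈ N, ∀ t ∈ φ.range, n * t * n⁻¹ ∈ φ.range := by
    rintro n hn _ ⟨z, rfl⟩
    obtain ⟨ψ, ψE, rfl, hm, -, -⟩ := hlift n (hNC hn)
    refine ⟨ψE.conjG z, ?_⟩
    rw [hφ, hφ, ← map_inv, ← map_mul, ← map_mul, conj_ofIso, hres ψ ψE hm]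
    rfl
  intro n hn
  obtain ⟨ψ, ψE, rfl, hm, hHE, hσE⟩ := hlift n (hNC hn)
  have hcm : ∀ t ∈ φ.range, act hf hG ψ * t = t * act hf hG ψ := fun t ht =>
    commute_of_odd N φ.range hsimp h2T hcop (fun t ht n hn => hconj t (hTC ht) n hn) hNT hn ht
  let D : Subgroup (isoG Q) := (siegelGroup R).map (resE hsm hR)
  have hperf : D ≤ ⁅D, D⁆ := by
    rw [← Subgroup.map_commutator]
    refine Subgroup.map_mono ?_
    rw [← Subgroup.map_subtype_commutator, siegelGroup_perfect hGR, ← MonoidHom.range_eq_map,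
      Subgroup.range_subtype]
  have key := conjI_eq_of_perfect hf hG ψ D hperf (by
    rintro _ ⟨g, hg, rfl⟩
    exact hcm _ ⟨⟨g, hg⟩, rfl⟩)
  obtain ⟨e, he⟩ := scalar_of_conjI hGR ψE fun g hg => iso_ext fun y => by
    rw [← resE_apply hsm hR, ← hres ψ ψE hm, key _ ⟨g, hg, rfl⟩, resE_apply hsm hR]
  have hσ1 : ψ.σ = 1 := RingEquiv.ext fun a => by
    have h := hσE a
    rw [he, ofScalar_σ, RingAut.one_apply] at h
    exact (congrArg QuadraticAlgebra.re h).symm
  have hv : ∀ v, ψ.map v = (e : QE (l : F)).re • v + (e : QE (l : F)).im • χ.map v := fun v => by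
    rw [← hm, he, ofScalar_map, hsm]
  have hsquare : (e : QE (l : F)).re * (e : QE (l : F)).im = 0 := by
    have h := congrArg QuadraticAlgebra.im hHE
    rw [he, ofScalar_H, QuadraticAlgebra.im_mul] at h
    simp only [zero_mul, add_zero] at h
    have h' : (2 : F) * ((e : QE (l : F)).re * (e : QE (l : F)).im) = 0 := by linear_combination h
    exact (mul_eq_zero.1 h').resolve_left h2
  refine eq_one_of_odd_sq (odd_of_coprime hcop hn) ?_
  have hx2 : x * x = 1 := by rw [← map_mul, hl, act_ofScalar]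
  rcases mul_eq_zero.1 hsquare with h0 | h0
  · have hd : (e : QE (l : F)).im ≠ 0 := fun h1 => e.ne_zero (QuadraticAlgebra.ext h0 h1)
    have he' : ψ = ofScalar Q (Units.mk0 _ hd) * χ := semi_ext_map hG.nd
      (by rw [semi_mul_σ, ofScalar_σ, hσ1, hσ, one_mul]) fun v => by
        rw [hv, h0, zero_smul, zero_add, semi_mul_map, ofScalar_map]; rfl
    rw [he', map_mul, act_ofScalar, one_mul, hx2]
  · have hd : (e : QE (l : F)).re ≠ 0 := fun h1 => e.ne_zero (QuadraticAlgebra.ext h1 h0)
    have he' : ψ = ofScalar Q (Units.mk0 _ hd) := semi_ext_map hG.nd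
      (by rw [ofScalar_σ, hσ1]) fun v => by
        rw [hv, h0, zero_smul, add_zero, ofScalar_map]; rfl
    rw [he', act_ofScalar, one_mul]

end core

end Cfsg.Agent.Lib.AutOmega
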